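import Cfsg.Agent.Lib.Helper19.TC2Q
import Cfsg.Prelude.Def_SporadicB

/-! A criterion for a group to be a non-split double cover. -/

set_option autoImplicit false

namespace Cfsg.Agent.Lib.Helper19.DCover

open Cfsg.Agent.Lib.Helper19.TC2

theorem center_bot_of_simple {K : Type*} [Group K] (hs : IsSimpleGroup K)
    (hp : commutator K = ⊤) : Subgroup.center K = ⊥ := by
  rcases hs.eq_bot_or_eq_top_of_normal (Subgroup.center K) inferInstance with h | h
  · exact h
  · exfalso
    have h2 := (commutator_eq_bot_iff_center_eq_top K).2 h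
    rw [hp] at h2
    have := hs.toNontrivial
    exact top_ne_bot h2

theorem no_index_two {H : Type*} [Group H] (hp : commutator H = ⊤) (L : Subgroup H)
    (h2 : L.index = 2) : False := by
  have : L.Normal := Subgroup.normal_of_index_eq_two h2
  have hc : Nat.card (H ⧸ L) = 2 := h2
  have : Fact (Nat.Prime 2) := ⟨Nat.prime_two⟩
  have : IsCyclic (H ⧸ L) := isCyclic_of_prime_card hc
  have ht : L = ⊤ := top_of_comm_quot hp L (fun x y => IsCyclic.commGroup.mul_comm x y)
  rw [ht, Subgroup.index_top] at h2
  omega

theorem normal_of_central {H : Type*} [Group H] (t : H) (hc : ∀ x, x * t = t * x) :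
    (Subgroup.zpowers t).Normal := by
  constructor
  intro n hn g
  have h : Subgroup.zpowers t ≤ Subgroup.center H := by
    rw [Subgroup.zpowers_le, Subgroup.mem_center_iff]
    exact hc
  have := Subgroup.mem_center_iff.1 (h hn) g
  rw [this, mul_inv_cancel_right]
  exact hn

theorem nonsplit {H K : Type*} [Group H] [Group K] [Finite H]
    (t : H) (ht : t ≠ 1) (ht2 : t * t = 1) (hc : ∀ x, x * t = t * x)
    [hn : (Subgroup.zpowers t).Normal]
    (φ : K →* H ⧸ Subgroup.zpowers t) (hφ : Function.Surjective φ)
    (hcard : Nat.card H = 2 * Nat.card K)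
    (hK : Subgroup.center K = ⊥) (hp : commutator H = ⊤) :
    Cfsg.IsNonsplitDoubleCover H K := by
  have ho : orderOf t = 2 := orderOf_eq_prime (by rw [pow_two, ht2]) ht
  have hZ : Nat.card (Subgroup.zpowers t) = 2 := by rw [Nat.card_zpowers, ho]
  have hq : Nat.card (H ⧸ Subgroup.zpowers t) = Nat.card K := by
    have := Subgroup.card_eq_card_quotient_mul_card_subgroup (Subgroup.zpowers t)
    rw [hZ, hcard] at this
    omega
  have hpos : 0 < Nat.card H := Nat.card_pos
  have : Finite K := Nat.finite_of_card_ne_zero (by omega)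
  have hb : Function.Bijective φ :=
    (Nat.bijective_iff_surjective_and_card φ).2 ⟨hφ, hq.symm⟩
  let e : K ≃* H ⧸ Subgroup.zpowers t := MulEquiv.ofBijective φ hb
  have hcen : Subgroup.center H = Subgroup.zpowers t := by
    apply le_antisymm
    · intro x hx
      rw [← QuotientGroup.eq_one_iff]
      have h1 : e.symm (x : H ⧸ Subgroup.zpowers t) ∈ Subgroup.center K := by
        rw [Subgroup.mem_center_iff]
        intro k
        apply e.injective
        rw [map_mul, map_mul, MulEquiv.apply_symm_apply]
        obtain ⟨y, hy⟩ := QuotientGroup.mk_surjective (e k)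
        rw [← hy, ← QuotientGroup.mk_mul, ← QuotientGroup.mk_mul,
          Subgroup.mem_center_iff.1 hx y]
      rw [hK, Subgroup.mem_bot] at h1
      have := congrArg e h1
      rwa [MulEquiv.apply_symm_apply, map_one] at this
    · rw [Subgroup.zpowers_le, Subgroup.mem_center_iff]
      exact hc
  refine ⟨by rw [hcen, hZ], ⟨(QuotientGroup.quotientMulEquivOfEq hcen).trans e.symm⟩, ?_⟩
  intro L hL
  apply no_index_two hp L
  rw [hL.index_eq_card, hcen, hZ]

end Cfsg.Agent.Lib.Helper19.DCover
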