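import Mathlib
import Cfsg.Agent.Lib.Helper19.ExtPrim

set_option autoImplicit false

namespace Cfsg.Agent.Lib.Helper19

open MulAction

variable {G : Type*} [Group G] {Ω : Type*} [MulAction G Ω]

/-- A subgroup `M` of `G_x`, normalized by `G_x` and moving a point of the (primitive) orbit of `y`,
is transitive on that orbit. -/
theorem exists_smul_eq_of_normal_of_moves (x y : Ω)
    (hep : IsPreprimitive (stabilizer G x) (orbit (stabilizer G x) y))
    (M : Subgroup G) (hMle : M ≤ stabilizer G x)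
    (hMn : stabilizer G x ≤ Subgroup.normalizer (M : Set G))
    (hmove : ∃ m ∈ M, ∃ w ∈ orbit (stabilizer G x) y, m • w ≠ w) :
    ∀ g ∈ stabilizer G x, ∃ m ∈ M, m • y = g • y := by
  intro g hg
  have hN : (M.subgroupOf (stabilizer G x)).Normal :=
    Subgroup.normal_subgroupOf_iff_le_normalizer hMle |>.mpr hMn
  have hnf : fixedPoints (M.subgroupOf (stabilizer G x)) (orbit (stabilizer G x) y) ≠ Set.univ := by
    intro hu
    obtain ⟨m, hm, w, hw, hmw⟩ := hmove
    apply hmw
    have h1 : (⟨w, hw⟩ : orbit (stabilizer G x) y) ∈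
        fixedPoints (M.subgroupOf (stabilizer G x)) (orbit (stabilizer G x) y) := by
      rw [hu]; trivial
    have h2 := h1 ⟨⟨m, hMle hm⟩, hm⟩
    exact congrArg Subtype.val h2
  have htr := IsQuasiPreprimitive.isPretransitive_of_normal
    (G := stabilizer G x) (X := orbit (stabilizer G x) y) hnf
  obtain ⟨n, hn⟩ := htr.exists_smul_eq (⟨y, mem_orbit_self y⟩ : orbit (stabilizer G x) y)
    ⟨g • y, ⟨⟨g, hg⟩, rfl⟩⟩
  exact ⟨((n : stabilizer G x) : G), n.2, congrArg Subtype.val hn⟩

/-- In an extremely primitive group, a nontrivial normal subgroup of a point stabilizer has the same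
orbits as the point stabilizer. -/
theorem orbit_eq_of_normal_stabilizer [Finite G] [Finite Ω] [FaithfulSMul G Ω]
    (hprim : IsPreprimitive G Ω) (hH : ∀ a : Ω, stabilizer G a ≠ ⊥)
    (hep : ∀ a w : Ω, IsPreprimitive (stabilizer G a) (orbit (stabilizer G a) w))
    (α : Ω) (M : Subgroup G) (hM : M ≠ ⊥) (hMle : M ≤ stabilizer G α)
    (hMn : stabilizer G α ≤ Subgroup.normalizer (M : Set G)) (ω : Ω) :
    orbit M ω = orbit (stabilizer G α) ω := by
  apply Set.Subset.antisymm
  · rintro _ ⟨m, rfl⟩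
    exact ⟨⟨m, hMle m.2⟩, rfl⟩
  · rintro _ ⟨⟨g, hg⟩, rfl⟩
    by_cases hω : ω = α
    · subst hω
      refine ⟨1, ?_⟩
      show (1 : M) • ω = g • ω
      rw [one_smul]
      exact hg.symm
    · have hmove : ∃ m ∈ M, ∃ w ∈ orbit (stabilizer G α) ω, m • w ≠ w := by
        by_contra hcon
        push Not at hcon
        apply hM
        refine (Subgroup.eq_bot_iff_forall _).mpr fun m hm => ?_
        exact manning hprim hH hep α ω hω m (hMle hm) (hcon m hm)
      obtain ⟨m, hm, hmω⟩ := exists_smul_eq_of_normal_of_moves α ω (hep α ω) M hMle hMn hmove g hg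
      exact ⟨⟨m, hm⟩, hmω⟩

end Cfsg.Agent.Lib.Helper19
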