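import Cfsg.Agent.Lib.Helper19.TC2B

/-!
# Static Todd–Coxeter certificates, second version: glue
-/

set_option autoImplicit false

namespace Cfsg.Agent.Lib.Helper19.TC2

open Cfsg.Agent.Lib.Helper19.TCS (fld RC blt_iff evn prod_rep)

section leaves
variable (P : Par) {G : Type*} [Group G] (el : ℕ → G)

theorem sel_mem {l : List Letter} {k : ℕ} (hk : k < l.length) : sel l k ∈ l := by
  induction l generalizing k with
  | nil => simp at hk
  | cons p l ih =>
    cases k with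
    | zero => show p ∈ p :: l; simp
    | succ k =>
      have e : sel (p :: l) (k + 1) = sel l k := rfl
      rw [e]
      exact List.mem_cons_of_mem _ (ih (by simpa using hk))

theorem leaf_mem (l : List ℕ) (W : List Letter) (hW : W = l.map (sel P.LS))
    (hl : ∀ k ∈ l, k < P.LS.length) : ∀ p ∈ W, p ∈ P.LS := by
  subst hW
  intro p hp
  obtain ⟨k, hk, rfl⟩ := List.mem_map.1 hp
  exact sel_mem (hl k hk)

theorem leaf_ev (hsel : ∀ k < P.LS.length, (sel P.LS k).1 = k) (l : List ℕ) (W : List Letter)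
    (hW : W = l.map (sel P.LS)) (hl : ∀ k ∈ l, k < P.LS.length) : ev el W = evn el l := by
  subst hW
  unfold ev evn
  rw [List.map_map]
  congr 1
  apply List.map_congr_left
  intro k hk
  simp [hsel k (hl k hk)]

theorem leaf_ok (hsel : ∀ k < P.LS.length, (sel P.LS k).1 = k) (l : List ℕ) (W : List Letter)
    (hW : W = l.map (sel P.LS)) (hl : ∀ k ∈ l, k < P.LS.length) (hv : evn el l = 1) :
    (∀ p ∈ W, p ∈ P.LS) ∧ ev el W = 1 :=
  ⟨leaf_mem P l W hW hl, by rw [leaf_ev P el hsel l W hW hl, hv]⟩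

theorem nil_ok : (∀ p ∈ ([] : List Letter), p ∈ P.LS) ∧ ev el [] = 1 :=
  ⟨fun p hp => by simp at hp, rfl⟩

theorem sub_ok (H : Subgroup G) (hsel : ∀ k < P.LS.length, (sel P.LS k).1 = k) (l₁ l₂ : List ℕ)
    (X Z : List Letter) (hX : X = l₁.map (sel P.LS)) (hZ : Z = l₂.map (sel P.LS))
    (hl : ∀ k ∈ l₁ ++ l₂, k < P.LS.length) (hv : evn el (l₁ ++ l₂) ∈ H) :
    (∀ p ∈ (X, Z).1, p ∈ P.LS) ∧ (∀ p ∈ (X, Z).2, p ∈ P.LS) ∧ ev el (X, Z).1 * ev el (X, Z).2 ∈ H := by
  have h1 : ∀ k ∈ l₁, k < P.LS.length := fun k hk => hl k (by simp [hk])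
  have h2 : ∀ k ∈ l₂, k < P.LS.length := fun k hk => hl k (by simp [hk])
  refine ⟨leaf_mem P l₁ X hX h1, leaf_mem P l₂ Z hZ h2, ?_⟩
  show ev el X * ev el Z ∈ H
  rw [leaf_ev P el hsel l₁ X hX h1, leaf_ev P el hsel l₂ Z hZ h2]
  unfold evn at hv ⊢
  rwa [List.map_append, List.prod_append] at hv

end leaves

theorem pair_of_check {B : ParB} {β : Type} {num : β → ℕ} (h : OKB B num) (x y : β) (m : ℕ)
    (hl : ∀ i < B.N, app B (((List.replicate m [x, y]).flatten).map num) i = i) :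
    (sg h x * sg h y) ^ m = 1 := by
  have := prod_eq_one h _ hl
  rw [prod_rep] at this
  simpa using this

theorem loop_beq {E : ℕ → ℕ} {n : ℕ} (h : loop (fun i => Nat.beq (E i) i) 0 n = true) :
    ∀ i < n, E i = i := by
  intro i hi
  have := loop_spec h i (Nat.zero_le _) (by omega)
  exact Nat.eq_of_beq_eq_true this

theorem loop_beq_r {E : ℕ → ℕ} {lo n : ℕ} (h : loop (fun i => Nat.beq (E i) i) lo n = true) :
    ∀ i, lo ≤ i → i < lo + n → E i = i := by
  intro i h1 h2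
  have := loop_spec h i h1 h2
  exact Nat.eq_of_beq_eq_true this

theorem loop_inv {E : ℕ → ℕ} {n : ℕ}
    (h : loop (fun i => and (Nat.blt (E i) n) (Nat.beq (E (E i)) i)) 0 n = true) :
    ∀ i < n, E i < n ∧ E (E i) = i := by
  intro i hi
  have := loop_spec h i (Nat.zero_le _) (by omega)
  simp only [Bool.and_eq_true] at this
  exact ⟨blt_iff.1 this.1, Nat.eq_of_beq_eq_true this.2⟩

theorem loop_all {f : ℕ → Bool} {n : ℕ} (h : loop f 0 n = true) : ∀ i < n, f i = true :=
  fun i hi => loop_spec h i (Nat.zero_le _) (by omega)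


end Cfsg.Agent.Lib.Helper19.TC2
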