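import Cfsg.Agent.S1696
import Cfsg.Agent.S1697
import Cfsg.Agent.Lib.Helper19.DCover

/-! The subgroup `2·Fi22` of the presented group `Fi23`. -/

set_option autoImplicit false
set_option maxRecDepth 1000000

namespace Cfsg.Agent.Lib.Helper19.Fi23H

open Cfsg.Agent.Lib.Helper19.TCS (evn lift_rels)
open Cfsg.Agent.Lib.Helper19.TC2
open Cfsg.Spor
open Cfsg.Agent.Lib.Helper19.PresFi23 (el el_sq)
open Cfsg.Agent.Lib.Helper19
open Cfsg.Agent.Lib.Helper19.Fi23a (HH)

abbrev tw : List ℕ := [1, 2, 3, 4, 5, 6, 8, 1, 2, 3, 4, 5, 6, 8, 1, 2, 3, 4, 5, 6, 8, 1, 2, 3, 4, 5, 6, 8, 1, 2, 3, 4, 5, 6, 8, 1, 2, 3, 4, 5, 6, 8, 1, 2, 3, 4, 5, 6, 8, 1, 2, 3, 4, 5, 6, 8, 1, 2, 3, 4, 5, 6, 8]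

abbrev cw : List ℕ := [7, 6, 5, 4, 3, 2, 1, 8, 3, 2, 4, 3, 5, 4, 6, 5, 8, 3, 2, 1, 4, 3, 2, 8, 3, 4, 5, 6]

abbrev JJ : List ℕ := [0, 1, 2, 3, 4, 5, 6, 8, 9]

noncomputable def t : Cfsg.Spor.Fi23 := evn el tw

theorem evn_mem {G : Type*} [Group G] (e : ℕ → G) (J l : List ℕ) (h : ∀ k ∈ l, k ∈ J) :
    evn e l ∈ KK e J := by
  unfold evn
  apply Subgroup.list_prod_mem
  intro x hx
  obtain ⟨k, hk, rfl⟩ := List.mem_map.1 hx
  exact mem_KK e (h k hk)

theorem t_mem : t ∈ HH := by
  rw [OrdFi23.HH_eq]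
  exact evn_mem el JJ tw (by decide)

theorem el_mem {k : ℕ} (hk : k ∈ JJ) : el k ∈ HH := by
  rw [OrdFi23.HH_eq]
  exact mem_KK el hk

theorem t_comm : ∀ x ∈ HH, x * t = t * x := by
  have h : HH ≤ Subgroup.centralizer {t} := by
    rw [Fi23a.hH, Subgroup.closure_le]
    intro s hs
    obtain ⟨w, hw, rfl⟩ := Fi23a.h1 s hs
    rw [SetLike.mem_coe, Subgroup.mem_centralizer_singleton_iff]
    exact S1697.cmAll w hw
  intro x hx
  exact Subgroup.mem_centralizer_singleton_iff.1 (h hx)

theorem t_conj : t = evn el cw * el 7 * (evn el cw)⁻¹ :=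
  eq_mul_inv_of_mul_eq S1697.hconj

theorem t_sq : t * t = 1 := by
  rw [t_conj]
  have := el_sq 7
  calc evn el cw * el 7 * (evn el cw)⁻¹ * (evn el cw * el 7 * (evn el cw)⁻¹)
      = evn el cw * (el 7 * el 7) * (evn el cw)⁻¹ := by group
    _ = 1 := by rw [this]; group

theorem el7_ne : el 7 ≠ 1 := by
  intro h
  have h2 := S1697.hgenN ⊥ (by rw [h]; exact Subgroup.one_mem _)
  have := S1697.simple.toNontrivial
  exact bot_ne_top h2

theorem t_ne : t ≠ 1 := by
  intro h
  apply el7_ne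
  have h2 := S1697.hconj
  change t * _ = _ at h2
  rw [h, one_mul] at h2
  exact (mul_eq_left.1 h2.symm)

/-- the letters of `Fi22` inside `Fi23` -/
def m : Fi22.Gen → ℕ
  | .a => 0
  | .b => 1
  | .c => 2
  | .d => 3
  | .e => 4
  | .f => 5
  | .g => 6
  | .h => 8
  | .i => 9

theorem m_mem (x : Fi22.Gen) : m x ∈ JJ := by cases x <;> decide

noncomputable def fH (x : Fi22.Gen) : HH := ⟨el (m x), el_mem (m_mem x)⟩

noncomputable def tH : HH := ⟨t, t_mem⟩

theorem tH_ne : tH ≠ 1 := fun h => t_ne (congrArg Subtype.val h)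

theorem tH_sq : tH * tH = 1 := Subtype.ext t_sq

theorem tH_comm (x : HH) : x * tH = tH * x := Subtype.ext (t_comm x.1 x.2)

theorem label_eq (x y : Fi22.Gen) :
    coxLabel Fi22.edges x y = coxLabel Fi23.edges (PresFi23.gen (m x)) (PresFi23.gen (m y)) := by
  cases x <;> cases y <;> rfl

theorem fH_cox (x y : Fi22.Gen) : (fH x * fH y) ^ coxLabel Fi22.edges x y = 1 := by
  apply Subtype.ext
  rw [label_eq]
  exact S1697.hcox (m x) (m y)

theorem fH_sq (x : Fi22.Gen) : fH x * fH x = 1 := Subtype.ext (el_sq _)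

theorem fH_prod (l : List Fi22.Gen) : ((l.map fH).prod : HH).1 = evn el (l.map m) := by
  induction l with
  | nil => rfl
  | cons x l ih =>
    rw [List.map_cons, List.prod_cons, Subgroup.coe_mul, ih]
    rfl

theorem fH_x0 : (PresFi22.xg0.map fH).prod = 1 :=
  Subtype.ext ((fH_prod _).trans PresFi23.xg0_one)

theorem fH_x1 : (PresFi22.xg1.map fH).prod = 1 :=
  Subtype.ext ((fH_prod _).trans PresFi23.xg1_one)

theorem fH_x2 : (PresFi22.xg2.map fH).prod = tH :=
  Subtype.ext (fH_prod _)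

theorem gen_top : Subgroup.closure (Set.range fH) = ⊤ := by
  apply Subgroup.map_injective HH.subtype_injective
  rw [MonoidHom.map_closure, ← Set.range_comp, ← MonoidHom.range_eq_map, Subgroup.range_subtype]
  refine Eq.trans ?_ OrdFi23.HH_eq.symm
  unfold KK
  congr 1
  ext g
  constructor
  · rintro ⟨x, rfl⟩
    exact ⟨m x, m_mem x, rfl⟩
  · rintro ⟨k, hk, rfl⟩
    simp only [List.mem_cons, List.not_mem_nil, or_false] at hk
    rcases hk with rfl | rfl | rfl | rfl | rfl | rfl | rfl | rfl | rfl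
    · exact ⟨.a, rfl⟩
    · exact ⟨.b, rfl⟩
    · exact ⟨.c, rfl⟩
    · exact ⟨.d, rfl⟩
    · exact ⟨.e, rfl⟩
    · exact ⟨.f, rfl⟩
    · exact ⟨.g, rfl⟩
    · exact ⟨.h, rfl⟩
    · exact ⟨.i, rfl⟩

theorem card_HH : Nat.card HH = 129123503308800 := by
  rw [OrdFi23.HH_eq]
  exact OrdFi23.chain.1

instance fin_HH : Finite HH := Nat.finite_of_card_ne_zero (by rw [card_HH]; decide)

theorem perf_HH : commutator HH = ⊤ := by
  have sq : ∀ x, Abelianization.of (fH x) * Abelianization.of (fH x) = 1 := fun x => by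
    rw [← map_mul, fH_sq, map_one]
  have adj : ∀ x y, coxLabel Fi22.edges x y = 3 →
      Abelianization.of (fH x) = Abelianization.of (fH y) := by
    intro x y h
    apply ab_eq_of_odd (sq x) (sq y) 1
    rw [← map_mul, ← map_pow]
    have := fH_cox x y
    rw [h] at this
    exact (congrArg _ this).trans (map_one _)
  have ec := adj .c .d rfl
  have eb := (adj .b .c rfl).trans ec
  have ea := (adj .a .b rfl).trans eb
  have ee := adj .e .d rfl
  have ef := (adj .f .e rfl).trans ee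
  have eg := (adj .g .f rfl).trans ef
  have eh := adj .h .d rfl
  have ei := (adj .i .h rfl).trans eh
  have all : ∀ x, Abelianization.of (fH x) = Abelianization.of (fH .d) := by
    intro x
    cases x
    · exact ea
    · exact eb
    · exact ec
    · rfl
    · exact ee
    · exact ef
    · exact eg
    · exact eh
    · exact ei
  have h1 : Abelianization.of (fH .d) = 1 := by
    have h2 := congrArg Abelianization.of fH_x1
    rw [map_list_prod, List.map_map, map_one,
      List.prod_eq_pow_card _ (Abelianization.of (fH .d))] at h2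
    · exact one_of_odd_pow (sq .d) 31 h2
    · intro y hy
      obtain ⟨x, _, rfl⟩ := List.mem_map.1 hy
      exact all x
  apply perfect_of_gens _ gen_top
  rintro _ ⟨x, rfl⟩
  rw [all x, h1]

instance normal_Z : (Subgroup.zpowers tH).Normal := DCover.normal_of_central tH tH_comm

theorem mk_prod (l : List Fi22.Gen) :
    (l.map (fun x => QuotientGroup.mk' (Subgroup.zpowers tH) (fH x))).prod =
      QuotientGroup.mk' (Subgroup.zpowers tH) (l.map fH).prod := by
  rw [map_list_prod, List.map_map]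
  rfl

noncomputable def φ : Cfsg.Spor.Fi22 →* HH ⧸ Subgroup.zpowers tH :=
  PresentedGroup.toGroup (f := fun x => QuotientGroup.mk' (Subgroup.zpowers tH) (fH x))
    (lift_rels Fi22.edges Fi22.extra _
      (fun x y => by rw [← map_mul, ← map_pow, fH_cox, map_one])
      (PresFi22.lift_extra _ (fun x => by rw [← map_mul, fH_sq, map_one])
        (by rw [mk_prod, fH_x0, map_one])
        (by rw [mk_prod, fH_x1, map_one])
        (by
          rw [mk_prod, fH_x2]
          exact (QuotientGroup.eq_one_iff _).2 (Subgroup.mem_zpowers _))))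

theorem φ_of (x : Fi22.Gen) :
    φ (PresentedGroup.of x) = QuotientGroup.mk' (Subgroup.zpowers tH) (fH x) :=
  PresentedGroup.toGroup.of _

theorem φ_surj : Function.Surjective φ := by
  rw [← MonoidHom.range_eq_top]
  apply top_of_gens _ (QuotientGroup.mk' (Subgroup.zpowers tH) '' Set.range fH)
  · rw [← MonoidHom.map_closure, gen_top]
    exact Subgroup.map_top_of_surjective _ (QuotientGroup.mk'_surjective _)
  · rintro _ ⟨_, ⟨x, rfl⟩, rfl⟩
    exact ⟨PresentedGroup.of x, φ_of x⟩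

theorem cover : Cfsg.IsNonsplitDoubleCover HH Cfsg.Spor.Fi22 :=
  DCover.nonsplit tH tH_ne tH_sq tH_comm φ φ_surj
    (by rw [card_HH, S1696.result.2])
    (DCover.center_bot_of_simple S1696.simple S1696.hperf) perf_HH

end Cfsg.Agent.Lib.Helper19.Fi23H
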