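import Cfsg.Agent.Lib.Helper19.DCover

/-! Abstract lemmas on classes of 3-transpositions and transport of double covers. -/

set_option autoImplicit false

namespace Cfsg.Agent.Lib.Helper19.Transp

open Cfsg.Agent.Lib.Helper19.TC2

variable {G : Type*} [Group G]

theorem card_conjugatesOf (t : G) :
    Nat.card (conjugatesOf t) = (Subgroup.centralizer {t}).index := by
  have h1 : (Subgroup.centralizer {t}).index = (MulAction.stabilizer (ConjAct G) t).index := by
    rw [Subgroup.centralizer_eq_comap_stabilizer]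
    rfl
  rw [h1, MulAction.index_stabilizer, Nat.card_coe_set_eq]
  congr 1
  ext x
  rw [ConjAct.mem_orbit_conjAct, isConj_comm]
  rfl

theorem closure_conjugatesOf (t : G) :
    Subgroup.closure (conjugatesOf t) = Subgroup.normalClosure {t} := by
  unfold Subgroup.normalClosure
  congr 1
  simp [Group.conjugatesOfSet]

theorem reduce_reps {n : ℕ} (ψ : G →* Equiv.Perm (Fin n)) (z : Fin n) (H : Subgroup G)
    (hstab : ∀ x, ψ x z = z → x ∈ H) (t : G) (hc : ∀ x ∈ H, x * t = t * x)
    (P : G → Prop) (hP : ∀ u h, P u → P (h * u * h⁻¹))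
    (R : Set G) (hcov : ∀ p, ∃ r ∈ R, ∃ h ∈ H, ψ h (ψ r z) = p)
    (hR : ∀ r ∈ R, P (t * (r * t * r⁻¹))) : ∀ g, P (t * (g * t * g⁻¹)) := by
  intro g
  obtain ⟨r, hr, h, hh, e⟩ := hcov (ψ g z)
  have hk : (h * r)⁻¹ * g ∈ H := by
    apply hstab
    rw [map_mul, map_inv, Equiv.Perm.mul_apply, ← e, Equiv.Perm.inv_eq_iff_eq, map_mul,
      Equiv.Perm.mul_apply]
  have h1 := hc _ hk
  have h2 := hc _ hh
  have h3 : g * t * g⁻¹ = h * (r * t * r⁻¹) * h⁻¹ := by
    have : g = (h * r) * ((h * r)⁻¹ * g) := by group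
    have e2 : g * t = (h * r) * t * ((h * r)⁻¹ * g) := by
      rw [mul_assoc (h * r), ← h1, ← mul_assoc, ← this]
    rw [e2]
    group
  have h4 : t * (g * t * g⁻¹) = h * (t * (r * t * r⁻¹)) * h⁻¹ := by
    rw [h3]
    calc t * (h * (r * t * r⁻¹) * h⁻¹) = (t * h) * (r * t * r⁻¹) * h⁻¹ := by group
      _ = (h * t) * (r * t * r⁻¹) * h⁻¹ := by rw [h2]
      _ = h * (t * (r * t * r⁻¹)) * h⁻¹ := by group
  rw [h4]
  exact hP _ _ (hR r hr)

theorem transp_set (t : G) (ht : t ≠ 1) (ht2 : t * t = 1)
    (h : ∀ g, (t * (g * t * g⁻¹)) ^ 2 = 1 ∨ (t * (g * t * g⁻¹)) ^ 3 = 1) :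
    Cfsg.IsThreeTranspositionSet (conjugatesOf t) := by
  constructor
  · intro d hd
    obtain ⟨x, rfl⟩ := isConj_iff.1 (show IsConj t d from hd)
    apply orderOf_eq_prime
    · rw [conj_pow, pow_two, ht2]
      group
    · intro h1
      apply ht
      have : t = x⁻¹ * (x * t * x⁻¹) * x := by group
      rw [this, h1]
      group
  · intro d hd e he
    obtain ⟨x, rfl⟩ := isConj_iff.1 (show IsConj t d from hd)
    obtain ⟨y, rfl⟩ := isConj_iff.1 (show IsConj t e from he)
    have e1 : x * t * x⁻¹ * (y * t * y⁻¹) = x * (t * ((x⁻¹ * y) * t * (x⁻¹ * y)⁻¹)) * x⁻¹ := by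
      group
    rw [e1, conj_pow, conj_pow]
    rcases h (x⁻¹ * y) with h2 | h2
    · left
      rw [h2]
      group
    · right
      rw [h2]
      group

theorem map_center {H H' : Type*} [Group H] [Group H'] (e : H ≃* H') :
    (Subgroup.center H).map e.toMonoidHom = Subgroup.center H' := by
  ext x
  rw [Subgroup.mem_map_equiv, Subgroup.mem_center_iff, Subgroup.mem_center_iff]
  constructor
  · intro h y
    have := congrArg e (h (e.symm y))
    simpa using this
  · intro h y
    apply e.injective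
    simpa using h (e y)

theorem perfect_of_equiv {H H' : Type*} [Group H] [Group H'] (e : H ≃* H')
    (hp : commutator H = ⊤) : commutator H' = ⊤ := by
  have h := Subgroup.map_commutator (⊤ : Subgroup H) ⊤ e.toMonoidHom
  rw [Subgroup.map_top_of_surjective _ e.surjective] at h
  rw [commutator_def, ← h, ← commutator_def, hp, Subgroup.map_top_of_surjective _ e.surjective]

theorem transport {H H' K : Type*} [Group H] [Group H'] [Group K] (e : H ≃* H')
    (h : Cfsg.IsNonsplitDoubleCover H K) (hp : commutator H = ⊤) :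
    Cfsg.IsNonsplitDoubleCover H' K := by
  obtain ⟨h1, ⟨f⟩, _⟩ := h
  have hc : Nat.card (Subgroup.center H') = 2 := by
    rw [← h1, ← map_center e]
    exact (Nat.card_congr (e.subgroupMap (Subgroup.center H)).toEquiv).symm
  refine ⟨hc, ⟨(QuotientGroup.congr _ _ e (map_center e)).symm.trans f⟩, ?_⟩
  intro L hL
  apply DCover.no_index_two (perfect_of_equiv e hp) L
  rw [hL.index_eq_card, hc]

theorem map_centralizer (t g : G) :
    (Subgroup.centralizer {t}).map (MulAut.conj g).toMonoidHom =
      Subgroup.centralizer {g * t * g⁻¹} := by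
  ext x
  rw [Subgroup.mem_map_equiv, Subgroup.mem_centralizer_singleton_iff,
    Subgroup.mem_centralizer_singleton_iff, MulAut.conj_symm_apply]
  constructor
  · intro h
    have : x * (g * t * g⁻¹) = g * (g⁻¹ * x * g * t) * g⁻¹ := by group
    rw [this, h]
    group
  · intro h
    have : g⁻¹ * x * g * t = g⁻¹ * (x * (g * t * g⁻¹)) * g := by group
    rw [this, h]
    group

noncomputable def centralizerEquiv (t g : G) :
    Subgroup.centralizer {t} ≃* Subgroup.centralizer {g * t * g⁻¹} :=
  ((MulAut.conj g).subgroupMap (Subgroup.centralizer {t})).trans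
    (MulEquiv.subgroupCongr (map_centralizer t g))

end Cfsg.Agent.Lib.Helper19.Transp
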