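import Cfsg.Agent.Lib.Helper19.Fi23H
import Cfsg.Agent.Lib.Helper19.Transp

/-! The class of 3-transpositions of the presented group `Fi23`. -/

set_option autoImplicit false
set_option maxRecDepth 1000000

namespace Cfsg.Agent.Lib.Helper19.Fi23T

open Cfsg.Agent.Lib.Helper19.TCS (evn)
open Cfsg.Agent.Lib.Helper19.TC2
open Cfsg.Spor
open Cfsg.Agent.Lib.Helper19.PresFi23 (el el_sq)
open Cfsg.Agent.Lib.Helper19
open Cfsg.Agent.Lib.Helper19.Fi23a (HH f2 f3 f4 f5 f6 f7 f8)
open Cfsg.Agent.Lib.Helper19.Fi23H (t tw t_mem t_comm t_sq t_ne)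
open Cfsg.Agent.Lib.Helper19.OrdFi23.Z (fT)

section tables
variable {B : ParB}

theorem comm_conj_tableW (fT : ℕ → ℕ) (tw r r' : List ℕ) (hA : ∀ i < B.N, app B tw i = fT i)
    (hr : ∀ i < B.N, app B r i < B.N) (hr' : ∀ i < B.N, app B r' i < B.N)
    (ht : ∀ i < B.N, app B tw i < B.N)
    (hB : ∀ i < B.N, fT (app B r (fT (app B r' i))) = app B r (fT (app B r' (fT i)))) :
    ∀ i < B.N, app B (tw ++ (r ++ (tw ++ r'))) i = app B (r ++ (tw ++ (r' ++ tw))) i := by
  intro i hi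
  have h1 := hr' i hi
  have h2 := ht _ h1
  have h3 := hr _ h2
  have h4 := ht i hi
  have h5 := hr' _ h4
  rw [app_append, app_append, app_append, app_append, app_append, app_append, hA _ h3, hA _ h1,
    hA _ h5, hA i hi, hB i hi]

theorem cube_tableW (fT : ℕ → ℕ) (tw w : List ℕ) (hA : ∀ i < B.N, app B tw i = fT i)
    (hw : ∀ i < B.N, app B w i < B.N) (ht : ∀ i < B.N, app B tw i < B.N)
    (hB : ∀ i < B.N, fT (app B w (fT (app B w (fT (app B w i))))) = i) :
    ∀ i < B.N, app B (tw ++ (w ++ (tw ++ (w ++ (tw ++ w))))) i = app B [] i := by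
  intro i hi
  have h1 := hw i hi
  have h2 := ht _ h1
  have h3 := hw _ h2
  have h4 := ht _ h3
  have h5 := hw _ h4
  rw [app_append, app_append, app_append, app_append, app_append, hA _ h5, hA _ h3, hA _ h1,
    hB i hi]
  rfl

end tables

theorem evn_mul_rev {G : Type*} [Group G] (e : ℕ → G) (he : ∀ k, e k * e k = 1) (l : List ℕ) :
    evn e l * evn e l.reverse = 1 := by
  induction l with
  | nil => simp [evn]
  | cons k l ih =>
    rw [List.reverse_cons, evn_append, evn_single]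
    have e1 : evn e (k :: l) = e k * evn e l := by simp [evn]
    rw [e1]
    calc e k * evn e l * (evn e l.reverse * e k)
        = e k * (evn e l * evn e l.reverse) * e k := by group
      _ = 1 := by rw [ih, mul_one, he]

abbrev r1 : List ℕ := [7, 6, 5, 4, 3, 8, 2, 3, 4, 5, 6, 7]
abbrev r1' : List ℕ := [7, 6, 5, 4, 3, 2, 8, 3, 4, 5, 6, 7]

noncomputable section
def R (i : ℕ) : ℕ := f7 (f6 (f5 (f4 (f3 (f8 (f2 (f3 (f4 (f5 (f6 (f7 i)))))))))))
def R' (i : ℕ) : ℕ := f7 (f6 (f5 (f4 (f3 (f2 (f8 (f3 (f4 (f5 (f6 (f7 i)))))))))))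
end

theorem tD_0 : loop (fun i => Nat.beq (fT (R (fT (R' i)))) (R (fT (R' (fT i))))) 0 16000 = true := by
  decide +kernel

theorem tD_1 : loop (fun i => Nat.beq (fT (R (fT (R' i)))) (R (fT (R' (fT i))))) 16000 15671 = true := by
  decide +kernel

theorem tD : ∀ i < 31671, fT (R (fT (R' i))) = R (fT (R' (fT i))) := by
  intro i hi
  rcases Nat.lt_or_ge i 16000 with h0 | h0
  · exact loop_beq2_r tD_0 i (by omega) (by omega)
  exact loop_beq2_r tD_1 i (by omega) (by omega)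

theorem tE_0 : loop (fun i => Nat.beq (fT (f7 (fT (f7 (fT (f7 i)))))) i) 0 31671 = true := by
  decide +kernel

theorem tE : ∀ i < 31671, fT (f7 (fT (f7 (fT (f7 i))))) = i := by
  intro i hi
  exact loop_beq2_r tE_0 i (by omega) (by omega)

theorem hD : ∀ i < Fi23a.cB.N, fT (app Fi23a.cB r1 (fT (app Fi23a.cB r1' i))) =
    app Fi23a.cB r1 (fT (app Fi23a.cB r1' (fT i))) := tD

theorem hE : ∀ i < Fi23a.cB.N,
    fT (app Fi23a.cB [7] (fT (app Fi23a.cB [7] (fT (app Fi23a.cB [7] i))))) = i := tE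

theorem lt_of (w : List ℕ) (h : ∀ k ∈ w, k < 10) : ∀ i < Fi23a.cB.N, app Fi23a.cB w i < Fi23a.cB.N :=
  app_lt _ (fun k hk => S1697.hlt k (h k hk))

theorem comm_r1 : t * (evn el r1 * (t * evn el r1')) = evn el r1 * (t * (evn el r1' * t)) := by
  have h := eq_of_app (L := 10) Fi23a.ψ Fi23a.hψ S1697.faith (tw ++ (r1 ++ (tw ++ r1')))
    (r1 ++ (tw ++ (r1' ++ tw))) (by decide) (by decide)
    (comm_conj_tableW fT tw r1 r1' S1697.hA (lt_of _ (by decide)) (lt_of _ (by decide))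
      (lt_of _ (by decide)) hD)
  rw [evn_append, evn_append, evn_append, evn_append, evn_append, evn_append] at h
  exact h

theorem cube_j : t * (el 7 * (t * (el 7 * (t * el 7)))) = 1 := by
  have h := eq_of_app (L := 10) Fi23a.ψ Fi23a.hψ S1697.faith
    (tw ++ ([7] ++ (tw ++ ([7] ++ (tw ++ [7]))))) [] (by decide) (by decide)
    (cube_tableW fT tw [7] S1697.hA (lt_of _ (by decide)) (lt_of _ (by decide)) hE)
  rw [evn_append, evn_append, evn_append, evn_append, evn_append, evn_single] at h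
  exact h

theorem r1_inv : (evn el r1)⁻¹ = evn el r1' :=
  inv_eq_of_mul_eq_one_right (evn_mul_rev el el_sq r1)

theorem el7_inv : (el 7)⁻¹ = el 7 := inv_eq_of_mul_eq_one_right (el_sq 7)

theorem P0 : (t * (1 * t * 1⁻¹)) ^ 2 = 1 := by
  rw [one_mul, inv_one, mul_one, t_sq, one_pow]

theorem P1 : (t * (evn el r1 * t * (evn el r1)⁻¹)) ^ 2 = 1 := by
  have hx2 : (evn el r1 * t * (evn el r1)⁻¹) * (evn el r1 * t * (evn el r1)⁻¹) = 1 := by
    calc (evn el r1 * t * (evn el r1)⁻¹) * (evn el r1 * t * (evn el r1)⁻¹)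
        = evn el r1 * (t * t) * (evn el r1)⁻¹ := by group
      _ = 1 := by rw [t_sq]; group
  have hc : t * (evn el r1 * t * (evn el r1)⁻¹) = (evn el r1 * t * (evn el r1)⁻¹) * t := by
    rw [r1_inv, mul_assoc, mul_assoc, mul_assoc]
    exact comm_r1
  generalize evn el r1 * t * (evn el r1)⁻¹ = x at hx2 hc
  calc (t * x) ^ 2 = t * x * (t * x) := pow_two _
    _ = t * x * (x * t) := by rw [hc]
    _ = t * (x * x) * t := by group
    _ = 1 := by rw [hx2, mul_one, t_sq]

theorem P2 : (t * (el 7 * t * (el 7)⁻¹)) ^ 3 = 1 := by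
  rw [el7_inv]
  have h : (t * el 7) ^ 3 = 1 := by
    rw [← cube_j, pow_succ, pow_two]
    simp only [mul_assoc]
  have e : t * (el 7 * t * el 7) = (t * el 7) ^ 2 := by
    rw [pow_two]
    simp only [mul_assoc]
  rw [e, ← pow_mul, mul_comm, pow_mul, h, one_pow]

theorem pt1 : Fi23a.ψ (evn el r1) Fi23a.z = ⟨1, by decide⟩ := by
  apply Fin.ext
  rw [psi_evn Fi23a.ψ Fi23a.hψ r1 (by decide)]
  decide +kernel

theorem pt2 : Fi23a.ψ (el 7) Fi23a.z = ⟨3511, by decide⟩ := by
  apply Fin.ext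
  rw [Fi23a.hψ 7 (by decide)]
  decide +kernel

theorem hcov : ∀ p, ∃ r ∈ ({1, evn el r1, el 7} : Set Cfsg.Spor.Fi23), ∃ h ∈ HH,
    Fi23a.ψ h (Fi23a.ψ r Fi23a.z) = p := by
  intro p
  rcases Nat.lt_or_ge p.1 1 with h0 | h0
  · refine ⟨1, by simp, 1, Subgroup.one_mem _, ?_⟩
    rw [map_one]
    apply Fin.ext
    have : (Fi23a.z).1 = 0 := rfl
    simp only [Equiv.Perm.coe_one, id_eq]
    omega
  rcases Nat.lt_or_ge p.1 3511 with h1 | h1
  · have hp : p ∈ {i : Fin Fi23a.cB.N | 1 ≤ i.1 ∧ i.1 < 3511} := ⟨h0, h1⟩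
    rw [← Fi23a.orb_0] at hp
    obtain ⟨h, hh, e⟩ := hp
    exact ⟨evn el r1, by simp, h, hh, by rw [pt1]; exact e⟩
  · have hp : p ∈ {i : Fin Fi23a.cB.N | 3511 ≤ i.1 ∧ i.1 < 31671} := ⟨h1, p.2⟩
    rw [← Fi23a.orb_1] at hp
    obtain ⟨h, hh, e⟩ := hp
    exact ⟨el 7, by simp, h, hh, by rw [pt2]; exact e⟩

theorem all_g : ∀ g : Cfsg.Spor.Fi23,
    (t * (g * t * g⁻¹)) ^ 2 = 1 ∨ (t * (g * t * g⁻¹)) ^ 3 = 1 := by
  apply Transp.reduce_reps Fi23a.ψ Fi23a.z HH OrdFi23.CX.stab t t_comm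
    (fun u => u ^ 2 = 1 ∨ u ^ 3 = 1) _ _ hcov
  · intro r hr
    simp only [Set.mem_insert_iff, Set.mem_singleton_iff] at hr
    rcases hr with rfl | rfl | rfl
    · exact Or.inl P0
    · exact Or.inl P1
    · exact Or.inr P2
  · intro u h hu
    rw [conj_pow, conj_pow]
    rcases hu with hu | hu
    · left
      rw [hu]
      group
    · right
      rw [hu]
      group

theorem transp : Cfsg.IsThreeTranspositionSet (conjugatesOf t) :=
  Transp.transp_set t t_ne t_sq all_g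

theorem centralizer_eq : Subgroup.centralizer {t} = HH := by
  have hle : HH ≤ Subgroup.centralizer {t} := fun x hx =>
    Subgroup.mem_centralizer_singleton_iff.2 (t_comm x hx)
  by_contra hne
  have htop := OrdFi23.CX.coatom.2 _ (lt_of_le_of_ne hle (Ne.symm hne))
  apply t_ne
  have hc : t ∈ Subgroup.center Cfsg.Spor.Fi23 := by
    rw [Subgroup.mem_center_iff]
    intro g
    have : g ∈ Subgroup.centralizer {t} := by rw [htop]; exact Subgroup.mem_top g
    exact Subgroup.mem_centralizer_singleton_iff.1 this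
  rw [DCover.center_bot_of_simple S1697.simple S1697.hperf] at hc
  exact Subgroup.mem_bot.1 hc

theorem card_D : Nat.card (conjugatesOf t) = 31671 := by
  rw [Transp.card_conjugatesOf, centralizer_eq, Fi23a.index_eq]

theorem closure_D : Subgroup.closure (conjugatesOf t) = ⊤ := by
  rw [Transp.closure_conjugatesOf]
  apply S1697.hgenN
  exact mem_of_conj _ (Subgroup.subset_normalClosure (Set.mem_singleton t)) S1697.hconj

theorem cover_t : Cfsg.IsNonsplitDoubleCover (Subgroup.centralizer {t}) Cfsg.Spor.Fi22 :=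
  Transp.transport (MulEquiv.subgroupCongr centralizer_eq.symm) Fi23H.cover Fi23H.perf_HH

theorem perf_t : commutator (Subgroup.centralizer {t}) = ⊤ :=
  Transp.perfect_of_equiv (MulEquiv.subgroupCongr centralizer_eq.symm) Fi23H.perf_HH

theorem cover_d : ∀ d ∈ conjugatesOf t,
    Cfsg.IsNonsplitDoubleCover (Subgroup.centralizer {d}) Cfsg.Spor.Fi22 := by
  intro d hd
  obtain ⟨g, rfl⟩ := isConj_iff.1 (show IsConj t d from hd)
  exact Transp.transport (Transp.centralizerEquiv t g) cover_t perf_t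

theorem cls : Cfsg.IsThreeTranspositionClass (conjugatesOf t) :=
  ⟨transp, ⟨t, mem_conjugatesOf_self, rfl⟩, closure_D⟩

end Cfsg.Agent.Lib.Helper19.Fi23T
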