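import Mathlib

set_option autoImplicit false

namespace Cfsg.Agent.Lib.Helper19

/-- Two linearly independent families with the same finite index type are related by a linear
automorphism. -/
theorem exists_linearEquiv_of_linearIndependent {K V ι : Type*} [Field K] [AddCommGroup V]
    [Module K V] [Finite ι] {u w : ι → V} (hu : LinearIndependent K u)
    (hw : LinearIndependent K w) : ∃ A : V ≃ₗ[K] V, ∀ i, A (u i) = w i := by
  classical
  let f := hu.linearCombinationEquiv.symm ≪≫ₗ hw.linearCombinationEquiv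
  have : FiniteDimensional K (Submodule.span K (Set.range u)) :=
    FiniteDimensional.span_of_finite K (Set.finite_range _)
  obtain ⟨g, hg⟩ := Submodule.exists_linearEquiv_restrict_eq f
  refine ⟨g, fun i => ?_⟩
  have h1 : (hu.linearCombinationEquiv (Finsupp.single i 1) : V) = u i := by simp
  have h2 : (hw.linearCombinationEquiv (Finsupp.single i 1) : V) = w i := by simp
  rw [← h1, ← hg, ← h2]
  simp [f]

theorem exists_linearEquiv_single {K V : Type*} [Field K] [AddCommGroup V]
    [Module K V] {u w : V} (hu : u ≠ 0) (hw : w ≠ 0) : ∃ A : V ≃ₗ[K] V, A u = w := by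
  obtain ⟨A, hA⟩ := exists_linearEquiv_of_linearIndependent (K := K) (ι := Unit)
    (u := fun _ => u) (w := fun _ => w)
    (LinearIndependent.of_subsingleton () hu) (LinearIndependent.of_subsingleton () hw)
  exact ⟨A, hA ()⟩

theorem exists_linearEquiv_pair {K V : Type*} [Field K] [AddCommGroup V]
    [Module K V] {u₁ u₂ w₁ w₂ : V} (hu : LinearIndependent K ![u₁, u₂])
    (hw : LinearIndependent K ![w₁, w₂]) : ∃ A : V ≃ₗ[K] V, A u₁ = w₁ ∧ A u₂ = w₂ := by
  obtain ⟨A, hA⟩ := exists_linearEquiv_of_linearIndependent hu hw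
  exact ⟨A, by simpa using hA 0, by simpa using hA 1⟩

theorem linearIndependent_pair_zmod_two {V : Type*} [AddCommGroup V] [Module (ZMod 2) V]
    {u₁ u₂ : V} (h1 : u₁ ≠ 0) (h2 : u₂ ≠ 0) (h12 : u₁ ≠ u₂) :
    LinearIndependent (ZMod 2) ![u₁, u₂] := by
  rw [LinearIndependent.pair_iff]
  intro s t h
  have hs : ∀ s : ZMod 2, s = 0 ∨ s = 1 := by decide
  have hchar : ∀ v : V, v + v = 0 := by
    intro v
    have : (2 : ZMod 2) • v = 0 := by
      have h2 : (2 : ZMod 2) = 0 := by decide
      rw [h2, zero_smul]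
    rwa [two_smul] at this
  rcases hs s with rfl | rfl <;> rcases hs t with rfl | rfl
  · exact ⟨rfl, rfl⟩
  · simp at h; exact absurd h h2
  · simp at h; exact absurd h h1
  · exfalso
    simp only [one_smul] at h
    apply h12
    have := hchar u₂
    have h3 : u₁ + u₂ = u₂ + u₂ := by rw [h, this]
    exact add_right_cancel h3

/-- A proper subspace is fixed pointwise by a linear automorphism of any prescribed nonzero
determinant. -/
theorem exists_linearEquiv_fix_det {K V : Type*} [Field K] [AddCommGroup V] [Module K V]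
    [FiniteDimensional K V] (W : Submodule K V) (hW : W < ⊤) (c : K) (hc : c ≠ 0) :
    ∃ D : V ≃ₗ[K] V, (∀ x ∈ W, D x = x) ∧ LinearMap.det (D : V →ₗ[K] V) = c := by
  obtain ⟨f, hf, hWf⟩ := W.exists_le_ker_of_lt_top hW
  obtain ⟨v₀, hv₀⟩ : ∃ v₀, f v₀ ≠ 0 := by
    by_contra h
    push Not at h
    exact hf (LinearMap.ext h)
  set v : V := ((c - 1) / f v₀) • v₀ with hv
  have hfv : f v = c - 1 := by
    rw [hv, map_smul, smul_eq_mul]
    field_simp
  have hu : IsUnit (1 + f v) := by
    rw [hfv]
    simpa using hc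
  refine ⟨LinearEquiv.dilatransvection (f := f) (v := v) hu, fun x hx => ?_, ?_⟩
  · rw [LinearEquiv.dilatransvection.apply]
    have : f x = 0 := hWf hx
    rw [this, zero_smul, add_zero]
  · rw [LinearEquiv.dilatransvection.coe_toLinearMap, LinearMap.transvection.det, hfv]
    ring

end Cfsg.Agent.Lib.Helper19
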