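import Cfsg.Agent.Lib.Helper19.TC2O

/-!
# Orders and simplicity of presented groups from Todd–Coxeter certificates: glue lemmas
-/

set_option autoImplicit false

namespace Cfsg.Agent.Lib.Helper19.TC2

open Cfsg.Agent.Lib.Helper19.TCS (fld RC blt_iff evn ncard_interval)

section ubglue
variable (P : Par) {G : Type*} [Group G] (el : ℕ → G) (J J' : List ℕ)

theorem leaf_okJ (hsel : ∀ k < P.LS.length, (sel P.LS k).1 = k) (l gl : List ℕ) (W : List Letter)
    (hW : W = l.map (sel P.LS)) (hl : ∀ k ∈ l, k < P.LS.length) (hg : l.map (jm J) = gl)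
    (hv : evn el gl = 1) :
    (∀ p ∈ W, p ∈ P.LS) ∧ ev (fun k => el (jm J k)) W = 1 :=
  leaf_ok P _ hsel l W hW hl (by rw [evn_jm, hg, hv])

theorem sub_memJ (k : ℕ) (h : jm J k ∈ J') : evn (fun k => el (jm J k)) [k] ∈ KK el J' := by
  simp only [evn, List.map_cons, List.map_nil, List.prod_cons, List.prod_nil, mul_one]
  exact mem_KK el h

variable {P}

theorem ub_stepJ (hel : ∀ k, el k * el k = 1)
    (hyp : Hyp P (KK el J') (fun k => el (jm J k))) (h0 : al P 0 = true)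
    (hrow : ∀ a < P.M, row P a = true)
    (hLS : P.LS.map (fun p => jm J p.1) = J) {n : ℕ} (hcnt : cntA (al P) P.M 0 = n)
    (hf : Finite (KK el J')) :
    Finite (KK el J) ∧ Nat.card (KK el J) ≤ n * Nat.card (KK el J') := by
  have := ub_step hyp h0 hrow
    (fun p hp => ⟨p, hp, (inv_eq_of_mul_eq_one_right (hel _)).symm⟩) hcnt
  rwa [closure_eq_KK el J P.LS hLS] at this

end ubglue

section lbglue
variable {B : ParB} {EO POS : Tb} {ew em : ℕ} {J J' : List ℕ} {β n : ℕ}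
variable {G : Type*} [Group G] {el : ℕ → G} {L : ℕ} (ψ : G →* Equiv.Perm (Fin B.N))

theorem lb_stepJ (hψ : ∀ k < L, ∀ i : Fin B.N, (ψ (el k) i).1 = fB B k i.1)
    (hJ : ∀ k ∈ J, k < L) (hsub : ∀ k ∈ J', k ∈ J)
    (h : loop (chkO B EO POS ew em J β) 0 n = true) (hβ : β < B.N)
    (hf : ∀ k ∈ J', fB B k β = β) : LBStep ψ (KK el J) (KK el J') n :=
  ⟨KK_mono el hsub, ⟨β, hβ⟩, fix_KK ψ hψ (fun k hk => hJ k (hsub k hk)) ⟨β, hβ⟩ hf,
    lb_orbit ψ hψ hJ h ⟨β, hβ⟩ rfl⟩

/-- the enumerated set is closed under the generators -/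
noncomputable def chkCO (B : ParB) (EO POS : Tb) (ew em : ℕ) (J : List ℕ) (n t : ℕ) : Bool :=
  List.rec true (fun k _ ih =>
    cond (and (Nat.blt (rd B.bw B.bm B.k B.km POS (fB B k (eP B EO ew em t))) n)
      (Nat.beq (eP B EO ew em (rd B.bw B.bm B.k B.km POS (fB B k (eP B EO ew em t))))
        (fB B k (eP B EO ew em t)))) ih false) J

theorem chkCO_spec {t : ℕ} (h : chkCO B EO POS ew em J n t = true) :
    ∀ k ∈ J, ∃ s < n, eP B EO ew em s = fB B k (eP B EO ew em t) := by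
  unfold chkCO at h
  induction J with
  | nil => intro p hp; simp at hp
  | cons q L ih =>
    have h' : cond (and (Nat.blt (rd B.bw B.bm B.k B.km POS (fB B q (eP B EO ew em t))) n)
      (Nat.beq (eP B EO ew em (rd B.bw B.bm B.k B.km POS (fB B q (eP B EO ew em t))))
        (fB B q (eP B EO ew em t))))
      (List.rec true (fun k _ ih =>
        cond (and (Nat.blt (rd B.bw B.bm B.k B.km POS (fB B k (eP B EO ew em t))) n)
          (Nat.beq (eP B EO ew em (rd B.bw B.bm B.k B.km POS (fB B k (eP B EO ew em t))))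
            (fB B k (eP B EO ew em t)))) ih false) L) false = true := h
    cases hq : (and (Nat.blt (rd B.bw B.bm B.k B.km POS (fB B q (eP B EO ew em t))) n)
      (Nat.beq (eP B EO ew em (rd B.bw B.bm B.k B.km POS (fB B q (eP B EO ew em t))))
        (fB B q (eP B EO ew em t))))
    · rw [hq] at h'; simp at h'
    · rw [hq] at h'
      intro p hp
      rcases List.mem_cons.1 hp with rfl | hp
      · rw [Bool.and_eq_true, blt_iff, Nat.beq_eq] at hq
        exact ⟨_, hq.1, hq.2⟩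
      · exact ih h' p hp

/-- the orbit is contained in the enumerated set -/
theorem orbit_sub (hψ : ∀ k < L, ∀ i : Fin B.N, (ψ (el k) i).1 = fB B k i.1)
    (hel : ∀ k, el k * el k = 1) (hJ : ∀ k ∈ J, k < L) (hn : 0 < n)
    (hc : loop (chkCO B EO POS ew em J n) 0 n = true) (βf : Fin B.N)
    (hβ : βf.1 = eP B EO ew em 0) :
    ∀ x ∈ KK el J, ∃ t < n, (ψ x βf).1 = eP B EO ew em t := by
  have key : ∀ k ∈ J, ∀ y : G, (∃ t < n, (ψ y βf).1 = eP B EO ew em t) →
      ∃ t < n, (ψ (el k * y) βf).1 = eP B EO ew em t := by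
    rintro k hk y ⟨t, ht, hy⟩
    obtain ⟨s, hs, hse⟩ := chkCO_spec (loop_spec hc t (Nat.zero_le _) (by omega)) k hk
    exact ⟨s, hs, by rw [map_mul, Equiv.Perm.mul_apply, hψ k (hJ k hk), hy, hse]⟩
  intro x hx
  unfold KK at hx
  induction hx using Subgroup.closure_induction_left with
  | one => exact ⟨0, hn, by rw [map_one]; exact hβ⟩
  | mul_left s hs y _ ih =>
    obtain ⟨k, hk, rfl⟩ := hs
    exact key k hk y ih
  | inv_mul_cancel s hs y _ ih =>
    obtain ⟨k, hk, rfl⟩ := hs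
    rw [inv_eq_of_mul_eq_one_right (hel k)]
    exact key k hk y ih

/-- a point outside the enumerated set -/
theorem not_in_enum (h : loop (chkO B EO POS ew em J β) 0 n = true) {y : ℕ}
    (hy : and (Nat.blt (rd B.bw B.bm B.k B.km POS y) n)
      (Nat.beq (eP B EO ew em (rd B.bw B.bm B.k B.km POS y)) y) = false) :
    ∀ t < n, eP B EO ew em t ≠ y := by
  intro t ht hty
  have := loop_spec h t (Nat.zero_le _) (by omega)
  unfold chkO at this
  rw [Bool.and_eq_true, Bool.and_eq_true, Nat.beq_eq] at this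
  have h1 := this.2.1
  rw [hty] at h1
  rw [h1, hty, blt_iff.2 ht] at hy
  simp at hy

theorem app_append (l₁ l₂ : List ℕ) (i : ℕ) : app B (l₁ ++ l₂) i = app B l₁ (app B l₂ i) := by
  induction l₁ with
  | nil => rfl
  | cons k l ih => rw [List.cons_append, app_cons, app_cons, ih]

/-- equality of two words in the group from a faithful permutation representation -/
theorem eq_of_app (hψ : ∀ k < L, ∀ i : Fin B.N, (ψ (el k) i).1 = fB B k i.1)
    (hinj : ∀ x, ψ x = 1 → x = 1) (w₁ w₂ : List ℕ) (h₁ : ∀ k ∈ w₁, k < L) (h₂ : ∀ k ∈ w₂, k < L)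
    (h : ∀ i < B.N, app B w₁ i = app B w₂ i) : evn el w₁ = evn el w₂ := by
  have e : ψ (evn el w₁) = ψ (evn el w₂) := by
    ext i
    rw [psi_evn ψ hψ w₁ h₁, psi_evn ψ hψ w₂ h₂, h i.1 i.2]
  have := hinj (evn el w₁ * (evn el w₂)⁻¹) (by rw [map_mul, map_inv, e, mul_inv_cancel])
  exact mul_inv_eq_one.1 this

end lbglue

section abstract2
variable {G : Type*} [Group G]

/-- faithfulness of one action from the joint faithfulness of two actions (second form) -/
theorem faithful_of_two' {X Y : Type*} (ψ : G →* Equiv.Perm X) (ψ' : G →* Equiv.Perm Y)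
    (z' : Y) (H₁ : Subgroup G)
    (hH₁ : ∀ h ∈ H₁, ψ' h z' = z') (htr' : ∀ i, ∃ g, ψ' g z' = i)
    (hmax : IsCoatom H₁) (hjoint : ∀ x, ψ x = 1 → ψ' x = 1 → x = 1)
    (x₁ x₂ : X) (htr : ∃ g, ψ g x₁ = x₂) (hy : ∀ h ∈ H₁, ψ h x₁ ≠ x₂) :
    ∀ x, ψ x = 1 → x = 1 := by
  have hK : ψ.ker ≤ H₁ := by
    by_contra hc
    have h1 : ψ.ker ⊔ H₁ = ⊤ := by
      apply hmax.2
      exact lt_of_le_of_ne le_sup_right (fun h => hc (h ▸ le_sup_left))
    obtain ⟨g, hg⟩ := htr
    have hg' : g ∈ ψ.ker ⊔ H₁ := by rw [h1]; trivial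
    rw [← SetLike.mem_coe, Subgroup.normal_mul] at hg'
    obtain ⟨k, hk, h, hh, rfl⟩ := hg'
    apply hy h hh
    rw [← hg, map_mul, MonoidHom.mem_ker.1 hk, one_mul]
  intro x hx
  apply hjoint x hx
  ext i
  obtain ⟨g, rfl⟩ := htr' i
  have h1 : g⁻¹ * x * g ∈ ψ.ker := by
    rw [MonoidHom.mem_ker, map_mul, map_mul, hx]
    simp
  have h2 := hH₁ _ (hK h1)
  rw [map_mul, map_mul, map_inv, Equiv.Perm.mul_apply, Equiv.Perm.mul_apply,
    Equiv.Perm.inv_eq_iff_eq] at h2
  simpa using h2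

theorem hcol_of_base {X C : Type*} (ψ : G →* Equiv.Perm X) (H : Subgroup G) (col : X → C)
    (base : C → X) (hb : ∀ i, ∃ h ∈ H, ψ h (base (col i)) = i) :
    ∀ i j, col i = col j → ∃ h ∈ H, ψ h i = j := by
  intro i j hij
  obtain ⟨h, hh, hi⟩ := hb i
  obtain ⟨k, hk, hj⟩ := hb j
  refine ⟨k * h⁻¹, H.mul_mem hk (H.inv_mem hh), ?_⟩
  rw [map_mul, map_inv, Equiv.Perm.mul_apply, Equiv.Perm.inv_eq_iff_eq.2 hi.symm, hij, hj]

theorem card_col {N : ℕ} {p : Fin N → Prop} [DecidablePred p] {lo hi : ℕ} (hhi : hi ≤ N)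
    (h : ∀ i, p i ↔ lo ≤ i.1 ∧ i.1 < hi) : (Finset.univ.filter p).card = hi - lo := by
  rw [← ncard_interval (lo := lo) hhi, ← Set.ncard_coe_finset]
  congr 1
  ext i
  simp [h i]

theorem ab_eq_of_odd {A : Type*} [CommGroup A] {s t : A} (hs : s * s = 1) (ht : t * t = 1) (m : ℕ)
    (hm : (s * t) ^ (2 * m + 1) = 1) : s = t := by
  have h2 : (s * t) ^ 2 = 1 := by
    rw [mul_pow, pow_two, pow_two, hs, ht, one_mul]
  rw [pow_succ, pow_mul, h2, one_pow, one_mul] at hm
  have : s = t⁻¹ := eq_inv_of_mul_eq_one_left hm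
  rw [this, inv_eq_of_mul_eq_one_right ht]

theorem mem_normal_of_odd (N : Subgroup G) [N.Normal] {x y : G} (hy : y * y = 1) (m : ℕ)
    (h : (x * y) ^ (2 * m + 1) = 1) (hx : x ∈ N) : y ∈ N := by
  rw [← QuotientGroup.eq_one_iff] at hx ⊢
  have h1 : ((x * y : G) : G ⧸ N) ^ (2 * m + 1) = 1 := by
    rw [← QuotientGroup.mk_pow, h, QuotientGroup.mk_one]
  rw [QuotientGroup.mk_mul, hx, one_mul] at h1
  have h2 : (y : G ⧸ N) ^ 2 = 1 := by
    rw [pow_two, ← QuotientGroup.mk_mul, hy, QuotientGroup.mk_one]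
  rwa [pow_succ, pow_mul, h2, one_pow, one_mul] at h1

theorem perfect_of_gens (S : Set G) (hS : Subgroup.closure S = ⊤)
    (h : ∀ s ∈ S, Abelianization.of s = 1) : commutator G = ⊤ := by
  rw [eq_top_iff, ← hS, Subgroup.closure_le]
  intro s hs
  exact (QuotientGroup.eq_one_iff s).1 (h s hs)

theorem top_of_gens (N : Subgroup G) (S : Set G) (hS : Subgroup.closure S = ⊤)
    (h : ∀ s ∈ S, s ∈ N) : N = ⊤ := by
  rw [eq_top_iff, ← hS, Subgroup.closure_le]
  exact h

theorem normalizes_of_comm (S : Set G) (t : G) (h : ∀ s ∈ S, s * t = t * s) :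
    ∀ h ∈ Subgroup.closure S, ∀ a ∈ Subgroup.zpowers t, h * a * h⁻¹ ∈ Subgroup.zpowers t := by
  have h1 : ∀ x ∈ Subgroup.closure S, Commute x t := by
    intro x hx
    induction hx using Subgroup.closure_induction with
    | mem x hx => exact h x hx
    | one => exact Commute.one_left t
    | mul x y _ _ hx hy => exact hx.mul_left hy
    | inv x _ hx => exact hx.inv_left
  intro x hx a ha
  obtain ⟨n, rfl⟩ := Subgroup.mem_zpowers_iff.1 ha
  have h2 : Commute x (t ^ n) := (h1 x hx).zpow_right n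
  rw [h2.eq, mul_inv_cancel_right]
  exact Subgroup.zpow_mem_zpowers t n

theorem evn_hom {A : Type*} [Group A] (π : G →* A) (el : ℕ → G) (l : List ℕ) :
    π (evn el l) = evn (fun k => π (el k)) l := by
  unfold evn
  rw [map_list_prod, List.map_map]
  rfl

theorem evn_const {A : Type*} [Group A] (f : ℕ → A) (t : A) (l : List ℕ) (h : ∀ k ∈ l, f k = t) :
    evn f l = t ^ l.length := by
  unfold evn
  rw [List.prod_eq_pow_card _ t, List.length_map]
  intro x hx
  obtain ⟨k, hk, rfl⟩ := List.mem_map.1 hx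
  exact h k hk

theorem one_of_odd_pow {A : Type*} [Group A] {t : A} (ht : t * t = 1) (m : ℕ)
    (h : t ^ (2 * m + 1) = 1) : t = 1 := by
  have h2 : t ^ 2 = 1 := by rw [pow_two, ht]
  rwa [pow_succ, pow_mul, h2, one_pow, one_mul] at h

end abstract2

section tables
variable {B : ParB}

theorem app_lt (w : List ℕ) (h : ∀ k ∈ w, ∀ i < B.N, fB B k i < B.N) :
    ∀ i < B.N, app B w i < B.N := by
  induction w with
  | nil => intro i hi; exact hi
  | cons k l ih =>
    intro i hi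
    rw [app_cons]
    exact h k (by simp) _ (ih (fun j hj => h j (by simp [hj])) i hi)

theorem fB_lt {α : Type} {num : α → ℕ} (hOK : OKB B num) (gen : ℕ → α) {L : ℕ}
    (hg : ∀ k < L, num (gen k) = k) : ∀ k < L, ∀ i < B.N, fB B k i < B.N := by
  intro k hk i hi
  have := (hOK (gen k) i hi).1
  rwa [hg k hk] at this

theorem comm_tableW (fT : ℕ → ℕ) (tw w : List ℕ) (hA : ∀ i < B.N, app B tw i = fT i)
    (hlt : ∀ i < B.N, app B w i < B.N) (hB : ∀ i < B.N, fT (app B w i) = app B w (fT i)) :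
    ∀ i < B.N, app B (w ++ tw) i = app B (tw ++ w) i := by
  intro i hi
  rw [app_append, app_append, hA i hi, hA _ (hlt i hi), hB i hi]

theorem conj_tableW (fT : ℕ → ℕ) (tw w v : List ℕ) (hA : ∀ i < B.N, app B tw i = fT i)
    (hlt : ∀ i < B.N, app B w i < B.N) (hC : ∀ i < B.N, fT (app B w i) = app B v i) :
    ∀ i < B.N, app B (tw ++ w) i = app B v i := by
  intro i hi
  rw [app_append, hA _ (hlt i hi), hC i hi]

theorem loop_beq2 {E F : ℕ → ℕ} {n : ℕ} (h : loop (fun i => Nat.beq (E i) (F i)) 0 n = true) :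
    ∀ i < n, E i = F i := by
  intro i hi
  have := loop_spec h i (Nat.zero_le _) (by omega)
  exact Nat.eq_of_beq_eq_true this

theorem loop_beq2_r {E F : ℕ → ℕ} {lo n : ℕ}
    (h : loop (fun i => Nat.beq (E i) (F i)) lo n = true) :
    ∀ i, lo ≤ i → i < lo + n → E i = F i := by
  intro i h1 h2
  have := loop_spec h i h1 h2
  exact Nat.eq_of_beq_eq_true this

end tables

theorem evn_append {G : Type*} [Group G] (el : ℕ → G) (l₁ l₂ : List ℕ) :
    evn el (l₁ ++ l₂) = evn el l₁ * evn el l₂ := by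
  unfold evn
  rw [List.map_append, List.prod_append]

theorem evn_single {G : Type*} [Group G] (el : ℕ → G) (k : ℕ) : evn el [k] = el k := by
  simp [evn]

theorem trans2 {G : Type*} [Group G] {X : Type*} (ψ : G →* Equiv.Perm X) (z : X)
    (h : ∀ i, ∃ g, ψ g z = i) (x y : X) : ∃ g, ψ g x = y := by
  obtain ⟨a, ha⟩ := h x
  obtain ⟨b, hb⟩ := h y
  refine ⟨b * a⁻¹, ?_⟩
  rw [map_mul, map_inv, Equiv.Perm.mul_apply, Equiv.Perm.inv_eq_iff_eq.2 ha.symm, hb]

theorem nontrivial_of_card {G : Type*} {n : ℕ} (h : Nat.card G = n) (hn : 1 < n) : Nontrivial G := by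
  by_contra hc
  rw [not_nontrivial_iff_subsingleton] at hc
  have := Finite.card_le_one_iff_subsingleton.2 hc
  omega

theorem mem_of_conj {G : Type*} [Group G] (N : Subgroup G) [N.Normal] {t c r : G} (ht : t ∈ N)
    (h : t * c = c * r) : r ∈ N := by
  have e : r = c⁻¹ * t * c⁻¹⁻¹ := by
    rw [inv_inv, mul_assoc, h, inv_mul_cancel_left]
  rw [e]
  exact Subgroup.Normal.conj_mem inferInstance t ht c⁻¹

end Cfsg.Agent.Lib.Helper19.TC2
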