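import Mathlib
import Cfsg.Agent.Lib.Helper14.GL2
import Cfsg.Agent.Lib.Helper14.SL2Odd

set_option autoImplicit false

namespace Cfsg.Agent.Lib.Helper19

open Matrix

variable {F : Type*} [Field F]

/-- The standard element of order 4 in `SL₂(F)`. -/
def sl2W (F : Type*) [Field F] : SpecialLinearGroup (Fin 2) F :=
  ⟨!![0, -1; 1, 0], by simp [det_fin_two_of]⟩

theorem sl2W_sq (F : Type*) [Field F] : sl2W F ^ 2 = -1 := by
  apply Subtype.ext
  show (!![0, -1; 1, 0] : Matrix (Fin 2) (Fin 2) F) ^ 2 = -1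
  ext i j
  fin_cases i <;> fin_cases j <;> simp [pow_two, Matrix.mul_apply, Fin.sum_univ_two]

/-- An element of `SL₂(F)` squaring to `-1` has trace zero (if `2 ≠ 0` or not). -/
theorem trace_eq_zero_of_sq_eq_neg_one (g : SpecialLinearGroup (Fin 2) F) (hg : g ^ 2 = -1) :
    (g : Matrix (Fin 2) (Fin 2) F).trace = 0 := by
  have h : (g : Matrix (Fin 2) (Fin 2) F) * (g : Matrix (Fin 2) (Fin 2) F) = -1 := by
    have h0 : (g : Matrix (Fin 2) (Fin 2) F) ^ 2 = -1 := congrArg Subtype.val hg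
    rw [pow_two] at h0
    exact h0
  have e00 := congrFun (congrFun h 0) 0
  have e01 := congrFun (congrFun h 0) 1
  have e10 := congrFun (congrFun h 1) 0
  have e11 := congrFun (congrFun h 1) 1
  simp only [Matrix.mul_apply, Fin.sum_univ_two, Matrix.neg_apply, Matrix.one_apply_eq,
    Matrix.one_apply_ne, ne_eq, zero_ne_one, one_ne_zero, not_false_eq_true, neg_zero] at e00 e01 e10 e11
  have hdet := g.2
  rw [det_fin_two] at hdet
  rw [trace_fin_two]
  set a := (g : Matrix (Fin 2) (Fin 2) F) 0 0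
  set b := (g : Matrix (Fin 2) (Fin 2) F) 0 1
  set c := (g : Matrix (Fin 2) (Fin 2) F) 1 0
  set d := (g : Matrix (Fin 2) (Fin 2) F) 1 1
  -- b (a + d) = 0, c (a + d) = 0, a^2 + bc = -1, d^2 + bc = -1, ad - bc = 1
  have h1 : a * (a + d) = 0 := by linear_combination e00 + hdet
  have h2 : d * (a + d) = 0 := by linear_combination e11 + hdet
  have h3 : b * (a + d) = 0 := by linear_combination e01
  have h4 : c * (a + d) = 0 := by linear_combination e10
  by_contra hne
  have ha : a = 0 := by rcases mul_eq_zero.mp h1 with h | h; exact h; exact absurd h hne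
  have hd : d = 0 := by rcases mul_eq_zero.mp h2 with h | h; exact h; exact absurd h hne
  apply hne
  rw [ha, hd, add_zero]

/-- In `SL₂(F)`, `F` finite of odd order, any two elements squaring to `-1` are conjugate. -/
theorem isConj_of_sq_eq_neg_one [Fintype F] (hF : Odd (Fintype.card F))
    (g h : SpecialLinearGroup (Fin 2) F) (hg : g ^ 2 = -1) (hh : h ^ 2 = -1) : IsConj g h := by
  have hodd : Fintype.card F % 2 = 1 := Nat.odd_iff.mp hF
  have h2 : (2 : F) ≠ 0 := Cfsg.Agent.Lib.Helper14.SL2.two_ne_zero_of_odd hodd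
  have key : ∀ g : SpecialLinearGroup (Fin 2) F, g ^ 2 = -1 →
      ∃ x y : F, Cfsg.Agent.Lib.Helper14.GL2.Qf (g : Matrix (Fin 2) (Fin 2) F) x y = 1 := by
    intro g hg
    apply Cfsg.Agent.Lib.Helper14.SL2.exists_Qf_eq_one hodd
    have ht := trace_eq_zero_of_sq_eq_neg_one g hg
    have hdet := g.2
    rw [det_fin_two] at hdet
    rw [trace_fin_two] at ht
    have : ((g : Matrix (Fin 2) (Fin 2) F) 1 1 - (g : Matrix (Fin 2) (Fin 2) F) 0 0) ^ 2
        + 4 * (g : Matrix (Fin 2) (Fin 2) F) 0 1 * (g : Matrix (Fin 2) (Fin 2) F) 1 0 = -4 := by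
      linear_combination ((g : Matrix (Fin 2) (Fin 2) F) 0 0 + (g : Matrix (Fin 2) (Fin 2) F) 1 1) * ht
        - 4 * hdet
    rw [this]
    have h4 : (4 : F) = 2 * 2 := by norm_num
    rw [h4]
    exact neg_ne_zero.mpr (mul_ne_zero h2 h2)
  obtain ⟨x, y, hxy⟩ := key g hg
  obtain ⟨x', y', hxy'⟩ := key h hh
  apply Cfsg.Agent.Lib.Helper14.GL2.isConj_SL_of_trace_Qf g h
    (by rw [trace_eq_zero_of_sq_eq_neg_one g hg, trace_eq_zero_of_sq_eq_neg_one h hh]) x y x' y'
  · rw [hxy]; exact one_ne_zero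
  · rw [hxy, hxy']

end Cfsg.Agent.Lib.Helper19
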