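import Cfsg.Agent.Lib.Helper19.TC2G

/-!
# Orders and simplicity of presented groups from Todd–Coxeter certificates
-/

set_option autoImplicit false

namespace Cfsg.Agent.Lib.Helper19.TC2

open Cfsg.Agent.Lib.Helper19.TCS (fld RC blt_iff evn)

section abstract
variable {G : Type*} [Group G]

/-- upper bound for the order of `K` from a covering by right cosets of `H` -/
theorem card_le_of_cover (K H : Subgroup G) [Finite H] (A : Finset ℕ) (r : ℕ → G)
    (hc : ∀ x ∈ K, ∃ a ∈ A, x * (r a)⁻¹ ∈ H) :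
    Finite K ∧ Nat.card K ≤ A.card * Nat.card H := by
  classical
  choose! f hf using hc
  let F : K → A × H := fun x => (⟨f x.1, (hf x.1 x.2).1⟩, ⟨x.1 * (r (f x.1))⁻¹, (hf x.1 x.2).2⟩)
  have hF : Function.Injective F := by
    intro x y hxy
    have h1 : f x.1 = f y.1 := congrArg (fun p => (p.1 : ℕ)) hxy
    have h2 : x.1 * (r (f x.1))⁻¹ = y.1 * (r (f y.1))⁻¹ := congrArg (fun p => (p.2 : G)) hxy
    rw [h1] at h2
    exact Subtype.ext (mul_right_cancel h2)
  refine ⟨Finite.of_injective F hF, ?_⟩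
  have := Nat.card_le_card_of_injective F hF
  rwa [Nat.card_prod, Nat.card_eq_fintype_card (α := A), Fintype.card_coe] at this

/-- lower bound for the order of `K` from an orbit -/
theorem card_ge_of_orbit {X : Type*} (ψ : G →* Equiv.Perm X) (K K' : Subgroup G) [Finite K]
    (hle : K' ≤ K) (β : X) (hfix : ∀ x ∈ K', ψ x β = β) (O : Finset X)
    (hO : ∀ y ∈ O, ∃ x ∈ K, ψ x β = y) : O.card * Nat.card K' ≤ Nat.card K := by
  classical
  choose! t ht using hO
  let F : O × K' → K := fun p => ⟨t p.1.1 * p.2.1, K.mul_mem (ht p.1.1 p.1.2).1 (hle p.2.2)⟩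
  have hF : Function.Injective F := by
    rintro ⟨⟨y, hy⟩, ⟨x, hx⟩⟩ ⟨⟨y', hy'⟩, ⟨x', hx'⟩⟩ h
    have h1 : t y * x = t y' * x' := congrArg Subtype.val h
    have h2 : y = y' := by
      have := congrArg (fun g => ψ g β) h1
      simp only [map_mul, Equiv.Perm.mul_apply, hfix x hx, hfix x' hx', (ht y hy).2,
        (ht y' hy').2] at this
      exact this
    subst h2
    have h3 : x = x' := mul_left_cancel h1
    subst h3
    rfl
  have := Nat.card_le_card_of_injective F hF
  rwa [Nat.card_prod, Nat.card_eq_fintype_card (α := O), Fintype.card_coe] at this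

/-- if the bound is attained, `K'` is the full stabiliser -/
theorem mem_of_fix {X : Type*} (ψ : G →* Equiv.Perm X) (K K' : Subgroup G) [Finite K]
    (hle : K' ≤ K) (β : X) (hfix : ∀ x ∈ K', ψ x β = β) (O : Finset X)
    (hO : ∀ y ∈ O, ∃ x ∈ K, ψ x β = y) (hpos : 0 < O.card)
    (htight : Nat.card K ≤ O.card * Nat.card K') :
    ∀ x ∈ K, ψ x β = β → x ∈ K' := by
  let S : Subgroup G :=
    { carrier := {x | x ∈ K ∧ ψ x β = β}
      one_mem' := ⟨K.one_mem, by simp⟩
      mul_mem' := fun {a b} ha hb => ⟨K.mul_mem ha.1 hb.1, by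
        rw [map_mul, Equiv.Perm.mul_apply, hb.2, ha.2]⟩
      inv_mem' := fun {a} ha => ⟨K.inv_mem ha.1, by
        rw [map_inv, Equiv.Perm.inv_eq_iff_eq, ha.2]⟩ }
  have hSK : S ≤ K := fun x hx => hx.1
  have hKS : K' ≤ S := fun x hx => ⟨hle hx, hfix x hx⟩
  have h1 := card_ge_of_orbit ψ K S hSK β (fun x hx => hx.2) O hO
  have h2 : O.card * Nat.card S ≤ O.card * Nat.card K' := le_trans h1 htight
  have h3 : Nat.card S ≤ Nat.card K' := Nat.le_of_mul_le_mul_left h2 hpos
  have : Finite S := Finite.of_injective (Subgroup.inclusion hSK) (Subgroup.inclusion_injective hSK)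
  have h4 : K' = S := Subgroup.eq_of_le_of_card_ge hKS h3
  intro x hx hxb
  rw [h4]
  exact ⟨hx, hxb⟩

/-- Iwasawa's criterion, for a maximal subgroup `H` which is a point stabiliser of a faithful
transitive action. -/
theorem simple_of_iwasawa [Nontrivial G] {X : Type*} (ψ : G →* Equiv.Perm X) (z : X)
    (hinj : ∀ x, ψ x = 1 → x = 1) (htr : ∀ i, ∃ g, ψ g z = i)
    (H A : Subgroup G) (hH : ∀ h ∈ H, ψ h z = z) (hmax : IsCoatom H)
    (hA : IsMulCommutative A) (hAn : ∀ h ∈ H, ∀ a ∈ A, h * a * h⁻¹ ∈ A)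
    (hgen : Subgroup.normalClosure (A : Set G) = ⊤) (hperf : commutator G = ⊤) :
    IsSimpleGroup G := by
  apply IsSimpleGroup.mk
  intro N nN
  by_cases hNH : N ≤ H
  · left
    rw [Subgroup.eq_bot_iff_forall]
    intro n hn
    apply hinj
    ext i
    obtain ⟨g, rfl⟩ := htr i
    have h1 : g⁻¹ * n * g ∈ N := by
      have := nN.conj_mem n hn g⁻¹
      simpa using this
    have h2 := hH _ (hNH h1)
    rw [map_mul, map_mul, map_inv, Equiv.Perm.mul_apply, Equiv.Perm.mul_apply,
      Equiv.Perm.inv_eq_iff_eq] at h2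
    simpa using h2
  · right
    have h1 : N ⊔ H = ⊤ := by
      apply hmax.2
      exact lt_of_le_of_ne le_sup_right (fun h => hNH (h ▸ le_sup_left))
    have h2 : N ⊔ A = ⊤ := by
      rw [eq_top_iff, ← hgen]
      unfold Subgroup.normalClosure
      rw [Subgroup.closure_le]
      intro x hx
      obtain ⟨a, ha, hax⟩ := Group.mem_conjugatesOfSet_iff.1 hx
      obtain ⟨g, rfl⟩ := isConj_iff.1 hax
      have hg : g ∈ N ⊔ H := by rw [h1]; trivial
      rw [← SetLike.mem_coe, Subgroup.normal_mul] at hg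
      obtain ⟨n, hn, h, hh, rfl⟩ := hg
      have h3 : h * a * h⁻¹ ∈ N ⊔ A := Subgroup.mem_sup_right (hAn h hh a ha)
      have h4 : n ∈ N ⊔ A := Subgroup.mem_sup_left hn
      have := (N ⊔ A).mul_mem ((N ⊔ A).mul_mem h4 h3) ((N ⊔ A).inv_mem h4)
      have e : n * h * a * (n * h)⁻¹ = n * (h * a * h⁻¹) * n⁻¹ := by group
      show n * h * a * (n * h)⁻¹ ∈ N ⊔ A
      rw [e]
      exact this
    have h3 := nN.commutator_le_of_self_sup_commutative_eq_top h2 hA
    rw [hperf] at h3
    exact top_le_iff.1 h3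

/-- faithfulness of one action from the joint faithfulness of two actions -/
theorem faithful_of_two {X Y : Type*} (ψ : G →* Equiv.Perm X) (ψ' : G →* Equiv.Perm Y)
    (z : X) (z' : Y) (H H₁ : Subgroup G)
    (hH : ∀ x, ψ x z = z → x ∈ H)
    (hH₁ : ∀ h ∈ H₁, ψ' h z' = z') (htr' : ∀ i, ∃ g, ψ' g z' = i)
    (hmax : IsCoatom H₁) (hjoint : ∀ x, ψ x = 1 → ψ' x = 1 → x = 1)
    (y : Y) (hy : ∀ h ∈ H, ψ' h z' ≠ y) :
    ∀ x, ψ x = 1 → x = 1 := by
  have hK : ψ.ker ≤ H₁ := by
    by_contra hc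
    have h1 : ψ.ker ⊔ H₁ = ⊤ := by
      apply hmax.2
      exact lt_of_le_of_ne le_sup_right (fun h => hc (h ▸ le_sup_left))
    obtain ⟨g, hg⟩ := htr' y
    have hg' : g ∈ ψ.ker ⊔ H₁ := by rw [h1]; trivial
    rw [← SetLike.mem_coe, Subgroup.normal_mul] at hg'
    obtain ⟨k, hk, h, hh, rfl⟩ := hg'
    apply hy k (hH k (by rw [MonoidHom.mem_ker.1 hk]; rfl))
    rw [← hg, map_mul, Equiv.Perm.mul_apply, hH₁ h hh]
  intro x hx
  apply hjoint x hx
  ext i
  obtain ⟨g, rfl⟩ := htr' i
  have h1 : g⁻¹ * x * g ∈ ψ.ker := by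
    rw [MonoidHom.mem_ker, map_mul, map_mul, hx]
    simp
  have h2 := hH₁ _ (hK h1)
  rw [map_mul, map_mul, map_inv, Equiv.Perm.mul_apply, Equiv.Perm.mul_apply,
    Equiv.Perm.inv_eq_iff_eq] at h2
  simpa using h2

/-- the number of cosets of a point stabiliser is the length of the orbit -/
theorem card_quot_eq_orbit {X : Type*} (H : Subgroup G) (ψ : G →* Equiv.Perm X) (x0 : X)
    (hfix : ∀ h ∈ H, ψ h x0 = x0) (hstab : ∀ x, ψ x x0 = x0 → x ∈ H) :
    Nat.card (G ⧸ H) = Set.ncard {i | ∃ g, ψ g x0 = i} := by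
  have hwd : ∀ a b : G, QuotientGroup.leftRel H a b → ψ a x0 = ψ b x0 := by
    intro a b hab
    rw [QuotientGroup.leftRel_apply] at hab
    have := hfix _ hab
    rw [map_mul, map_inv, Equiv.Perm.mul_apply, Equiv.Perm.inv_eq_iff_eq] at this
    exact this.symm
  let φ : G ⧸ H → X := fun q => Quotient.liftOn' q (fun g => ψ g x0) hwd
  have hφ : Function.Injective φ := by
    intro q1 q2
    induction q1 using QuotientGroup.induction_on with | H a => ?_
    induction q2 using QuotientGroup.induction_on with | H b => ?_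
    intro h
    have h' : ψ a x0 = ψ b x0 := h
    apply QuotientGroup.eq.2
    apply hstab
    rw [map_mul, map_inv, Equiv.Perm.mul_apply, Equiv.Perm.inv_eq_iff_eq]
    exact h'.symm
  have hr : {i | ∃ g, ψ g x0 = i} = Set.range φ := by
    ext i
    constructor
    · rintro ⟨g, rfl⟩
      exact ⟨(g : G ⧸ H), rfl⟩
    · rintro ⟨q, rfl⟩
      induction q using QuotientGroup.induction_on with | H a => ?_
      exact ⟨a, rfl⟩
  rw [hr, ← Set.image_univ, Set.ncard_image_of_injective _ hφ, Set.ncard_univ]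

/-- maximality of a point stabiliser from the lengths of its orbits -/
theorem isCoatom_of_colours {N r : ℕ} (ψ : G →* Equiv.Perm (Fin N)) (z : Fin N) (H : Subgroup G)
    (hfix : ∀ h ∈ H, ψ h z = z) (hstab : ∀ x, ψ x z = z → x ∈ H) (htr : ∀ i, ∃ g, ψ g z = i)
    (col : Fin N → Fin r) (m : Fin r → ℕ)
    (hcol : ∀ i j, col i = col j → ∃ h ∈ H, ψ h i = j)
    (hm : ∀ c, (Finset.univ.filter (fun i => col i = c)).card = m c)
    (harith : ∀ S : Finset (Fin r), col z ∈ S → (∑ c ∈ S, m c) ∣ N →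
      S = {col z} ∨ S = Finset.univ)
    (hz : m (col z) = 1) (hN : 1 < N) : IsCoatom H := by
  classical
  have hidx : H.index = N := by
    unfold Subgroup.index
    rw [card_quot_eq_orbit H ψ z hfix hstab]
    have : {i | ∃ g, ψ g z = i} = Set.univ := Set.eq_univ_of_forall htr
    rw [this, Set.ncard_univ]
    simp
  constructor
  · intro hT
    rw [hT, Subgroup.index_top] at hidx
    omega
  · intro L hL
    let OL : Finset (Fin N) := Finset.univ.filter (fun i => ∃ l ∈ L, ψ l z = i)
    have hzO : z ∈ OL := by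
      simp only [OL, Finset.mem_filter, Finset.mem_univ, true_and]
      exact ⟨1, L.one_mem, by simp⟩
    let S : Finset (Fin r) := OL.image col
    have hfib : ∀ c ∈ S, OL.filter (fun i => col i = c) = Finset.univ.filter (fun i => col i = c) := by
      intro c hc
      obtain ⟨i0, hi0, rfl⟩ := Finset.mem_image.1 hc
      ext j
      simp only [Finset.mem_filter, Finset.mem_univ, true_and]
      constructor
      · exact fun h => h.2
      · intro hj
        refine ⟨?_, hj⟩
        obtain ⟨h, hh, rfl⟩ := hcol i0 j hj.symm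
        simp only [OL, Finset.mem_filter, Finset.mem_univ, true_and] at hi0 ⊢
        obtain ⟨l, hl, rfl⟩ := hi0
        exact ⟨h * l, L.mul_mem (hL.le hh) hl, by rw [map_mul, Equiv.Perm.mul_apply]⟩
    have hcard : OL.card = ∑ c ∈ S, m c := by
      rw [Finset.card_eq_sum_card_fiberwise (f := col) (t := S)
        (fun i hi => Finset.mem_image_of_mem col hi)]
      apply Finset.sum_congr rfl
      intro c hc
      rw [hfib c hc, hm]
    have hrel : H.relIndex L = OL.card := by
      unfold Subgroup.relIndex Subgroup.index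
      rw [card_quot_eq_orbit (H.subgroupOf L) (ψ.comp L.subtype) z
        (fun h hh => hfix _ (Subgroup.mem_subgroupOf.1 hh))
        (fun x hx => Subgroup.mem_subgroupOf.2 (hstab _ hx))]
      have : {i | ∃ g : L, (ψ.comp L.subtype) g z = i} = (OL : Set (Fin N)) := by
        ext i
        simp only [OL, Set.mem_setOf_eq, Finset.coe_filter, Finset.mem_univ, true_and]
        constructor
        · rintro ⟨g, rfl⟩
          exact ⟨g.1, g.2, rfl⟩
        · rintro ⟨l, hl, rfl⟩
          exact ⟨⟨l, hl⟩, rfl⟩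
      rw [this, Set.ncard_coe_finset]
    have hdvd : (∑ c ∈ S, m c) ∣ N := by
      rw [← hcard, ← hrel, ← hidx, ← Subgroup.relIndex_mul_index hL.le]
      exact Dvd.intro _ rfl
    rcases harith S (Finset.mem_image_of_mem col hzO) hdvd with hS | hS
    · exfalso
      have h1 : OL.card = 1 := by rw [hcard, hS, Finset.sum_singleton, hz]
      obtain ⟨w, hw⟩ := Finset.card_eq_one.1 h1
      have hzw : z = w := by
        have := hzO
        rw [hw] at this
        exact Finset.mem_singleton.1 this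
      apply not_le_of_gt hL
      intro l hl
      apply hstab
      have : ψ l z ∈ OL := by
        simp only [OL, Finset.mem_filter, Finset.mem_univ, true_and]
        exact ⟨l, hl, rfl⟩
      rw [hw] at this
      rw [Finset.mem_singleton.1 this, hzw]
    · have h1 : OL.card = N := by
        rw [hcard, hS]
        have := Finset.card_eq_sum_card_fiberwise (f := col) (s := Finset.univ)
          (t := Finset.univ) (fun i _ => Finset.mem_univ _)
        rw [Finset.card_univ, Fintype.card_fin] at this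
        rw [this]
        apply Finset.sum_congr rfl
        intro c _
        rw [hm]
      have h2 : OL = Finset.univ := by
        apply Finset.eq_univ_of_card
        rw [h1, Fintype.card_fin]
      rw [eq_top_iff]
      intro g _
      have : ψ g z ∈ OL := by rw [h2]; exact Finset.mem_univ _
      simp only [OL, Finset.mem_filter, Finset.mem_univ, true_and] at this
      obtain ⟨l, hl, hlg⟩ := this
      have h3 : l⁻¹ * g ∈ H := by
        apply hstab
        rw [map_mul, map_inv, Equiv.Perm.mul_apply, Equiv.Perm.inv_eq_iff_eq, hlg]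
      have := L.mul_mem hl (hL.le h3)
      simpa using this

end abstract


noncomputable section

section link2
variable {P : Par} {B : ParB} {FIN LAB : Tb} {L : ℕ}
variable {G : Type*} [Group G] {H : Subgroup G} {el : ℕ → G} (ψ : G →* Equiv.Perm (Fin B.N))
  (z : Fin B.N)

theorem stab_mem (hz : z.1 = 0) (hel : ∀ k < L, el k * el k = 1)
    (hψ : ∀ k < L, ∀ i : Fin B.N, (ψ (el k) i).1 = fB B k i.1)
    (hcov : ∀ x : G, ∃ a < P.M, al P a = true ∧ RC H x (rep P el a))
    (hL : ∀ b < P.M, chkLS P B FIN L b = true)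
    (hfix : ∀ h ∈ H, ψ h z = z) : ∀ x, ψ x z = z → x ∈ H := by
  have hlink := link ψ z hz hel hψ hL
  intro x hx
  obtain ⟨a, ha, hal, hr⟩ := hcov x
  have h1 : (ψ (rep P el a))⁻¹ z = z := by
    have e : rep P el a = (x * (rep P el a)⁻¹)⁻¹ * x := by group
    have h2 := hfix _ (H.inv_mem hr)
    rw [e, map_mul, mul_inv_rev, Equiv.Perm.mul_apply, Equiv.Perm.inv_eq_iff_eq,
      Equiv.Perm.inv_eq_iff_eq, hx, h2]
  have h3 := hlink a ha
  rw [h1, hz] at h3
  have h4 := hL a ha
  unfold chkLS at h4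
  rw [Bool.and_eq_true] at h4
  have h5 := h4.2
  unfold chkS at h5
  rw [hal] at h5
  simp only [cond_true] at h5
  cases h0 : Nat.beq a 0
  · rw [h0, ← h3] at h5
    simp at h5
  · rw [Nat.beq_eq] at h0
    subst h0
    unfold RC at hr
    rw [rep_zero] at hr
    simpa using hr

theorem trans_pt (hz : z.1 = 0) (hel : ∀ k < L, el k * el k = 1)
    (hψ : ∀ k < L, ∀ i : Fin B.N, (ψ (el k) i).1 = fB B k i.1)
    (hL : ∀ b < P.M, chkLS P B FIN L b = true)
    (hT : ∀ i < B.N, chkT P B FIN LAB i = true) : ∀ i, ∃ x, ψ x z = i := by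
  have hlink := link ψ z hz hel hψ hL
  intro i
  have h := hT i.1 i.2
  unfold chkT at h
  rw [Bool.and_eq_true, blt_iff, Nat.beq_eq] at h
  refine ⟨(rep P el (lab P LAB i.1))⁻¹, ?_⟩
  rw [map_inv]
  apply Fin.ext
  rw [hlink _ h.1, h.2]

end link2

/-- the subgroup generated by the letters of a list -/
def KK {G : Type*} [Group G] (el : ℕ → G) (J : List ℕ) : Subgroup G :=
  Subgroup.closure {g | ∃ k ∈ J, el k = g}

theorem KK_mono {G : Type*} [Group G] (el : ℕ → G) {J J' : List ℕ} (h : ∀ k ∈ J', k ∈ J) :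
    KK el J' ≤ KK el J := by
  apply Subgroup.closure_mono
  rintro _ ⟨k, hk, rfl⟩
  exact ⟨k, h k hk, rfl⟩

theorem KK_nil {G : Type*} [Group G] (el : ℕ → G) : KK el [] = ⊥ := by
  unfold KK
  rw [Subgroup.closure_eq_bot_iff]
  rintro _ ⟨k, hk, _⟩
  simp at hk

theorem mem_KK {G : Type*} [Group G] (el : ℕ → G) {J : List ℕ} {k : ℕ} (h : k ∈ J) :
    el k ∈ KK el J := Subgroup.subset_closure ⟨k, h, rfl⟩

/-- position to index -/
def jm (J : List ℕ) (k : ℕ) : ℕ := J.getD k 0

section ub
variable {P : Par} {G : Type*} [Group G] {H : Subgroup G} {el : ℕ → G}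

theorem cover_mem (hyp : Hyp P H el) (h0 : al P 0 = true) (hrow : ∀ a < P.M, row P a = true)
    (hinv : ∀ p ∈ P.LS, ∃ q ∈ P.LS, el q.1 = (el p.1)⁻¹) :
    ∀ x ∈ Subgroup.closure {g | ∃ p ∈ P.LS, el p.1 = g},
      ∃ a < P.M, al P a = true ∧ RC H x (rep P el a) := by
  have hV := val_zero hyp hrow
  have key : ∀ (x : G) (p : Letter), p ∈ P.LS →
      (∃ a < P.M, al P a = true ∧ RC H x (rep P el a)) →
      ∃ a < P.M, al P a = true ∧ RC H (x * el p.1) (rep P el a) := by
    rintro x p hp ⟨a, ha, hal, hx⟩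
    obtain ⟨h1, h2⟩ := chkF_spec (row_spec (hrow a ha)).2.2 hal p hp
    exact ⟨_, al_lt h2, h2, ((hx.mul_right _).trans (hV.e p hp a h1)).trans (nrm_sound hV _ _)⟩
  intro x hx
  induction hx using Subgroup.closure_induction_right with
  | one => exact ⟨0, al_lt h0, h0, by rw [rep_zero]; exact RC.refl _⟩
  | mul_right x s _ hs ih =>
    obtain ⟨p, hp, rfl⟩ := hs
    exact key x p hp ih
  | mul_inv_cancel x s _ hs ih =>
    obtain ⟨p, hp, rfl⟩ := hs
    obtain ⟨q, hq, hqe⟩ := hinv p hp
    have := key x q hq ih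
    rwa [hqe] at this

/-- count the arguments below `n` at which `f` holds -/
def cntA (f : ℕ → Bool) : ℕ → ℕ → ℕ :=
  Nat.rec (fun acc => acc) (fun a ih acc => strict ih (cond (f a) (Nat.succ acc) acc))

theorem cntA_eq (f : ℕ → Bool) (n acc : ℕ) :
    cntA f n acc = acc + ((Finset.range n).filter (fun a => f a = true)).card := by
  induction n generalizing acc with
  | zero => simp [cntA]
  | succ n ih =>
    have e : cntA f (n + 1) acc = strict (cntA f n) (cond (f n) (Nat.succ acc) acc) := rfl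
    rw [e, strict_eq, ih, Finset.range_add_one, Finset.filter_insert]
    cases hf : f n
    · simp
    · simp only [cond_true, if_true]
      rw [Finset.card_insert_of_notMem (by simp)]
      omega

theorem ub_step [Finite H] (hyp : Hyp P H el) (h0 : al P 0 = true)
    (hrow : ∀ a < P.M, row P a = true)
    (hinv : ∀ p ∈ P.LS, ∃ q ∈ P.LS, el q.1 = (el p.1)⁻¹) {n : ℕ}
    (hcnt : cntA (al P) P.M 0 = n) :
    Finite (Subgroup.closure {g | ∃ p ∈ P.LS, el p.1 = g}) ∧
      Nat.card (Subgroup.closure {g | ∃ p ∈ P.LS, el p.1 = g}) ≤ n * Nat.card H := by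
  have h := card_le_of_cover (Subgroup.closure {g | ∃ p ∈ P.LS, el p.1 = g}) H
    ((Finset.range P.M).filter (fun a => al P a = true)) (rep P el) (by
      intro x hx
      obtain ⟨a, ha, hal, hr⟩ := cover_mem hyp h0 hrow hinv x hx
      exact ⟨a, by simp [ha, hal], hr⟩)
  rw [cntA_eq, Nat.zero_add] at hcnt
  rwa [hcnt] at h

theorem closure_eq_KK (el : ℕ → G) (J : List ℕ) (LS : List Letter)
    (h : LS.map (fun p => jm J p.1) = J) :
    Subgroup.closure {g | ∃ p ∈ LS, (fun k => el (jm J k)) p.1 = g} = KK el J := by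
  unfold KK
  congr 1
  ext g
  constructor
  · rintro ⟨p, hp, rfl⟩
    have h1 : jm J p.1 ∈ LS.map (fun p => jm J p.1) := List.mem_map.2 ⟨p, hp, rfl⟩
    rw [h] at h1
    exact ⟨jm J p.1, h1, rfl⟩
  · rintro ⟨k, hk, rfl⟩
    have h1 : k ∈ LS.map (fun p => jm J p.1) := by rw [h]; exact hk
    obtain ⟨p, hp, hpk⟩ := List.mem_map.1 h1
    exact ⟨p, hp, by show el (jm J p.1) = el k; rw [hpk]⟩

theorem evn_jm (el : ℕ → G) (J : List ℕ) (l : List ℕ) :
    evn (fun k => el (jm J k)) l = evn el (l.map (jm J)) := by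
  simp [evn, List.map_map, Function.comp_def]

end ub

section lb
variable (B : ParB) (EO POS : Tb) (ew em : ℕ) (J : List ℕ) (β : ℕ)

def eF (t : ℕ) : ℕ := rd ew em B.k B.km EO t
def eP (t : ℕ) : ℕ := Nat.land (eF B EO ew em t) B.bm
def ePar (t : ℕ) : ℕ := Nat.land (Nat.shiftRight (eF B EO ew em t) B.bw) B.bm
def eGen (t : ℕ) : ℕ := Nat.shiftRight (eF B EO ew em t) (Nat.mul 2 B.bw)

/-- the check of an enumeration of (a part of) an orbit -/
def chkO (t : ℕ) : Bool :=
  and (Nat.blt (eP B EO ew em t) B.N)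
    (and (Nat.beq (rd B.bw B.bm B.k B.km POS (eP B EO ew em t)) t)
      (cond (Nat.beq t 0) (Nat.beq (eP B EO ew em t) β)
        (and (Nat.blt (ePar B EO ew em t) t)
          (and (Nat.blt (eGen B EO ew em t) J.length)
            (Nat.beq (fB B (jm J (eGen B EO ew em t)) (eP B EO ew em (ePar B EO ew em t)))
              (eP B EO ew em t))))))

variable {B EO POS ew em J β}
variable {G : Type*} [Group G] {el : ℕ → G} {L : ℕ} (ψ : G →* Equiv.Perm (Fin B.N))

theorem lb_orbit (hψ : ∀ k < L, ∀ i : Fin B.N, (ψ (el k) i).1 = fB B k i.1)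
    (hJ : ∀ k ∈ J, k < L) {n : ℕ} (h : loop (chkO B EO POS ew em J β) 0 n = true)
    (βf : Fin B.N) (hβ : βf.1 = β) :
    ∃ O : Finset (Fin B.N), O.card = n ∧ ∀ y ∈ O, ∃ x ∈ KK el J, ψ x βf = y := by
  have hc : ∀ t < n, chkO B EO POS ew em J β t = true :=
    fun t ht => loop_spec h t (Nat.zero_le _) (by omega)
  have hlt : ∀ t < n, eP B EO ew em t < B.N := by
    intro t ht
    have := hc t ht
    unfold chkO at this
    rw [Bool.and_eq_true, blt_iff] at this
    exact this.1
  have hpos : ∀ t < n, rd B.bw B.bm B.k B.km POS (eP B EO ew em t) = t := by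
    intro t ht
    have := hc t ht
    unfold chkO at this
    rw [Bool.and_eq_true, Bool.and_eq_true, Nat.beq_eq] at this
    exact this.2.1
  let e : Fin n → Fin B.N := fun t => ⟨eP B EO ew em t.1, hlt t.1 t.2⟩
  have he : Function.Injective e := by
    intro s t hst
    have h1 : eP B EO ew em s.1 = eP B EO ew em t.1 := congrArg Fin.val hst
    apply Fin.ext
    rw [← hpos s.1 s.2, ← hpos t.1 t.2, h1]
  refine ⟨Finset.univ.image e, by rw [Finset.card_image_of_injective _ he]; simp, ?_⟩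
  have hreach : ∀ t, ∀ ht : t < n, ∃ x ∈ KK el J, ψ x βf = ⟨eP B EO ew em t, hlt t ht⟩ := by
    intro t
    induction t using Nat.strong_induction_on with
    | _ t ih =>
      intro ht
      have := hc t ht
      unfold chkO at this
      rw [Bool.and_eq_true, Bool.and_eq_true] at this
      have h3 := this.2.2
      cases h0 : Nat.beq t 0
      · rw [h0] at h3
        simp only [cond_false] at h3
        rw [Bool.and_eq_true, Bool.and_eq_true, blt_iff, blt_iff, Nat.beq_eq] at h3
        obtain ⟨k1, k2, k3⟩ := h3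
        obtain ⟨x, hx, hxe⟩ := ih _ k1 (by omega)
        have hmem : jm J (eGen B EO ew em t) ∈ J := by
          unfold jm
          rw [List.getD_eq_getElem _ _ k2]
          exact List.getElem_mem _
        refine ⟨el (jm J (eGen B EO ew em t)) * x, (KK el J).mul_mem (mem_KK el hmem) hx, ?_⟩
        rw [map_mul, Equiv.Perm.mul_apply, hxe]
        apply Fin.ext
        rw [hψ _ (hJ _ hmem)]
        exact k3
      · rw [h0] at h3
        simp only [cond_true] at h3
        rw [Nat.beq_eq] at h3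
        refine ⟨1, (KK el J).one_mem, ?_⟩
        rw [map_one]
        apply Fin.ext
        exact hβ.trans h3.symm
  intro y hy
  obtain ⟨t, _, rfl⟩ := Finset.mem_image.1 hy
  exact hreach t.1 t.2

theorem fix_KK (hψ : ∀ k < L, ∀ i : Fin B.N, (ψ (el k) i).1 = fB B k i.1)
    {J' : List ℕ} (hJ : ∀ k ∈ J', k < L) (βf : Fin B.N) (hf : ∀ k ∈ J', fB B k βf.1 = βf.1) :
    ∀ x ∈ KK el J', ψ x βf = βf := by
  apply Cfsg.Agent.Lib.Helper19.TCS.fix_of_closure
  rintro _ ⟨k, hk, rfl⟩
  apply Fin.ext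
  rw [hψ k (hJ k hk), hf k hk]

end lb

/-- one step of a chain of lower bounds -/
structure LBStep {G : Type*} [Group G] {X : Type*} (ψ : G →* Equiv.Perm X) (K K' : Subgroup G)
    (n : ℕ) : Prop where
  le : K' ≤ K
  ex : ∃ β : X, (∀ x ∈ K', ψ x β = β) ∧
    ∃ O : Finset X, O.card = n ∧ ∀ y ∈ O, ∃ x ∈ K, ψ x β = y

theorem LBStep.card_le {G : Type*} [Group G] {X : Type*} {ψ : G →* Equiv.Perm X}
    {K K' : Subgroup G} {n : ℕ} (h : LBStep ψ K K' n) [Finite K] :
    n * Nat.card K' ≤ Nat.card K := by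
  obtain ⟨β, hfix, O, hO, hr⟩ := h.ex
  rw [← hO]
  exact card_ge_of_orbit ψ K K' h.le β hfix O hr

theorem LBStep.ker_le {G : Type*} [Group G] {X : Type*} {ψ : G →* Equiv.Perm X}
    {K K' : Subgroup G} {n : ℕ} (h : LBStep ψ K K' n) [Finite K] (hn : 0 < n)
    (ht : Nat.card K ≤ n * Nat.card K') : ∀ x ∈ K, ψ x = 1 → x ∈ K' := by
  obtain ⟨β, hfix, O, hO, hr⟩ := h.ex
  intro x hx hx1
  exact mem_of_fix ψ K K' h.le β hfix O hr (by omega) (by rw [hO]; exact ht) x hx
    (by rw [hx1]; rfl)

end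

end Cfsg.Agent.Lib.Helper19.TC2
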