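import Cfsg.Agent.Lib.Helper19.TC2P

/-!
# Orders and simplicity of presented groups from Todd–Coxeter certificates: collapse of quotients
-/

set_option autoImplicit false

namespace Cfsg.Agent.Lib.Helper19.TC2

open Cfsg.Agent.Lib.Helper19.TCS (fld RC blt_iff evn ncard_interval)

theorem collapseJ {P : Par} {G : Type*} [Group G] (el : ℕ → G) (J J' : List ℕ)
    (hel : ∀ k, el k * el k = 1)
    (hyp : Hyp P (KK el J') (fun k => el (jm J k))) (h0 : al P 0 = true)
    (hrow : ∀ a < P.M, row P a = true) (hLS : P.LS.map (fun p => jm J p.1) = J)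
    (hone : loop (fun a => cond (al P a) (Nat.beq a 0) true) 0 P.M = true) :
    KK el J ≤ KK el J' := by
  intro x hx
  rw [← closure_eq_KK el J P.LS hLS] at hx
  obtain ⟨a, ha, hal, hr⟩ := cover_mem hyp h0 hrow
    (fun p hp => ⟨p, hp, (inv_eq_of_mul_eq_one_right (hel _)).symm⟩) x hx
  have h1 : cond (al P a) (Nat.beq a 0) true = true := loop_spec hone a (Nat.zero_le _) (by omega)
  rw [hal] at h1
  have h2 : a = 0 := Nat.eq_of_beq_eq_true h1
  subst h2
  unfold RC at hr
  rw [rep_zero] at hr
  simpa using hr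

section abstract3
variable {G : Type*} [Group G]

theorem normalizes_of_gens (S : Set G) (A : Subgroup G) (hS : ∀ s ∈ S, s * s = 1)
    (h : ∀ s ∈ S, ∀ a ∈ A, s * a * s⁻¹ ∈ A) :
    ∀ x ∈ Subgroup.closure S, ∀ a ∈ A, x * a * x⁻¹ ∈ A := by
  have key : ∀ s ∈ S, ∀ y : G, (∀ a ∈ A, y * a * y⁻¹ ∈ A) → ∀ a ∈ A, s * y * a * (s * y)⁻¹ ∈ A := by
    intro s hs y ih a ha
    have := h s hs _ (ih a ha)
    have e : s * y * a * (s * y)⁻¹ = s * (y * a * y⁻¹) * s⁻¹ := by group
    rw [e]
    exact this
  intro x hx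
  induction hx using Subgroup.closure_induction_left with
  | one => intro a ha; simpa using ha
  | mul_left s hs y _ ih => exact key s hs y ih
  | inv_mul_cancel s hs y _ ih =>
    rw [inv_eq_of_mul_eq_one_right (hS s hs)]
    exact key s hs y ih

theorem conj_zpowers {s t : G} (k : ℕ) (h : s * t = t ^ k * s) :
    ∀ a ∈ Subgroup.zpowers t, s * a * s⁻¹ ∈ Subgroup.zpowers t := by
  intro a ha
  obtain ⟨n, rfl⟩ := Subgroup.mem_zpowers_iff.1 ha
  have e : s * t * s⁻¹ = t ^ k := by rw [h, mul_inv_cancel_right]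
  rw [← conj_zpow, e]
  exact Subgroup.zpow_mem _ (Subgroup.pow_mem _ (Subgroup.mem_zpowers t) k) n

/-- a perfect group has no proper normal subgroup with commutative quotient -/
theorem top_of_comm_quot (hperf : commutator G = ⊤) (N : Subgroup G) [N.Normal]
    (hc : ∀ x y : G ⧸ N, x * y = y * x) : N = ⊤ := by
  rw [eq_top_iff, ← hperf, commutator_def, Subgroup.commutator_le]
  intro x _ y _
  rw [← QuotientGroup.eq_one_iff, commutatorElement_def]
  simp only [QuotientGroup.mk_mul, QuotientGroup.mk_inv]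
  rw [hc (x : G ⧸ N) (y : G ⧸ N)]
  group

theorem comm_of_closure (S : Set G) (hS : Subgroup.closure S = ⊤)
    (h : ∀ x ∈ S, ∀ y ∈ S, x * y = y * x) : ∀ x y : G, x * y = y * x := by
  letI := Subgroup.closureCommGroupOfComm h
  intro x y
  have hx : x ∈ Subgroup.closure S := by rw [hS]; trivial
  have hy : y ∈ Subgroup.closure S := by rw [hS]; trivial
  have := mul_comm (⟨x, hx⟩ : Subgroup.closure S) ⟨y, hy⟩
  exact congrArg Subtype.val this

theorem comm_of_sq {x y : G} (hx : x * x = 1) (hy : y * y = 1) (h : (x * y) ^ 2 = 1) :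
    x * y = y * x := by
  have h1 : x * y * (x * y) = 1 := by rw [← pow_two]; exact h
  have h2 : (x * y)⁻¹ = x * y := inv_eq_of_mul_eq_one_right h1
  rw [← h2, mul_inv_rev, inv_eq_of_mul_eq_one_right hx, inv_eq_of_mul_eq_one_right hy]

/-- evaluation of a word in a commutative group when the letters take two values -/
theorem evn_count2 {A : Type*} [CommGroup A] (f : ℕ → A) (s u : A) (p : ℕ → Bool) (l : List ℕ)
    (h1 : ∀ k ∈ l, p k = true → f k = s) (h2 : ∀ k ∈ l, p k = false → f k = u) :
    evn f l = s ^ (l.countP p) * u ^ (l.countP (fun k => !p k)) := by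
  induction l with
  | nil => simp [evn]
  | cons k l ih =>
    have e : evn f (k :: l) = f k * evn f l := by simp [evn]
    rw [e, ih (fun j hj => h1 j (by simp [hj])) (fun j hj => h2 j (by simp [hj]))]
    cases hp : p k
    · rw [h2 k (by simp) hp, List.countP_cons_of_neg (by simp [hp]),
        List.countP_cons_of_pos (by simp [hp]), pow_succ]
      rw [mul_comm (u ^ _) u, mul_left_comm]
    · rw [h1 k (by simp) hp, List.countP_cons_of_pos (by simp [hp]),
        List.countP_cons_of_neg (by simp [hp]), pow_succ]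
      rw [mul_comm (s ^ _) s, mul_assoc]

theorem pow_even_one {A : Type*} [Group A] {t : A} (ht : t * t = 1) (m : ℕ) : t ^ (2 * m) = 1 := by
  rw [pow_mul, pow_two, ht, one_pow]

end abstract3

section tables2
variable {B : ParB}

theorem inv_tableW (fT : ℕ → ℕ) (tw w : List ℕ) (hA : ∀ i < B.N, app B tw i = fT i)
    (hlt : ∀ i < B.N, app B w i < B.N) (hltT : ∀ i < B.N, app B tw i < B.N)
    (hB : ∀ i < B.N, app B w (fT i) = fT (fT (app B w i))) :
    ∀ i < B.N, app B (w ++ tw) i = app B (tw ++ (tw ++ w)) i := by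
  intro i hi
  have h1 := hlt i hi
  have h2 : fT (app B w i) < B.N := by rw [← hA _ h1]; exact hltT _ h1
  rw [app_append, app_append, app_append, hA i hi, hA _ h1, hA _ h2, hB i hi]

end tables2

end Cfsg.Agent.Lib.Helper19.TC2
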