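import Cfsg.Agent.Lib.Helper19.TCG

/-!
# Static Todd–Coxeter certificates, second version (upper bound part)

Same checker as in `TCS`, with two-level tables (a binary tree of small blocks) and with forced
evaluation of the labels, so that the kernel neither produces big intermediate numbers nor
evaluates the same lookup twice.
-/

set_option autoImplicit false

namespace Cfsg.Agent.Lib.Helper19.TC2

open Cfsg.Agent.Lib.Helper19.TCS (fld fld_le fld_zero RC blt_iff)

noncomputable section

/-- evaluate the argument first -/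
def strict {α : Type} (f : ℕ → α) (x : ℕ) : α := Nat.rec (f 0) (fun n _ => f (Nat.succ n)) x

@[simp] theorem strict_eq {α : Type} (f : ℕ → α) (x : ℕ) : strict f x = f x := by
  cases x <;> rfl

/-- binary trees of blocks -/
inductive Tb where
  | leaf : ℕ → Tb
  | node : Tb → Tb → Tb

/-- look up a block (the bits of the index are consumed from the lowest one) -/
def Tb.blk (t : Tb) : ℕ → ℕ :=
  Tb.rec (motive := fun _ => ℕ → ℕ) (fun b _ => b)
    (fun _ _ il ir n => cond (Nat.beq (Nat.land n 1) 1) (ir (Nat.shiftRight n 1))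
      (il (Nat.shiftRight n 1))) t

/-- read a field of a two-level table -/
def rd (w m k km : ℕ) (t : Tb) (a : ℕ) : ℕ :=
  fld w m (strict t.blk (Nat.shiftRight a k)) (Nat.land a km)

theorem rd_le (w m k km : ℕ) (t : Tb) (a : ℕ) : rd w m k km t a ≤ m := fld_le _ _ _ _

theorem rd_zero (w m k km a : ℕ) : rd w m k km (Tb.leaf 0) a = 0 := by
  unfold rd
  rw [strict_eq]
  exact fld_zero _ _ _

/-- A letter: index, table of entries, table of justifications. -/
abbrev Letter := ℕ × Tb × Tb

/-- binary trees of words -/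
inductive Tr where
  | leaf : List Letter → Tr
  | node : Tr → Tr → Tr

def Tr.get (t : Tr) : ℕ → List Letter :=
  Tr.rec (motive := fun _ => ℕ → List Letter) (fun W _ => W)
    (fun _ _ il ir n => cond (Nat.beq (Nat.land n 1) 1) (ir (Nat.shiftRight n 1))
      (il (Nat.shiftRight n 1))) t

def Tr.All (Q : List Letter → Prop) : Tr → Prop
  | .leaf W => Q W
  | .node l r => l.All Q ∧ r.All Q

theorem Tr.get_all {Q : List Letter → Prop} : ∀ (t : Tr), t.All Q → ∀ n, Q (t.get n)
  | .leaf _, h, _ => h
  | .node l r, h, n => by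
    show Q (cond (Nat.beq (Nat.land n 1) 1) (r.get (Nat.shiftRight n 1))
      (l.get (Nat.shiftRight n 1)))
    cases Nat.beq (Nat.land n 1) 1
    · exact Tr.get_all l h.1 _
    · exact Tr.get_all r h.2 _

/-- the static data of a certificate -/
structure Par where
  w : ℕ
  mw : ℕ
  w5 : ℕ
  fw : ℕ
  mf : ℕ
  jw : ℕ
  mj : ℕ
  k : ℕ
  km : ℕ
  C : Tb
  JC : Tb
  PP : Tb
  D : ℕ
  M : ℕ
  R : ℕ
  S : ℕ
  tree : Tr
  subs : List (List Letter × List Letter)
  LS : List Letter

section defs
variable (P : Par)

def slot (T : Tb) (a : ℕ) : ℕ := cond (Nat.blt a P.M) (rd P.fw P.mf P.k P.km T a) 0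
def jf (T : Tb) (a : ℕ) : ℕ := cond (Nat.blt a P.M) (rd P.jw P.mj P.k P.km T a) 0
def tgt (e : ℕ) : ℕ := Nat.land e P.mw
def pri (e : ℕ) : ℕ := Nat.shiftRight e P.w
def par (b : ℕ) : ℕ := Nat.land (jf P P.PP b) P.mw
def plet (b : ℕ) : ℕ := Nat.land (Nat.shiftRight (jf P P.PP b) P.w) 31
def al (b : ℕ) : Bool := Nat.beq (Nat.shiftRight (jf P P.PP b) P.w5) 1

/-- follow the coincidences of priority larger than `u` -/
def nrm (u : ℕ) : ℕ → ℕ → ℕ :=
  Nat.rec (fun x => x)
    (fun _ ih x => strict (fun x => cond (Nat.blt u (pri P (slot P P.C x)))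
      (ih (tgt P (slot P P.C x))) x) x)

/-- trace a word through the entries of priority larger than `u` -/
def trace (u : ℕ) (l : List Letter) : ℕ → ℕ :=
  List.rec (fun x => x)
    (fun p _ ih x => strict (fun x => cond (Nat.blt u (pri P (slot P p.2.1 x)))
      (ih (nrm P u P.D (tgt P (slot P p.2.1 x)))) P.M) x) l

def sel (l : List Letter) : ℕ → Letter :=
  List.rec (fun _ => (0, Tb.leaf 0, Tb.leaf 0)) (fun p _ ih n => Nat.rec p (fun k _ => ih k) n) l

def selS (l : List (List Letter × List Letter)) : ℕ → List Letter × List Letter :=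
  List.rec (fun _ => ([], [])) (fun p _ ih n => Nat.rec p (fun k _ => ih k) n) l

def relE (p : Letter) (a u b : ℕ) (W : List Letter) : Bool :=
  List.rec false (fun q Y _ => and (Nat.beq q.1 p.1) (Nat.beq (trace P u Y b) a)) W

def subE (p : Letter) (a u b : ℕ) (XZ : List Letter × List Letter) : Bool :=
  List.rec false (fun q Y _ => and (Nat.beq q.1 p.1)
    (and (Nat.beq (trace P u XZ.1 0) a) (Nat.beq (trace P u Y b) 0))) XZ.2

def trE (p : Letter) (a u b c : ℕ) : Bool :=
  and (Nat.beq (nrm P u P.D c) a) (and (Nat.blt u (pri P (slot P p.2.1 c)))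
    (Nat.beq (nrm P u P.D (tgt P (slot P p.2.1 c))) b))

def chkE1 (p : Letter) (a u b j : ℕ) : Bool :=
  cond (Nat.beq j 0)
    (and (Nat.beq (par P b) a) (and (Nat.beq (plet P b) p.1) (Nat.blt a b)))
    (cond (Nat.ble j P.R)
      (relE P p a u b (P.tree.get (Nat.pred j)))
      (cond (Nat.blt j P.S)
        (subE P p a u b (selS P.subs (Nat.sub j (Nat.succ P.R))))
        (strict (trE P p a u b) (Nat.sub j P.S))))

/-- the check of an entry -/
def chkE (p : Letter) (a : ℕ) : Bool :=
  strict (fun u => cond (Nat.beq u 0) true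
    (strict (fun b => strict (chkE1 P p a u b) (jf P p.2.2 a)) (tgt P (slot P p.2.1 a))))
    (pri P (slot P p.2.1 a))

def cong (x u y : ℕ) (p : Letter) (b : ℕ) : Bool :=
  and (Nat.blt u (pri P (slot P p.2.1 b)))
    (and (Nat.blt u (pri P (slot P p.2.1 (nrm P u P.D b))))
      (or (and (Nat.beq x (nrm P u P.D (tgt P (slot P p.2.1 b))))
            (Nat.beq y (nrm P u P.D (tgt P (slot P p.2.1 (nrm P u P.D b))))))
          (and (Nat.beq x (nrm P u P.D (tgt P (slot P p.2.1 (nrm P u P.D b)))))
            (Nat.beq y (nrm P u P.D (tgt P (slot P p.2.1 b)))))))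

def chkC1 (x u y j : ℕ) : Bool :=
  cond (Nat.blt j P.R)
    (and (Nat.beq (trace P u (P.tree.get j) x) y) (Nat.blt y P.M))
    (strict (cong P x u y (sel P.LS (Nat.land (Nat.sub j P.R) 15)))
      (Nat.shiftRight (Nat.sub j P.R) 4))

/-- the check of a coincidence -/
def chkC (x : ℕ) : Bool :=
  strict (fun u => cond (Nat.beq u 0) true
    (strict (fun y => strict (chkC1 P x u y) (jf P P.JC x)) (tgt P (slot P P.C x))))
    (pri P (slot P P.C x))

/-- the rows of the live labels are complete -/
def chkF (a : ℕ) : Bool :=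
  cond (al P a)
    (List.rec true (fun p _ ih => cond (Nat.blt 0 (pri P (slot P p.2.1 a)))
      (cond (al P (nrm P 0 P.D (tgt P (slot P p.2.1 a)))) ih false) false) P.LS)
    true

def rowE (a : ℕ) : Bool := List.rec true (fun p _ ih => cond (chkE P p a) ih false) P.LS

def row (a : ℕ) : Bool := cond (rowE P a) (cond (chkC P a) (chkF P a) false) false

end defs

/-- a loop over an interval -/
def loop (f : ℕ → Bool) (lo : ℕ) : ℕ → Bool :=
  Nat.rec true (fun k ih => cond (strict f (Nat.add lo k)) ih false)

theorem loop_spec {f : ℕ → Bool} {lo : ℕ} : ∀ {n : ℕ}, loop f lo n = true →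
    ∀ a, lo ≤ a → a < lo + n → f a = true
  | 0, _, a, h1, h2 => by omega
  | n + 1, h, a, h1, h2 => by
    have h' : cond (strict f (lo + n)) (loop f lo n) false = true := h
    rw [strict_eq] at h'
    cases hf : f (lo + n)
    · rw [hf] at h'; simp at h'
    · rw [hf] at h'
      rcases Nat.lt_or_ge a (lo + n) with h3 | h3
      · exact loop_spec h' a h1 h3
      · have : a = lo + n := by omega
        rw [this]; exact hf

section sound
variable (P : Par) {G : Type*} [Group G] (H : Subgroup G) (el : ℕ → G)

/-- the value of a word -/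
def ev (W : List Letter) : G := (W.map fun p => el p.1).prod

@[simp] theorem ev_nil : ev el [] = 1 := rfl
@[simp] theorem ev_cons (p : Letter) (W : List Letter) : ev el (p :: W) = el p.1 * ev el W := by
  simp [ev]

/-- the coset representatives -/
def rep (b : ℕ) : G :=
  if _h : par P b < b then rep (par P b) * el (plet P b) else 1
termination_by b

theorem rep_zero : rep P el 0 = 1 := by
  rw [rep]; simp

theorem rep_succ {b : ℕ} (h : par P b < b) : rep P el b = rep P el (par P b) * el (plet P b) := by
  conv_lhs => rw [rep]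
  rw [dif_pos h]

theorem rep_one {b : ℕ} (h : ¬ par P b < b) : rep P el b = 1 := by
  rw [rep, dif_neg h]

/-- all entries of priority larger than `n` are valid -/
structure Val (n : ℕ) : Prop where
  e : ∀ p ∈ P.LS, ∀ a, n < pri P (slot P p.2.1 a) →
    RC H (rep P el a * el p.1) (rep P el (tgt P (slot P p.2.1 a)))
  q : ∀ a, n < pri P (slot P P.C a) → RC H (rep P el a) (rep P el (tgt P (slot P P.C a)))

/-- the hypotheses on the words -/
structure Hyp : Prop where
  tree : P.tree.All (fun W => (∀ p ∈ W, p ∈ P.LS) ∧ ev el W = 1)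
  subs : ∀ XZ ∈ P.subs, (∀ p ∈ XZ.1, p ∈ P.LS) ∧ (∀ p ∈ XZ.2, p ∈ P.LS) ∧
    ev el XZ.1 * ev el XZ.2 ∈ H

variable {P H el}

theorem nrm_sound {n : ℕ} (hV : Val P H el n) (d x : ℕ) :
    RC H (rep P el x) (rep P el (nrm P n d x)) := by
  induction d generalizing x with
  | zero => exact RC.refl _
  | succ d ih =>
    have e : nrm P n (d + 1) x = strict (fun x => cond (Nat.blt n (pri P (slot P P.C x)))
      (nrm P n d (tgt P (slot P P.C x))) x) x := rfl
    rw [e, strict_eq]
    cases h : Nat.blt n (pri P (slot P P.C x))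
    · exact RC.refl _
    · exact (hV.q x (blt_iff.1 h)).trans (ih _)

theorem trace_sound {n : ℕ} (hV : Val P H el n) (l : List Letter) (hl : ∀ p ∈ l, p ∈ P.LS)
    (x : ℕ) (hy : trace P n l x ≠ P.M) :
    RC H (rep P el x * ev el l) (rep P el (trace P n l x)) := by
  induction l generalizing x with
  | nil =>
    show RC H (rep P el x * ev el []) (rep P el x)
    simpa using RC.refl _
  | cons p l ih =>
    have e : trace P n (p :: l) x = strict (fun x => cond (Nat.blt n (pri P (slot P p.2.1 x)))
      (trace P n l (nrm P n P.D (tgt P (slot P p.2.1 x)))) P.M) x := rfl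
    rw [e, strict_eq] at hy ⊢
    cases h : Nat.blt n (pri P (slot P p.2.1 x))
    · rw [h] at hy; exact absurd rfl hy
    · rw [h] at hy
      simp only [cond_true] at hy ⊢
      have h1 := hV.e p (hl p (by simp)) x (blt_iff.1 h)
      have h2 := h1.trans (nrm_sound hV P.D _)
      have h3 := ih (fun q hq => hl q (by simp [hq])) _ hy
      have h4 := h2.mul_right (ev el l)
      rw [ev_cons, ← mul_assoc]
      exact h4.trans h3

theorem sel_prop (l : List Letter) (n : ℕ) : sel l n ∈ l ∨ sel l n = (0, Tb.leaf 0, Tb.leaf 0) := by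
  induction l generalizing n with
  | nil => right; rfl
  | cons p l ih =>
    cases n with
    | zero => left; show p ∈ p :: l; simp
    | succ k =>
      have e : sel (p :: l) (k + 1) = sel l k := rfl
      rw [e]
      rcases ih k with h | h
      · left; simp [h]
      · right; exact h

theorem selS_prop (l : List (List Letter × List Letter)) (n : ℕ) :
    selS l n ∈ l ∨ selS l n = ([], []) := by
  induction l generalizing n with
  | nil => right; rfl
  | cons p l ih =>
    cases n with
    | zero => left; show p ∈ p :: l; simp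
    | succ k =>
      have e : selS (p :: l) (k + 1) = selS l k := rfl
      rw [e]
      rcases ih k with h | h
      · left; simp [h]
      · right; exact h

theorem relE_sound {u : ℕ} (hV : Val P H el u) {p : Letter} {a b : ℕ} (ha : a < P.M)
    {W : List Letter} (hW : (∀ p ∈ W, p ∈ P.LS) ∧ ev el W = 1) (h : relE P p a u b W = true) :
    RC H (rep P el a * el p.1) (rep P el b) := by
  cases W with
  | nil => exact absurd h (by simp [relE])
  | cons q Y =>
    have h' : (Nat.beq q.1 p.1 && Nat.beq (trace P u Y b) a) = true := h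
    rw [Bool.and_eq_true, Nat.beq_eq, Nat.beq_eq] at h'
    obtain ⟨h1, h2⟩ := h'
    have h3 := trace_sound hV Y (fun r hr => hW.1 r (by simp [hr])) b (by rw [h2]; omega)
    rw [h2] at h3
    have h4 := hW.2
    rw [ev_cons, h1] at h4
    have h5 : ev el Y * el p.1 = 1 := by
      have : ev el Y = (el p.1)⁻¹ := (inv_eq_of_mul_eq_one_right h4).symm
      rw [this]; simp
    have h6 := (h3.mul_right (el p.1)).symm
    rwa [mul_assoc, h5, mul_one] at h6

theorem subE_sound {u : ℕ} (hV : Val P H el u) {p : Letter} {a b : ℕ} (ha : a < P.M)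
    {XZ : List Letter × List Letter}
    (hW : (∀ p ∈ XZ.1, p ∈ P.LS) ∧ (∀ p ∈ XZ.2, p ∈ P.LS) ∧ ev el XZ.1 * ev el XZ.2 ∈ H)
    (h : subE P p a u b XZ = true) :
    RC H (rep P el a * el p.1) (rep P el b) := by
  obtain ⟨X, Z⟩ := XZ
  cases Z with
  | nil => exact absurd h (by simp [subE])
  | cons q Y =>
    have h' : (Nat.beq q.1 p.1 && (Nat.beq (trace P u X 0) a && Nat.beq (trace P u Y b) 0))
      = true := h
    rw [Bool.and_eq_true, Bool.and_eq_true, Nat.beq_eq, Nat.beq_eq, Nat.beq_eq] at h'
    obtain ⟨h1, h2, h3⟩ := h'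
    have k1 := trace_sound hV X hW.1 0 (by rw [h2]; omega)
    have k2 := trace_sound hV Y (fun r hr => hW.2.1 r (by simp [hr])) b (by rw [h3]; omega)
    rw [h2, rep_zero, one_mul] at k1
    rw [h3, rep_zero] at k2
    have k3 := hW.2.2
    simp only [ev_cons, h1] at k3
    unfold RC at k1 k2 ⊢
    have := H.mul_mem (H.mul_mem (H.inv_mem k1) k3) (H.inv_mem k2)
    convert this using 1
    group

theorem trE_sound {u : ℕ} (hV : Val P H el u) {p : Letter} (hp : p ∈ P.LS) {a b c : ℕ}
    (h : trE P p a u b c = true) :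
    RC H (rep P el a * el p.1) (rep P el b) := by
  unfold trE at h
  rw [Bool.and_eq_true, Bool.and_eq_true, Nat.beq_eq, Nat.beq_eq, blt_iff] at h
  obtain ⟨h1, h2, h3⟩ := h
  have k1 := nrm_sound hV P.D c
  rw [h1] at k1
  have k2 := hV.e p hp c h2
  have k3 := nrm_sound hV P.D (tgt P (slot P p.2.1 c))
  rw [h3] at k3
  exact ((k1.symm.mul_right _).trans k2).trans k3

theorem chkE1_sound (hyp : Hyp P H el) {u : ℕ} (hV : Val P H el u) {p : Letter} (hp : p ∈ P.LS)
    {a b j : ℕ} (ha : a < P.M) (h : chkE1 P p a u b j = true) :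
    RC H (rep P el a * el p.1) (rep P el b) := by
  unfold chkE1 at h
  cases h0 : Nat.beq j 0
  · rw [h0] at h
    simp only [cond_false] at h
    cases h1 : Nat.ble j P.R
    · rw [h1] at h
      simp only [cond_false] at h
      cases h2 : Nat.blt j P.S
      · rw [h2] at h
        simp only [cond_false, strict_eq] at h
        exact trE_sound hV hp h
      · rw [h2] at h
        simp only [cond_true] at h
        rcases selS_prop P.subs (Nat.sub j (Nat.succ P.R)) with h3 | h3
        · exact subE_sound hV ha (hyp.subs _ h3) h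
        · rw [h3] at h
          exact absurd h (by simp [subE])
    · rw [h1] at h
      exact relE_sound hV ha (Tr.get_all _ hyp.tree _) h
  · rw [h0] at h
    simp only [cond_true] at h
    rw [Bool.and_eq_true, Bool.and_eq_true, Nat.beq_eq, Nat.beq_eq, blt_iff] at h
    obtain ⟨h1, h2, h3⟩ := h
    rw [rep_succ P el (b := b) (by rw [h1]; exact h3), h1, h2]
    exact RC.refl _

theorem pri_zero : pri P 0 = 0 := by
  unfold pri
  show 0 >>> P.w = 0
  simp

theorem slot_ge {T : Tb} {a : ℕ} (ha : P.M ≤ a) : slot P T a = 0 := by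
  unfold slot
  have : Nat.blt a P.M = false := by
    rw [← Bool.not_eq_true, blt_iff]; omega
  rw [this]; rfl

theorem jf_ge {T : Tb} {a : ℕ} (ha : P.M ≤ a) : jf P T a = 0 := by
  unfold jf
  have : Nat.blt a P.M = false := by
    rw [← Bool.not_eq_true, blt_iff]; omega
  rw [this]; rfl

theorem slot_leaf_zero (a : ℕ) : slot P (Tb.leaf 0) a = 0 := by
  unfold slot
  rw [rd_zero]
  cases Nat.blt a P.M <;> rfl

theorem al_lt {a : ℕ} (h : al P a = true) : a < P.M := by
  by_contra hc
  unfold al at h
  rw [jf_ge (by omega)] at h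
  have : Nat.shiftRight 0 P.w5 = 0 := by
    show 0 >>> P.w5 = 0
    simp
  rw [this] at h
  exact absurd h (by decide)

theorem cong_sound {u : ℕ} (hV : Val P H el u) {x y b : ℕ} {p : Letter}
    (hp : p ∈ P.LS ∨ p = (0, Tb.leaf 0, Tb.leaf 0)) (h : cong P x u y p b = true) :
    RC H (rep P el x) (rep P el y) := by
  unfold cong at h
  rw [Bool.and_eq_true, Bool.and_eq_true, blt_iff, blt_iff] at h
  obtain ⟨h1, h2, h3⟩ := h
  rcases hp with hp | rfl
  · have k1 := (hV.e p hp b h1).trans (nrm_sound hV P.D _)
    have k2 := (hV.e p hp _ h2).trans (nrm_sound hV P.D _)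
    have k3 := (nrm_sound hV P.D b).mul_right (el p.1)
    have k4 := (k1.symm.trans k3).trans k2
    rw [Bool.or_eq_true, Bool.and_eq_true, Bool.and_eq_true, Nat.beq_eq, Nat.beq_eq, Nat.beq_eq,
      Nat.beq_eq] at h3
    rcases h3 with ⟨e1, e2⟩ | ⟨e1, e2⟩
    · rw [e1, e2]; exact k4
    · rw [e1, e2]; exact k4.symm
  · exfalso
    have : slot P (0, Tb.leaf 0, Tb.leaf 0).2.1 b = 0 := slot_leaf_zero _
    rw [this, pri_zero] at h1
    omega

theorem chkC1_sound (hyp : Hyp P H el) {u : ℕ} (hV : Val P H el u) {x y j : ℕ}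
    (h : chkC1 P x u y j = true) : RC H (rep P el x) (rep P el y) := by
  unfold chkC1 at h
  cases h0 : Nat.blt j P.R
  · rw [h0] at h
    simp only [cond_false, strict_eq] at h
    exact cong_sound hV (sel_prop _ _) h
  · rw [h0] at h
    simp only [cond_true] at h
    rw [Bool.and_eq_true, Nat.beq_eq, blt_iff] at h
    obtain ⟨h1, h2⟩ := h
    have hW := Tr.get_all _ hyp.tree j
    have k := trace_sound hV _ hW.1 x (by rw [h1]; omega)
    rwa [h1, hW.2, mul_one] at k

theorem rowE_spec {a : ℕ} (h : rowE P a = true) : ∀ p ∈ P.LS, chkE P p a = true := by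
  unfold rowE at h
  generalize P.LS = L at h
  induction L with
  | nil => intro p hp; simp at hp
  | cons q L ih =>
    have h' : cond (chkE P q a) (List.rec true (fun p _ ih => cond (chkE P p a) ih false) L)
      false = true := h
    cases hq : chkE P q a
    · rw [hq] at h'; simp at h'
    · rw [hq] at h'
      intro p hp
      rcases List.mem_cons.1 hp with rfl | hp
      · exact hq
      · exact ih h' p hp

theorem row_spec {a : ℕ} (h : row P a = true) :
    rowE P a = true ∧ chkC P a = true ∧ chkF P a = true := by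
  unfold row at h
  cases h1 : rowE P a
  · rw [h1] at h; simp at h
  · rw [h1] at h
    simp only [cond_true] at h
    cases h2 : chkC P a
    · rw [h2] at h; simp at h
    · rw [h2] at h
      exact ⟨rfl, rfl, h⟩

theorem val_step (hyp : Hyp P H el) (hrow : ∀ a < P.M, row P a = true)
    {n : ℕ} (hV : Val P H el (n + 1)) : Val P H el n := by
  constructor
  · intro p hp a h
    rcases Nat.lt_or_ge (n + 1) (pri P (slot P p.2.1 a)) with h1 | h1
    · exact hV.e p hp a h1
    · have hu : pri P (slot P p.2.1 a) = n + 1 := by omega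
      have ha : a < P.M := by
        by_contra hc
        rw [slot_ge (by omega), pri_zero] at hu
        omega
      have hc := rowE_spec (row_spec (hrow a ha)).1 p hp
      unfold chkE at hc
      simp only [strict_eq] at hc
      have hz : Nat.beq (pri P (slot P p.2.1 a)) 0 = false := by
        rw [hu]; rfl
      rw [hz, hu] at hc
      exact chkE1_sound hyp hV hp ha hc
  · intro a h
    rcases Nat.lt_or_ge (n + 1) (pri P (slot P P.C a)) with h1 | h1
    · exact hV.q a h1
    · have hu : pri P (slot P P.C a) = n + 1 := by omega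
      have ha : a < P.M := by
        by_contra hc
        rw [slot_ge (by omega), pri_zero] at hu
        omega
      have hc := (row_spec (hrow a ha)).2.1
      unfold chkC at hc
      simp only [strict_eq] at hc
      have hz : Nat.beq (pri P (slot P P.C a)) 0 = false := by
        rw [hu]; rfl
      rw [hz, hu] at hc
      exact chkC1_sound hyp hV hc

theorem pri_le (T : Tb) (a : ℕ) : pri P (slot P T a) ≤ P.mf := by
  unfold pri
  calc (slot P T a) >>> P.w ≤ slot P T a := Nat.shiftRight_le _ _
    _ ≤ P.mf := by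
      unfold slot
      cases Nat.blt a P.M
      · exact Nat.zero_le _
      · exact rd_le _ _ _ _ _ _

theorem val_zero (hyp : Hyp P H el) (hrow : ∀ a < P.M, row P a = true) :
    Val P H el 0 := by
  have key : ∀ k n, P.mf ≤ n + k → Val P H el n := by
    intro k
    induction k with
    | zero =>
      intro n hn
      exact ⟨fun p _ a h => absurd (pri_le (P := P) p.2.1 a) (by omega),
        fun a h => absurd (pri_le (P := P) P.C a) (by omega)⟩
    | succ k ih =>
      intro n hn
      exact val_step hyp hrow (ih (n + 1) (by omega))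
  exact key P.mf 0 (by omega)

theorem chkF_spec {a : ℕ} (h : chkF P a = true) (ha : al P a = true) :
    ∀ p ∈ P.LS, 0 < pri P (slot P p.2.1 a) ∧
      al P (nrm P 0 P.D (tgt P (slot P p.2.1 a))) = true := by
  unfold chkF at h
  rw [ha] at h
  simp only [cond_true] at h
  generalize P.LS = L at h
  induction L with
  | nil => intro p hp; simp at hp
  | cons q L ih =>
    have h' : cond (Nat.blt 0 (pri P (slot P q.2.1 a)))
      (cond (al P (nrm P 0 P.D (tgt P (slot P q.2.1 a))))
        (List.rec true (fun p _ ih => cond (Nat.blt 0 (pri P (slot P p.2.1 a)))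
      (cond (al P (nrm P 0 P.D (tgt P (slot P p.2.1 a)))) ih false) false) L) false) false
        = true := h
    cases h1 : Nat.blt 0 (pri P (slot P q.2.1 a))
    · rw [h1] at h'; simp at h'
    · rw [h1] at h'
      simp only [cond_true] at h'
      cases h2 : al P (nrm P 0 P.D (tgt P (slot P q.2.1 a)))
      · rw [h2] at h'; simp at h'
      · rw [h2] at h'
        intro p hp
        rcases List.mem_cons.1 hp with rfl | hp
        · exact ⟨blt_iff.1 h1, h2⟩
        · exact ih h' p hp

/-- The covering theorem: every element of the group lies in `H * rep a` for a live label `a`. -/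
theorem cover (hyp : Hyp P H el) (h0 : al P 0 = true) (hrow : ∀ a < P.M, row P a = true)
    (hgen : Subgroup.closure {g | ∃ p ∈ P.LS, el p.1 = g} = ⊤)
    (hinv : ∀ p ∈ P.LS, ∃ q ∈ P.LS, el q.1 = (el p.1)⁻¹) (x : G) :
    ∃ a < P.M, al P a = true ∧ RC H x (rep P el a) := by
  have hV := val_zero hyp hrow
  have key : ∀ (x : G) (p : Letter), p ∈ P.LS →
      (∃ a < P.M, al P a = true ∧ RC H x (rep P el a)) →
      ∃ a < P.M, al P a = true ∧ RC H (x * el p.1) (rep P el a) := by
    rintro x p hp ⟨a, ha, hal, hx⟩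
    obtain ⟨h1, h2⟩ := chkF_spec (row_spec (hrow a ha)).2.2 hal p hp
    exact ⟨_, al_lt h2, h2, ((hx.mul_right _).trans (hV.e p hp a h1)).trans (nrm_sound hV _ _)⟩
  have hx : x ∈ Subgroup.closure {g | ∃ p ∈ P.LS, el p.1 = g} := by rw [hgen]; trivial
  induction hx using Subgroup.closure_induction_right with
  | one => exact ⟨0, al_lt h0, h0, by rw [rep_zero]; exact RC.refl _⟩
  | mul_right x s _ hs ih =>
    obtain ⟨p, hp, rfl⟩ := hs
    exact key x p hp ih
  | mul_inv_cancel x s _ hs ih =>
    obtain ⟨p, hp, rfl⟩ := hs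
    obtain ⟨q, hq, hqe⟩ := hinv p hp
    have := key x q hq ih
    rwa [hqe] at this

end sound

end

end Cfsg.Agent.Lib.Helper19.TC2
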