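import Cfsg.Agent.Lib.Helper19.TCS

/-!
# Todd–Coxeter certificates: the permutation representation (lower bound part)
-/

set_option autoImplicit false

namespace Cfsg.Agent.Lib.Helper19.TCS

noncomputable section

section abstract
variable {G : Type*} [Group G] (H : Subgroup G) {X : Type*} (ψ : G →* Equiv.Perm X) (x0 : X)

/-- The cosets of `H` are the points of a transitive action in which `H` is a point stabiliser. -/
theorem exists_equiv (hfix : ∀ h ∈ H, ψ h x0 = x0) (hstab : ∀ x, ψ x x0 = x0 → x ∈ H)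
    (htr : ∀ i, ∃ x, ψ x x0 = i) :
    ∃ φ : G ⧸ H → X, Function.Bijective φ ∧ ∀ (g : G) (q : G ⧸ H), φ (g • q) = ψ g (φ q) := by
  have hwd : ∀ a b : G, QuotientGroup.leftRel H a b → ψ a x0 = ψ b x0 := by
    intro a b hab
    rw [QuotientGroup.leftRel_apply] at hab
    have := hfix _ hab
    rw [map_mul, map_inv, Equiv.Perm.mul_apply, Equiv.Perm.inv_eq_iff_eq] at this
    exact this.symm
  refine ⟨fun q => Quotient.liftOn' q (fun g => ψ g x0) hwd, ⟨?_, ?_⟩, ?_⟩
  · intro q1 q2
    induction q1 using QuotientGroup.induction_on with | H a => ?_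
    induction q2 using QuotientGroup.induction_on with | H b => ?_
    intro h
    have h' : ψ a x0 = ψ b x0 := h
    apply QuotientGroup.eq.2
    apply hstab
    rw [map_mul, map_inv, Equiv.Perm.mul_apply, Equiv.Perm.inv_eq_iff_eq]
    exact h'.symm
  · intro i
    obtain ⟨x, hx⟩ := htr i
    exact ⟨(x : G ⧸ H), hx⟩
  · intro g q
    induction q using QuotientGroup.induction_on with | H a => ?_
    show ψ (g * a) x0 = ψ g (ψ a x0)
    rw [map_mul, Equiv.Perm.mul_apply]

theorem index_of_equiv {φ : G ⧸ H → X} (hφ : Function.Bijective φ) : H.index = Nat.card X := by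
  unfold Subgroup.index
  exact Nat.card_congr (Equiv.ofBijective φ hφ)

theorem orbit_image {φ : G ⧸ H → X} (hφ : Function.Bijective φ)
    (heq : ∀ (g : G) (q : G ⧸ H), φ (g • q) = ψ g (φ q)) (q : G ⧸ H) :
    φ '' (MulAction.orbit H q) = {i | ∃ h ∈ H, ψ h (φ q) = i} := by
  ext i
  constructor
  · rintro ⟨_, ⟨h, rfl⟩, rfl⟩
    exact ⟨h.1, h.2, (heq h.1 q).symm⟩
  · rintro ⟨h, hh, rfl⟩
    exact ⟨_, ⟨⟨h, hh⟩, rfl⟩, heq h q⟩

theorem orbit_ncard {φ : G ⧸ H → X} (hφ : Function.Bijective φ)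
    (heq : ∀ (g : G) (q : G ⧸ H), φ (g • q) = ψ g (φ q)) (q : G ⧸ H) :
    (MulAction.orbit H q).ncard = Set.ncard {i | ∃ h ∈ H, ψ h (φ q) = i} := by
  rw [← orbit_image H ψ hφ heq q, Set.ncard_image_of_injective _ hφ.1]

end abstract

/-- the static data of the permutation representation -/
structure ParB where
  N : ℕ
  bw : ℕ
  bm : ℕ
  TB : List ℕ

def selN (l : List ℕ) : ℕ → ℕ :=
  List.rec (fun _ => 0) (fun p _ ih n => Nat.rec p (fun k _ => ih k) n) l

section B
variable (B : ParB)

def fB (k i : ℕ) : ℕ := fld B.bw B.bm (selN B.TB k) i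

/-- the action of a word (the last letter acts first) -/
def app (l : List ℕ) (i : ℕ) : ℕ := List.rec i (fun k _ ih => fB B k ih) l

@[simp] theorem app_nil (i : ℕ) : app B [] i = i := rfl
@[simp] theorem app_cons (k : ℕ) (l : List ℕ) (i : ℕ) : app B (k :: l) i = fB B k (app B l i) := rfl

variable {α : Type} (num : α → ℕ)

/-- the tables are involutions of `[0, N)` -/
def OKB : Prop := ∀ x : α, ∀ i < B.N, fB B (num x) i < B.N ∧ fB B (num x) (fB B (num x) i) = i

variable {B num}

def sg (h : OKB B num) (x : α) : Equiv.Perm (Fin B.N) where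
  toFun i := ⟨fB B (num x) i.1, (h x i.1 i.2).1⟩
  invFun i := ⟨fB B (num x) i.1, (h x i.1 i.2).1⟩
  left_inv i := Fin.ext (h x i.1 i.2).2
  right_inv i := Fin.ext (h x i.1 i.2).2

theorem sg_apply (h : OKB B num) (x : α) (i : Fin B.N) : (sg h x i).1 = fB B (num x) i.1 := rfl

theorem sg_mul_self (h : OKB B num) (x : α) : sg h x * sg h x = 1 := by
  ext i
  rw [Equiv.Perm.mul_apply, sg_apply, sg_apply]
  exact (h x i.1 i.2).2

theorem prod_apply (h : OKB B num) (l : List α) (i : Fin B.N) :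
    (((l.map (sg h)).prod) i).1 = app B (l.map num) i.1 := by
  induction l with
  | nil => rfl
  | cons x l ih =>
    rw [List.map_cons, List.prod_cons, Equiv.Perm.mul_apply, sg_apply, ih]
    rfl

theorem prod_eq_one (h : OKB B num) (l : List α) (hl : ∀ i < B.N, app B (l.map num) i = i) :
    (l.map (sg h)).prod = 1 := by
  ext i
  rw [prod_apply, hl i.1 i.2]
  rfl

end B

theorem prod_rep {K : Type*} [Monoid K] {α : Type*} (f : α → K) (U : List α) (m : ℕ) :
    (((List.replicate m U).flatten).map f).prod = ((U.map f).prod) ^ m := by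
  induction m with
  | zero => simp
  | succ m ih =>
    rw [List.replicate_succ, List.flatten_cons, List.map_append, List.prod_append, ih, pow_succ']


/-- the value of a word given by indices -/
def evn {G : Type*} [Group G] (el : ℕ → G) (l : List ℕ) : G := (l.map el).prod

section link
variable (P : Par) (B : ParB) (FIN LAB L : ℕ)

def fin (b : ℕ) : ℕ := fld B.bw B.bm FIN b
def lab (i : ℕ) : ℕ := fld P.jw P.mj LAB i

def chkL (b : ℕ) : Bool :=
  cond (Nat.blt (par P b) b)
    (and (Nat.blt (plet P b) L)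
      (Nat.beq (fin B FIN b) (fB B (plet P b) (fin B FIN (par P b)))))
    (Nat.beq (fin B FIN b) 0)

def chkS (b : ℕ) : Bool :=
  cond (tb P.AL b) (cond (Nat.beq b 0) true (not (Nat.beq (fin B FIN b) 0))) true

def chkLS (b : ℕ) : Bool := and (chkL P B FIN L b) (chkS P B FIN b)

def chkT (i : ℕ) : Bool :=
  and (Nat.blt (lab P LAB i) P.M) (Nat.beq (fin B FIN (lab P LAB i)) i)

variable {P B FIN LAB L}
variable {G : Type*} [Group G] {H : Subgroup G} {el : ℕ → G} (ψ : G →* Equiv.Perm (Fin B.N))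
  (z : Fin B.N)

theorem psi_el_inv (hel : ∀ k < L, el k * el k = 1) {k : ℕ} (hk : k < L) :
    (ψ (el k))⁻¹ = ψ (el k) := by
  rw [inv_eq_iff_mul_eq_one, ← map_mul, hel k hk, map_one]

theorem psi_evn (hψ : ∀ k < L, ∀ i : Fin B.N, (ψ (el k) i).1 = fB B k i.1) (l : List ℕ)
    (hl : ∀ k ∈ l, k < L) (i : Fin B.N) : (ψ (evn el l) i).1 = app B l i.1 := by
  induction l with
  | nil => simp [evn]
  | cons k l ih =>
    have e : evn el (k :: l) = el k * evn el l := by simp [evn]
    rw [e, map_mul, Equiv.Perm.mul_apply, hψ k (hl k (by simp)), ih (fun j hj => hl j (by simp [hj]))]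
    rfl

theorem link (hz : z.1 = 0) (hel : ∀ k < L, el k * el k = 1)
    (hψ : ∀ k < L, ∀ i : Fin B.N, (ψ (el k) i).1 = fB B k i.1)
    (hL : ∀ b < P.M, chkLS P B FIN L b = true) :
    ∀ b < P.M, ((ψ (rep P el b))⁻¹ z).1 = fin B FIN b := by
  intro b
  induction b using Nat.strong_induction_on with
  | _ b ih =>
    intro hb
    have h := hL b hb
    unfold chkLS at h
    rw [Bool.and_eq_true] at h
    have h1 := h.1
    unfold chkL at h1
    cases hp : Nat.blt (par P b) b
    · rw [hp] at h1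
      simp only [cond_false] at h1
      rw [Nat.beq_eq] at h1
      have hp' : ¬ par P b < b := by
        intro hc
        rw [blt_iff.2 hc] at hp
        exact absurd hp (by simp)
      rw [rep_one P el hp', map_one, h1]
      simpa using hz
    · rw [hp] at h1
      simp only [cond_true] at h1
      rw [Bool.and_eq_true, blt_iff, Nat.beq_eq] at h1
      have hp' := blt_iff.1 hp
      rw [rep_succ P el hp', map_mul, mul_inv_rev, Equiv.Perm.mul_apply, psi_el_inv ψ hel h1.1,
        hψ _ h1.1, ih _ hp' (by omega), h1.2]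

theorem main_equiv (hz : z.1 = 0) (hel : ∀ k < L, el k * el k = 1)
    (hψ : ∀ k < L, ∀ i : Fin B.N, (ψ (el k) i).1 = fB B k i.1)
    (hcov : ∀ x : G, ∃ a < P.M, tb P.AL a = true ∧ RC H x (rep P el a))
    (hL : ∀ b < P.M, chkLS P B FIN L b = true)
    (hT : ∀ i < B.N, chkT P B FIN LAB i = true)
    (hfix : ∀ h ∈ H, ψ h z = z) :
    ∃ φ : G ⧸ H → Fin B.N, Function.Bijective φ ∧
      ∀ (g : G) (q : G ⧸ H), φ (g • q) = ψ g (φ q) := by
  have hlink := link ψ z hz hel hψ hL
  apply exists_equiv H ψ z hfix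
  · intro x hx
    obtain ⟨a, ha, hal, hr⟩ := hcov x
    have h1 : (ψ (rep P el a))⁻¹ z = z := by
      have e : rep P el a = (x * (rep P el a)⁻¹)⁻¹ * x := by group
      have h2 := hfix _ (H.inv_mem hr)
      rw [e, map_mul, mul_inv_rev, Equiv.Perm.mul_apply, Equiv.Perm.inv_eq_iff_eq,
        Equiv.Perm.inv_eq_iff_eq, hx, h2]
    have h3 := hlink a ha
    rw [h1, hz] at h3
    have h4 := hL a ha
    unfold chkLS at h4
    rw [Bool.and_eq_true] at h4
    have h5 := h4.2
    unfold chkS at h5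
    rw [hal] at h5
    simp only [cond_true] at h5
    cases h0 : Nat.beq a 0
    · rw [h0, ← h3] at h5
      simp at h5
    · rw [Nat.beq_eq] at h0
      subst h0
      unfold RC at hr
      rw [rep_zero] at hr
      simpa using hr
  · intro i
    have h := hT i.1 i.2
    unfold chkT at h
    rw [Bool.and_eq_true, blt_iff, Nat.beq_eq] at h
    refine ⟨(rep P el (lab P LAB i.1))⁻¹, ?_⟩
    rw [map_inv]
    apply Fin.ext
    rw [hlink _ h.1, h.2]

end link

theorem fix_of_closure {G : Type*} [Group G] {X : Type*} (ψ : G →* Equiv.Perm X) (z : X)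
    {S : Set G} (hS : ∀ s ∈ S, ψ s z = z) : ∀ h ∈ Subgroup.closure S, ψ h z = z := by
  intro h hh
  induction hh using Subgroup.closure_induction with
  | mem x hx => exact hS x hx
  | one => simp
  | mul x y _ _ hx hy => rw [map_mul, Equiv.Perm.mul_apply, hy, hx]
  | inv x _ hx => rw [map_inv, Equiv.Perm.inv_eq_iff_eq, hx]

section orbits
variable {G : Type*} [Group G] {N : ℕ} (ψ : G →* Equiv.Perm (Fin N))

theorem ncard_interval {lo hi : ℕ} (hhi : hi ≤ N) :
    Set.ncard {i : Fin N | lo ≤ i.1 ∧ i.1 < hi} = hi - lo := by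
  have e : {i : Fin N | lo ≤ i.1 ∧ i.1 < hi} = Fin.val ⁻¹' (Set.Ico lo hi) := by
    ext i; simp
  rw [e, ← Set.ncard_image_of_injective _ Fin.val_injective, Set.image_preimage_eq_of_subset]
  · rw [Set.ncard_eq_toFinset_card']; simp
  · intro x hx
    exact ⟨⟨x, lt_of_lt_of_le hx.2 hhi⟩, rfl⟩

theorem orbit_interval {S : Set G} {lo hi : ℕ} (q : Fin N) (hq : q.1 = lo) (hlo : lo < hi)
    (hcl : ∀ s ∈ S, ∀ i : Fin N, lo ≤ i.1 → i.1 < hi → lo ≤ (ψ s i).1 ∧ (ψ s i).1 < hi)
    (hre : ∀ i : Fin N, lo < i.1 → i.1 < hi →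
      ∃ s ∈ Subgroup.closure S, ∃ j : Fin N, lo ≤ j.1 ∧ j.1 < i.1 ∧ ψ s j = i) :
    {i | ∃ h ∈ Subgroup.closure S, ψ h q = i} = {i : Fin N | lo ≤ i.1 ∧ i.1 < hi} := by
  set I : Set (Fin N) := {i : Fin N | lo ≤ i.1 ∧ i.1 < hi} with hI
  have hmaps : ∀ h ∈ Subgroup.closure S, Set.MapsTo (ψ h) I I := by
    intro h hh
    induction hh using Subgroup.closure_induction with
    | mem x hx => intro i hi'; exact hcl x hx i hi'.1 hi'.2
    | one => intro i hi'; simpa using hi'
    | mul x y _ _ hx hy =>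
      intro i hi'
      rw [map_mul, Equiv.Perm.mul_apply]
      exact hx (hy hi')
    | inv x _ hx =>
      rw [map_inv]
      exact Equiv.Perm.perm_symm_mapsTo_of_mapsTo _ hx
  ext i
  constructor
  · rintro ⟨h, hh, rfl⟩
    exact hmaps h hh ⟨by omega, by omega⟩
  · rintro ⟨h1, h2⟩
    obtain ⟨n, hn⟩ : ∃ n, n = i.1 := ⟨_, rfl⟩
    induction n using Nat.strong_induction_on generalizing i with
    | _ n ih =>
      rcases Nat.eq_or_lt_of_le h1 with h3 | h3
      · exact ⟨1, Subgroup.one_mem _, by rw [map_one]; apply Fin.ext; simp [hq, h3]⟩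
      · obtain ⟨s, hs, j, hj1, hj2, hj3⟩ := hre i h3 h2
        obtain ⟨h, hh, hhj⟩ := ih j.1 (by omega) j hj1 (by omega) rfl
        exact ⟨s * h, Subgroup.mul_mem _ hs hh, by
          rw [map_mul, Equiv.Perm.mul_apply, hhj, hj3]⟩

end orbits

section orbchk
variable (B : ParB) (sgw : List (List ℕ)) (HP hw hm lo hi : ℕ)

def selW (l : List (List ℕ)) : ℕ → List ℕ :=
  List.rec (fun _ => []) (fun p _ ih n => Nat.rec p (fun k _ => ih k) n) l

theorem selW_prop (l : List (List ℕ)) (n : ℕ) : selW l n ∈ l ∨ selW l n = [] := by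
  induction l generalizing n with
  | nil => right; rfl
  | cons p l ih =>
    cases n with
    | zero => left; show p ∈ p :: l; simp
    | succ k =>
      have e : selW (p :: l) (k + 1) = selW l k := rfl
      rw [e]
      rcases ih k with h | h
      · left; simp [h]
      · right; exact h

/-- the interval is mapped to itself by the generators of the subgroup -/
def chkCl (i : ℕ) : Bool :=
  List.rec true (fun w _ ih => cond (and (Nat.ble lo (app B w i)) (Nat.blt (app B w i) hi)) ih false)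
    sgw

/-- every point of the interval is reached from an earlier one -/
def chkRe (i : ℕ) : Bool :=
  and (Nat.ble lo (Nat.land (fld hw hm HP i) B.bm))
    (and (Nat.blt (Nat.land (fld hw hm HP i) B.bm) i)
      (Nat.beq (app B (selW sgw (Nat.shiftRight (fld hw hm HP i) B.bw))
        (Nat.land (fld hw hm HP i) B.bm)) i))

variable {B sgw HP hw hm lo hi}

theorem chkCl_spec {i : ℕ} (h : chkCl B sgw lo hi i = true) :
    ∀ w ∈ sgw, lo ≤ app B w i ∧ app B w i < hi := by
  unfold chkCl at h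
  induction sgw with
  | nil => intro p hp; simp at hp
  | cons q L ih =>
    have h' : cond (and (Nat.ble lo (app B q i)) (Nat.blt (app B q i) hi))
      (List.rec true (fun w _ ih =>
        cond (and (Nat.ble lo (app B w i)) (Nat.blt (app B w i) hi)) ih false) L) false = true := h
    cases hq : (and (Nat.ble lo (app B q i)) (Nat.blt (app B q i) hi))
    · rw [hq] at h'; simp at h'
    · rw [hq] at h'
      intro p hp
      rcases List.mem_cons.1 hp with rfl | hp
      · rw [Bool.and_eq_true, Nat.ble_eq, blt_iff] at hq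
        exact hq
      · exact ih h' p hp

variable {G : Type*} [Group G] {el : ℕ → G} {L : ℕ} (ψ : G →* Equiv.Perm (Fin B.N))

/-- the orbit of the subgroup generated by the words `sgw` on the point `lo` is `[lo, hi)` -/
theorem orbit_set_of_checks {S : Set G}
    (hψ : ∀ k < L, ∀ i : Fin B.N, (ψ (el k) i).1 = fB B k i.1)
    (hsg : ∀ w ∈ sgw, ∀ k ∈ w, k < L)
    (h1 : ∀ s ∈ S, ∃ w ∈ sgw, s = evn el w) (h2 : ∀ w ∈ sgw, evn el w ∈ Subgroup.closure S)
    (q : Fin B.N) (hq : q.1 = lo) (hlo : lo < hi)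
    (hcl : loop (chkCl B sgw lo hi) lo (hi - lo) = true)
    (hre : loop (chkRe B sgw HP hw hm lo) (lo + 1) (hi - lo - 1) = true) :
    {i | ∃ h ∈ Subgroup.closure S, ψ h q = i} = {i : Fin B.N | lo ≤ i.1 ∧ i.1 < hi} := by
  apply orbit_interval ψ q hq hlo (hi := hi)
  · intro s hs i hi1 hi2
    obtain ⟨w, hw, rfl⟩ := h1 s hs
    rw [psi_evn ψ hψ w (hsg w hw)]
    exact chkCl_spec (loop_spec hcl i.1 hi1 (by omega)) w hw
  · intro i hi1 hi2
    have h := loop_spec hre i.1 (by omega) (by omega)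
    unfold chkRe at h
    rw [Bool.and_eq_true, Bool.and_eq_true, Nat.ble_eq, blt_iff, Nat.beq_eq] at h
    obtain ⟨k1, k2, k3⟩ := h
    rcases selW_prop sgw (Nat.shiftRight (fld hw hm HP i.1) B.bw) with hs | hs
    · refine ⟨_, h2 _ hs, ⟨Nat.land (fld hw hm HP i.1) B.bm, by omega⟩, k1, k2, ?_⟩
      apply Fin.ext
      rw [psi_evn ψ hψ _ (hsg _ hs)]
      exact k3
    · rw [hs] at k3
      simp only [app_nil] at k3
      omega

end orbchk

end

end Cfsg.Agent.Lib.Helper19.TCS
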