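import Cfsg.Agent.Lib.Helper19.TCB
import Cfsg.Prelude.Def_SporCoxeter

/-!
# Todd–Coxeter certificates: glue for the groups presented on a Coxeter graph
-/

set_option autoImplicit false

namespace Cfsg.Agent.Lib.Helper19.TCS

open Cfsg.Spor

section words
variable {K : Type*} [Group K]

theorem prod_rot (l₁ l₂ : List K) (h : (l₁ ++ l₂).prod = 1) : (l₂ ++ l₁).prod = 1 := by
  rw [List.prod_append] at h ⊢
  exact mul_eq_one_comm.1 h

theorem evn_rot (el : ℕ → K) (l₁ l₂ : List ℕ) (h : evn el (l₁ ++ l₂) = 1) :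
    evn el (l₂ ++ l₁) = 1 := by
  unfold evn at h ⊢
  rw [List.map_append] at h ⊢
  exact prod_rot _ _ h

theorem evn_rev (el : ℕ → K) (hel : ∀ k, el k * el k = 1) (l : List ℕ) (h : evn el l = 1) :
    evn el l.reverse = 1 := by
  have key : ∀ l : List ℕ, evn el l.reverse = (evn el l)⁻¹ := by
    intro l
    induction l with
    | nil => simp [evn]
    | cons k l ih =>
      have e1 : evn el (k :: l).reverse = evn el l.reverse * el k := by
        simp [evn]
      have e2 : evn el (k :: l) = el k * evn el l := by simp [evn]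
      rw [e1, e2, ih, mul_inv_rev, inv_eq_of_mul_eq_one_right (hel k)]
  rw [key, h, inv_one]

theorem evn_pair (el : ℕ → K) (hel : ∀ k, el k * el k = 1) (k : ℕ) : evn el [k, k] = 1 := by
  simp [evn, hel]

theorem evn_map {α : Type*} (f : α → K) (gen : ℕ → α) (l : List ℕ) :
    evn (fun k => f (gen k)) l = ((l.map gen).map f).prod := by
  simp [evn, List.map_map, Function.comp_def]

end words

section leaves
variable (P : Par) {G : Type*} [Group G] (el : ℕ → G)

theorem sel_mem {l : List Letter} {k : ℕ} (hk : k < l.length) : sel l k ∈ l := by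
  induction l generalizing k with
  | nil => simp at hk
  | cons p l ih =>
    cases k with
    | zero => show p ∈ p :: l; simp
    | succ k =>
      have e : sel (p :: l) (k + 1) = sel l k := rfl
      rw [e]
      exact List.mem_cons_of_mem _ (ih (by simpa using hk))

theorem leaf_mem (l : List ℕ) (W : List Letter) (hW : W = l.map (sel P.LS))
    (hl : ∀ k ∈ l, k < P.LS.length) : ∀ p ∈ W, p ∈ P.LS := by
  subst hW
  intro p hp
  obtain ⟨k, hk, rfl⟩ := List.mem_map.1 hp
  exact sel_mem (hl k hk)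

theorem leaf_ev (hsel : ∀ k < P.LS.length, (sel P.LS k).1 = k) (l : List ℕ) (W : List Letter)
    (hW : W = l.map (sel P.LS)) (hl : ∀ k ∈ l, k < P.LS.length) : ev el W = evn el l := by
  subst hW
  unfold ev evn
  rw [List.map_map]
  congr 1
  apply List.map_congr_left
  intro k hk
  simp [hsel k (hl k hk)]

theorem leaf_ok (hsel : ∀ k < P.LS.length, (sel P.LS k).1 = k) (l : List ℕ) (W : List Letter)
    (hW : W = l.map (sel P.LS)) (hl : ∀ k ∈ l, k < P.LS.length) (hv : evn el l = 1) :
    (∀ p ∈ W, p ∈ P.LS) ∧ ev el W = 1 :=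
  ⟨leaf_mem P l W hW hl, by rw [leaf_ev P el hsel l W hW hl, hv]⟩

theorem nil_ok : (∀ p ∈ ([] : List Letter), p ∈ P.LS) ∧ ev el [] = 1 :=
  ⟨fun p hp => by simp at hp, rfl⟩

theorem sub_ok (H : Subgroup G) (hsel : ∀ k < P.LS.length, (sel P.LS k).1 = k) (l₁ l₂ : List ℕ)
    (X Z : List Letter) (hX : X = l₁.map (sel P.LS)) (hZ : Z = l₂.map (sel P.LS))
    (hl : ∀ k ∈ l₁ ++ l₂, k < P.LS.length) (hv : evn el (l₁ ++ l₂) ∈ H) :
    (∀ p ∈ (X, Z).1, p ∈ P.LS) ∧ (∀ p ∈ (X, Z).2, p ∈ P.LS) ∧ ev el (X, Z).1 * ev el (X, Z).2 ∈ H := by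
  have h1 : ∀ k ∈ l₁, k < P.LS.length := fun k hk => hl k (by simp [hk])
  have h2 : ∀ k ∈ l₂, k < P.LS.length := fun k hk => hl k (by simp [hk])
  refine ⟨leaf_mem P l₁ X hX h1, leaf_mem P l₂ Z hZ h2, ?_⟩
  show ev el X * ev el Z ∈ H
  rw [leaf_ev P el hsel l₁ X hX h1, leaf_ev P el hsel l₂ Z hZ h2]
  unfold evn at hv ⊢
  rwa [List.map_append, List.prod_append] at hv

/-- a conjunction over a list -/
def AllS {β : Type*} (Q : β → Prop) : List β → Prop
  | [] => True
  | x :: l => Q x ∧ AllS Q l

theorem forall_of_allS {β : Type*} {Q : β → Prop} : ∀ {l : List β}, AllS Q l → ∀ x ∈ l, Q x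
  | [], _, x, hx => by simp at hx
  | y :: l, h, x, hx => by
    rcases List.mem_cons.1 hx with rfl | hx
    · exact h.1
    · exact forall_of_allS h.2 x hx

end leaves

section pres
variable {α : Type} [DecidableEq α] (edges : List (α × ℕ × α)) (extra : List (FreeGroup α))

theorem lift_rels {K : Type*} [Group K] (f : α → K)
    (hcox : ∀ x y, (f x * f y) ^ coxLabel edges x y = 1)
    (hex : ∀ r ∈ extra, FreeGroup.lift f r = 1) :
    ∀ r ∈ coxRelators edges ∪ {r | r ∈ extra}, FreeGroup.lift f r = 1 := by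
  rintro r (⟨x, _, y, _, rfl⟩ | hr)
  · rw [map_pow, map_mul, FreeGroup.lift_apply_of, FreeGroup.lift_apply_of]
    exact hcox x y
  · exact hex r hr

theorem mk_eq_lift (rels : Set (FreeGroup α)) (r : FreeGroup α) :
    PresentedGroup.mk rels r = FreeGroup.lift (PresentedGroup.of (rels := rels)) r := by
  have : PresentedGroup.mk rels = FreeGroup.lift (PresentedGroup.of (rels := rels)) := by
    ext x
    simp [PresentedGroup.of]
  rw [this]

theorem lift_of_eq_one {rels : Set (FreeGroup α)} {r : FreeGroup α} (hr : r ∈ rels) :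
    FreeGroup.lift (PresentedGroup.of (rels := rels)) r = 1 := by
  rw [← mk_eq_lift]
  exact PresentedGroup.one_of_mem hr

theorem cox_mem {x y : α} (hx : x ∈ coxNodes edges) (hy : y ∈ coxNodes edges) :
    (FreeGroup.of x * FreeGroup.of y) ^ coxLabel edges x y ∈
      coxRelators edges ∪ {r | r ∈ extra} :=
  Or.inl ⟨x, hx, y, hy, rfl⟩

theorem of_sq {x : α} (hx : x ∈ coxNodes edges) :
    (PresentedGroup.of x * PresentedGroup.of x : CoxPresented α edges extra) = 1 := by
  have h := lift_of_eq_one (cox_mem edges extra hx hx)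
  rw [map_pow, map_mul, FreeGroup.lift_apply_of] at h
  have e : coxLabel edges x x = 1 := by simp [coxLabel]
  rwa [e, pow_one] at h

theorem of_cox {x y : α} (hx : x ∈ coxNodes edges) (hy : y ∈ coxNodes edges) :
    ((PresentedGroup.of x * PresentedGroup.of y : CoxPresented α edges extra)) ^
      coxLabel edges x y = 1 := by
  have h := lift_of_eq_one (cox_mem edges extra hx hy)
  rwa [map_pow, map_mul, FreeGroup.lift_apply_of, FreeGroup.lift_apply_of] at h

theorem prod_inv_rev {K : Type*} [Group K] {β : Type*} (φ : β → K) (hφ : ∀ x, φ x * φ x = 1)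
    (U : List β) : ((U.map φ).prod)⁻¹ = (U.reverse.map φ).prod := by
  induction U with
  | nil => simp
  | cons x U ih =>
    rw [List.map_cons, List.prod_cons, mul_inv_rev, ih, List.reverse_cons, List.map_append,
      List.prod_append, inv_eq_of_mul_eq_one_right (hφ x)]
    simp

/-- a relator of the shape `x = U ^ m` -/
theorem shapeI {K : Type*} [Group K] {β : Type*} (φ : β → K) (hφ : ∀ x, φ x * φ x = 1)
    (x : β) (U : List β) (m : ℕ) :
    ((x :: (List.replicate m U.reverse).flatten).map φ).prod = φ x * (((U.map φ).prod) ^ m)⁻¹ := by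
  rw [List.map_cons, List.prod_cons, prod_rep, ← prod_inv_rev φ hφ, inv_pow]

theorem pair_of_check {B : ParB} {β : Type} {num : β → ℕ} (h : OKB B num) (x y : β) (m : ℕ)
    (hl : ∀ i < B.N, app B (((List.replicate m [x, y]).flatten).map num) i = i) :
    (sg h x * sg h y) ^ m = 1 := by
  have := prod_eq_one h _ hl
  rw [prod_rep] at this
  simpa using this

theorem loop_beq {E : ℕ → ℕ} {n : ℕ} (h : loop (fun i => Nat.beq (E i) i) 0 n = true) :
    ∀ i < n, E i = i := by
  intro i hi
  have := loop_spec h i (Nat.zero_le _) (by omega)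
  exact Nat.eq_of_beq_eq_true this

theorem loop_inv {E : ℕ → ℕ} {n : ℕ}
    (h : loop (fun i => and (Nat.blt (E i) n) (Nat.beq (E (E i)) i)) 0 n = true) :
    ∀ i < n, E i < n ∧ E (E i) = i := by
  intro i hi
  have := loop_spec h i (Nat.zero_le _) (by omega)
  simp only [Bool.and_eq_true] at this
  exact ⟨blt_iff.1 this.1, Nat.eq_of_beq_eq_true this.2⟩

theorem loop_all {f : ℕ → Bool} {n : ℕ} (h : loop f 0 n = true) : ∀ i < n, f i = true :=
  fun i hi => loop_spec h i (Nat.zero_le _) (by omega)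

theorem cox_word {K : Type*} [Group K] (el : ℕ → K) (x y m : ℕ) (h : (el x * el y) ^ m = 1) :
    evn el ((List.replicate m [x, y]).flatten) = 1 := by
  unfold evn
  rw [prod_rep]
  simpa using h

/-- reversing a Coxeter relation between involutions -/
theorem cox_swap {K : Type*} [Group K] {a b : K} (ha : a * a = 1) (hb : b * b = 1) {m : ℕ}
    (h : (a * b) ^ m = 1) : (b * a) ^ m = 1 := by
  have e : b * a = (a * b)⁻¹ := by
    rw [mul_inv_rev, inv_eq_of_mul_eq_one_right ha, inv_eq_of_mul_eq_one_right hb]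
  rw [e, inv_pow, h, inv_one]

end pres

end Cfsg.Agent.Lib.Helper19.TCS
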