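import Mathlib

/-!
# A verified Todd–Coxeter certificate checker: static certificates (upper bound part)

A certificate consists of packed static tables.  Every entry of a table carries a priority; the
check of an entry only uses entries of strictly larger priority, so that the checks of the
entries are independent of each other and soundness follows by induction on the priority.
All functions are written with explicit recursors and raw `Nat` operations, so that the kernel
evaluates them quickly.
-/

set_option autoImplicit false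

namespace Cfsg.Agent.Lib.Helper19.TCS

noncomputable section

/-- read a field of a packed table -/
def fld (w m t a : ℕ) : ℕ := Nat.land (Nat.shiftRight t (Nat.mul a w)) m

theorem fld_le (w m t a : ℕ) : fld w m t a ≤ m := Nat.and_le_right

theorem fld_of_shift_zero {w m t M a : ℕ} (h : Nat.shiftRight t (Nat.mul M w) = 0) (ha : M ≤ a) :
    fld w m t a = 0 := by
  unfold fld
  have h2 : Nat.shiftRight t (Nat.mul a w) = 0 := by
    obtain ⟨k, rfl⟩ := Nat.exists_eq_add_of_le ha
    show t >>> ((M + k) * w) = 0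
    rw [Nat.add_mul, Nat.shiftRight_add]
    have h' : t >>> (M * w) = 0 := h
    rw [h']; simp
  rw [h2]
  show 0 &&& m = 0
  simp

theorem fld_zero (w m a : ℕ) : fld w m 0 a = 0 := by
  unfold fld
  show (0 >>> (a * w)) &&& m = 0
  simp

/-- glue the pieces of a big table -/
def cat (k : ℕ) (l : List ℕ) : ℕ := List.rec 0 (fun c _ ih => Nat.lor c (Nat.shiftLeft ih k)) l

/-- bit test -/
def tb (K i : ℕ) : Bool := Nat.beq (Nat.land (Nat.shiftRight K i) 1) 1

theorem tb_of_shift_zero {K M a : ℕ} (h : Nat.shiftRight K M = 0) (ha : M ≤ a) : tb K a = false := by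
  unfold tb
  have h2 : Nat.shiftRight K a = 0 := by
    obtain ⟨k, rfl⟩ := Nat.exists_eq_add_of_le ha
    show K >>> (M + k) = 0
    rw [Nat.shiftRight_add]
    have h' : K >>> M = 0 := h
    rw [h']; simp
  rw [h2]; rfl

/-- A letter: index, table of entries, table of justifications. -/
abbrev Letter := ℕ × ℕ × ℕ

/-- binary trees of words -/
inductive Tr where
  | leaf : List Letter → Tr
  | node : Tr → Tr → Tr

/-- look up a word (the bits of the index are consumed from the lowest one) -/
def Tr.get (t : Tr) : ℕ → List Letter :=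
  Tr.rec (motive := fun _ => ℕ → List Letter) (fun W _ => W)
    (fun _ _ il ir n => cond (Nat.beq (Nat.land n 1) 1) (ir (Nat.shiftRight n 1))
      (il (Nat.shiftRight n 1))) t

def Tr.All (Q : List Letter → Prop) : Tr → Prop
  | .leaf W => Q W
  | .node l r => l.All Q ∧ r.All Q

theorem Tr.get_all {Q : List Letter → Prop} : ∀ (t : Tr), t.All Q → ∀ n, Q (t.get n)
  | .leaf _, h, _ => h
  | .node l r, h, n => by
    show Q (cond (Nat.beq (Nat.land n 1) 1) (r.get (Nat.shiftRight n 1))
      (l.get (Nat.shiftRight n 1)))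
    cases Nat.beq (Nat.land n 1) 1
    · exact Tr.get_all l h.1 _
    · exact Tr.get_all r h.2 _

/-- the static data of a certificate -/
structure Par where
  w : ℕ
  mw : ℕ
  fw : ℕ
  mf : ℕ
  jw : ℕ
  mj : ℕ
  C : ℕ
  JC : ℕ
  PP : ℕ
  D : ℕ
  M : ℕ
  R : ℕ
  S : ℕ
  tree : Tr
  subs : List (List Letter × List Letter)
  LS : List Letter
  AL : ℕ

section defs
variable (P : Par)

def slot (T a : ℕ) : ℕ := fld P.fw P.mf T a
def tgt (e : ℕ) : ℕ := Nat.land e P.mw
def pri (e : ℕ) : ℕ := Nat.shiftRight e P.w
def par (b : ℕ) : ℕ := Nat.land (fld P.jw P.mj P.PP b) P.mw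
def plet (b : ℕ) : ℕ := Nat.shiftRight (fld P.jw P.mj P.PP b) P.w

/-- follow the coincidences of priority larger than `u` -/
def nrm (u : ℕ) : ℕ → ℕ → ℕ :=
  Nat.rec (fun x => x)
    (fun _ ih x => cond (Nat.blt u (pri P (slot P P.C x))) (ih (tgt P (slot P P.C x))) x)

/-- trace a word through the entries of priority larger than `u` -/
def trace (u : ℕ) (l : List Letter) : ℕ → ℕ :=
  List.rec (fun x => x)
    (fun p _ ih x => cond (Nat.blt u (pri P (slot P p.2.1 x)))
      (ih (nrm P u P.D (tgt P (slot P p.2.1 x)))) P.M) l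

def sel (l : List Letter) : ℕ → Letter :=
  List.rec (fun _ => (0, 0, 0)) (fun p _ ih n => Nat.rec p (fun k _ => ih k) n) l

def selS (l : List (List Letter × List Letter)) : ℕ → List Letter × List Letter :=
  List.rec (fun _ => ([], [])) (fun p _ ih n => Nat.rec p (fun k _ => ih k) n) l

def relE (p : Letter) (a u b : ℕ) (W : List Letter) : Bool :=
  List.rec false (fun q Y _ => and (Nat.beq q.1 p.1) (Nat.beq (trace P u Y b) a)) W

def subE (p : Letter) (a u b : ℕ) (XZ : List Letter × List Letter) : Bool :=
  List.rec false (fun q Y _ => and (Nat.beq q.1 p.1)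
    (and (Nat.beq (trace P u XZ.1 0) a) (Nat.beq (trace P u Y b) 0))) XZ.2

def trE (p : Letter) (a u b c : ℕ) : Bool :=
  and (Nat.beq (nrm P u P.D c) a) (and (Nat.blt u (pri P (slot P p.2.1 c)))
    (Nat.beq (nrm P u P.D (tgt P (slot P p.2.1 c))) b))

def chkE1 (p : Letter) (a u b j : ℕ) : Bool :=
  cond (Nat.beq j 0)
    (and (Nat.beq (par P b) a) (and (Nat.beq (plet P b) p.1) (Nat.blt a b)))
    (cond (Nat.ble j P.R)
      (relE P p a u b (P.tree.get (Nat.pred j)))
      (cond (Nat.blt j P.S)
        (subE P p a u b (selS P.subs (Nat.sub j (Nat.succ P.R))))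
        (trE P p a u b (Nat.sub j P.S))))

/-- the check of an entry -/
def chkE (p : Letter) (a : ℕ) : Bool :=
  cond (Nat.beq (pri P (slot P p.2.1 a)) 0) true
    (chkE1 P p a (pri P (slot P p.2.1 a)) (tgt P (slot P p.2.1 a)) (fld P.jw P.mj p.2.2 a))

def cong (x u y : ℕ) (p : Letter) (b : ℕ) : Bool :=
  and (Nat.blt u (pri P (slot P p.2.1 b)))
    (and (Nat.blt u (pri P (slot P p.2.1 (nrm P u P.D b))))
      (or (and (Nat.beq x (nrm P u P.D (tgt P (slot P p.2.1 b))))
            (Nat.beq y (nrm P u P.D (tgt P (slot P p.2.1 (nrm P u P.D b))))))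
          (and (Nat.beq x (nrm P u P.D (tgt P (slot P p.2.1 (nrm P u P.D b)))))
            (Nat.beq y (nrm P u P.D (tgt P (slot P p.2.1 b)))))))

def chkC1 (x u y j : ℕ) : Bool :=
  cond (Nat.blt j P.R)
    (and (Nat.beq (trace P u (P.tree.get j) x) y) (Nat.blt y P.M))
    (cong P x u y (sel P.LS (Nat.land (Nat.sub j P.R) 15)) (Nat.shiftRight (Nat.sub j P.R) 4))

/-- the check of a coincidence -/
def chkC (x : ℕ) : Bool :=
  cond (Nat.beq (pri P (slot P P.C x)) 0) true
    (chkC1 P x (pri P (slot P P.C x)) (tgt P (slot P P.C x)) (fld P.jw P.mj P.JC x))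

/-- the rows of the live labels are complete -/
def chkF (a : ℕ) : Bool :=
  cond (tb P.AL a)
    (List.rec true (fun p _ ih => cond (Nat.blt 0 (pri P (slot P p.2.1 a)))
      (cond (tb P.AL (nrm P 0 P.D (tgt P (slot P p.2.1 a)))) ih false) false) P.LS)
    true

def rowE (a : ℕ) : Bool := List.rec true (fun p _ ih => cond (chkE P p a) ih false) P.LS

def row (a : ℕ) : Bool := cond (rowE P a) (cond (chkC P a) (chkF P a) false) false

def bnd : Bool :=
  and (Nat.beq (Nat.shiftRight P.C (Nat.mul P.M P.fw)) 0)
    (and (Nat.beq (Nat.shiftRight P.AL P.M) 0)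
      (and (tb P.AL 0)
        (List.rec true (fun p _ ih =>
          cond (Nat.beq (Nat.shiftRight p.2.1 (Nat.mul P.M P.fw)) 0) ih false) P.LS)))

end defs

/-- a loop over an interval -/
def loop (f : ℕ → Bool) (lo : ℕ) : ℕ → Bool :=
  Nat.rec true (fun k ih => cond (f (Nat.add lo k)) ih false)

theorem loop_spec {f : ℕ → Bool} {lo : ℕ} : ∀ {n : ℕ}, loop f lo n = true →
    ∀ a, lo ≤ a → a < lo + n → f a = true
  | 0, _, a, h1, h2 => by omega
  | n + 1, h, a, h1, h2 => by
    have h' : cond (f (lo + n)) (loop f lo n) false = true := h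
    cases hf : f (lo + n)
    · rw [hf] at h'; simp at h'
    · rw [hf] at h'
      rcases Nat.lt_or_ge a (lo + n) with h3 | h3
      · exact loop_spec h' a h1 h3
      · have : a = lo + n := by omega
        rw [this]; exact hf

section sound
variable (P : Par) {G : Type*} [Group G] (H : Subgroup G) (el : ℕ → G)

/-- the value of a word -/
def ev (W : List Letter) : G := (W.map fun p => el p.1).prod

@[simp] theorem ev_nil : ev el [] = 1 := rfl
@[simp] theorem ev_cons (p : Letter) (W : List Letter) : ev el (p :: W) = el p.1 * ev el W := by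
  simp [ev]

/-- the coset representatives -/
def rep (b : ℕ) : G :=
  if _h : par P b < b then rep (par P b) * el (plet P b) else 1
termination_by b

theorem rep_zero : rep P el 0 = 1 := by
  rw [rep]; simp

theorem rep_succ {b : ℕ} (h : par P b < b) : rep P el b = rep P el (par P b) * el (plet P b) := by
  conv_lhs => rw [rep]
  rw [dif_pos h]

theorem rep_one {b : ℕ} (h : ¬ par P b < b) : rep P el b = 1 := by
  rw [rep, dif_neg h]

/-- the same right coset -/
def RC (x y : G) : Prop := x * y⁻¹ ∈ H

variable {H}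
theorem RC.refl (x : G) : RC H x x := by simp [RC, H.one_mem]
theorem RC.symm {x y : G} (h : RC H x y) : RC H y x := by
  have := H.inv_mem h
  simpa [RC] using this
theorem RC.trans {x y z : G} (h : RC H x y) (h' : RC H y z) : RC H x z := by
  have := H.mul_mem h h'
  simpa [RC, mul_assoc] using this
theorem RC.mul_right {x y : G} (h : RC H x y) (g : G) : RC H (x * g) (y * g) := by
  simpa [RC, mul_assoc] using h
variable (H)

/-- all entries of priority larger than `n` are valid -/
structure Val (n : ℕ) : Prop where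
  e : ∀ p ∈ P.LS, ∀ a, n < pri P (slot P p.2.1 a) →
    RC H (rep P el a * el p.1) (rep P el (tgt P (slot P p.2.1 a)))
  q : ∀ a, n < pri P (slot P P.C a) → RC H (rep P el a) (rep P el (tgt P (slot P P.C a)))

/-- the hypotheses on the words -/
structure Hyp : Prop where
  tree : P.tree.All (fun W => (∀ p ∈ W, p ∈ P.LS) ∧ ev el W = 1)
  subs : ∀ XZ ∈ P.subs, (∀ p ∈ XZ.1, p ∈ P.LS) ∧ (∀ p ∈ XZ.2, p ∈ P.LS) ∧
    ev el XZ.1 * ev el XZ.2 ∈ H

variable {P H el}

theorem blt_iff {a b : ℕ} : Nat.blt a b = true ↔ a < b := by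
  unfold Nat.blt
  rw [Nat.ble_eq]
  exact Nat.succ_le_iff

theorem nrm_sound {n : ℕ} (hV : Val P H el n) (d x : ℕ) :
    RC H (rep P el x) (rep P el (nrm P n d x)) := by
  induction d generalizing x with
  | zero => exact RC.refl _
  | succ d ih =>
    show RC H (rep P el x) (rep P el (cond (Nat.blt n (pri P (slot P P.C x)))
      (nrm P n d (tgt P (slot P P.C x))) x))
    cases h : Nat.blt n (pri P (slot P P.C x))
    · exact RC.refl _
    · exact (hV.q x (blt_iff.1 h)).trans (ih _)

theorem trace_sound {n : ℕ} (hV : Val P H el n) (l : List Letter) (hl : ∀ p ∈ l, p ∈ P.LS)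
    (x : ℕ) (hy : trace P n l x ≠ P.M) :
    RC H (rep P el x * ev el l) (rep P el (trace P n l x)) := by
  induction l generalizing x with
  | nil =>
    show RC H (rep P el x * ev el []) (rep P el x)
    simpa using RC.refl _
  | cons p l ih =>
    have e : trace P n (p :: l) x = cond (Nat.blt n (pri P (slot P p.2.1 x)))
      (trace P n l (nrm P n P.D (tgt P (slot P p.2.1 x)))) P.M := rfl
    rw [e] at hy ⊢
    cases h : Nat.blt n (pri P (slot P p.2.1 x))
    · rw [h] at hy; exact absurd rfl hy
    · rw [h] at hy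
      simp only [cond_true] at hy ⊢
      have h1 := hV.e p (hl p (by simp)) x (blt_iff.1 h)
      have h2 := h1.trans (nrm_sound hV P.D _)
      have h3 := ih (fun q hq => hl q (by simp [hq])) _ hy
      have h4 := h2.mul_right (ev el l)
      rw [ev_cons, ← mul_assoc]
      exact h4.trans h3

theorem sel_prop (l : List Letter) (n : ℕ) : sel l n ∈ l ∨ sel l n = (0, 0, 0) := by
  induction l generalizing n with
  | nil => right; rfl
  | cons p l ih =>
    cases n with
    | zero => left; show p ∈ p :: l; simp
    | succ k =>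
      have e : sel (p :: l) (k + 1) = sel l k := rfl
      rw [e]
      rcases ih k with h | h
      · left; simp [h]
      · right; exact h

theorem selS_prop (l : List (List Letter × List Letter)) (n : ℕ) :
    selS l n ∈ l ∨ selS l n = ([], []) := by
  induction l generalizing n with
  | nil => right; rfl
  | cons p l ih =>
    cases n with
    | zero => left; show p ∈ p :: l; simp
    | succ k =>
      have e : selS (p :: l) (k + 1) = selS l k := rfl
      rw [e]
      rcases ih k with h | h
      · left; simp [h]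
      · right; exact h

theorem relE_sound {u : ℕ} (hV : Val P H el u) {p : Letter} {a b : ℕ} (ha : a < P.M)
    {W : List Letter} (hW : (∀ p ∈ W, p ∈ P.LS) ∧ ev el W = 1) (h : relE P p a u b W = true) :
    RC H (rep P el a * el p.1) (rep P el b) := by
  cases W with
  | nil => exact absurd h (by simp [relE])
  | cons q Y =>
    have h' : (Nat.beq q.1 p.1 && Nat.beq (trace P u Y b) a) = true := h
    rw [Bool.and_eq_true, Nat.beq_eq, Nat.beq_eq] at h'
    obtain ⟨h1, h2⟩ := h'
    have h3 := trace_sound hV Y (fun r hr => hW.1 r (by simp [hr])) b (by rw [h2]; omega)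
    rw [h2] at h3
    have h4 := hW.2
    rw [ev_cons, h1] at h4
    have h5 : ev el Y * el p.1 = 1 := by
      have : ev el Y = (el p.1)⁻¹ := (inv_eq_of_mul_eq_one_right h4).symm
      rw [this]; simp
    have h6 := (h3.mul_right (el p.1)).symm
    rwa [mul_assoc, h5, mul_one] at h6

theorem subE_sound {u : ℕ} (hV : Val P H el u) {p : Letter} {a b : ℕ} (ha : a < P.M)
    {XZ : List Letter × List Letter}
    (hW : (∀ p ∈ XZ.1, p ∈ P.LS) ∧ (∀ p ∈ XZ.2, p ∈ P.LS) ∧ ev el XZ.1 * ev el XZ.2 ∈ H)
    (h : subE P p a u b XZ = true) :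
    RC H (rep P el a * el p.1) (rep P el b) := by
  obtain ⟨X, Z⟩ := XZ
  cases Z with
  | nil => exact absurd h (by simp [subE])
  | cons q Y =>
    have h' : (Nat.beq q.1 p.1 && (Nat.beq (trace P u X 0) a && Nat.beq (trace P u Y b) 0))
      = true := h
    rw [Bool.and_eq_true, Bool.and_eq_true, Nat.beq_eq, Nat.beq_eq, Nat.beq_eq] at h'
    obtain ⟨h1, h2, h3⟩ := h'
    have k1 := trace_sound hV X hW.1 0 (by rw [h2]; omega)
    have k2 := trace_sound hV Y (fun r hr => hW.2.1 r (by simp [hr])) b (by rw [h3]; omega)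
    rw [h2, rep_zero, one_mul] at k1
    rw [h3, rep_zero] at k2
    have k3 := hW.2.2
    simp only [ev_cons, h1] at k3
    unfold RC at k1 k2 ⊢
    have := H.mul_mem (H.mul_mem (H.inv_mem k1) k3) (H.inv_mem k2)
    convert this using 1
    group

theorem trE_sound {u : ℕ} (hV : Val P H el u) {p : Letter} (hp : p ∈ P.LS) {a b c : ℕ}
    (h : trE P p a u b c = true) :
    RC H (rep P el a * el p.1) (rep P el b) := by
  unfold trE at h
  rw [Bool.and_eq_true, Bool.and_eq_true, Nat.beq_eq, Nat.beq_eq, blt_iff] at h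
  obtain ⟨h1, h2, h3⟩ := h
  have k1 := nrm_sound hV P.D c
  rw [h1] at k1
  have k2 := hV.e p hp c h2
  have k3 := nrm_sound hV P.D (tgt P (slot P p.2.1 c))
  rw [h3] at k3
  exact ((k1.symm.mul_right _).trans k2).trans k3

theorem chkE1_sound (hyp : Hyp P H el) {u : ℕ} (hV : Val P H el u) {p : Letter} (hp : p ∈ P.LS)
    {a b j : ℕ} (ha : a < P.M) (h : chkE1 P p a u b j = true) :
    RC H (rep P el a * el p.1) (rep P el b) := by
  unfold chkE1 at h
  cases h0 : Nat.beq j 0
  · rw [h0] at h
    simp only [cond_false] at h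
    cases h1 : Nat.ble j P.R
    · rw [h1] at h
      simp only [cond_false] at h
      cases h2 : Nat.blt j P.S
      · rw [h2] at h
        exact trE_sound hV hp h
      · rw [h2] at h
        simp only [cond_true] at h
        rcases selS_prop P.subs (Nat.sub j (Nat.succ P.R)) with h3 | h3
        · exact subE_sound hV ha (hyp.subs _ h3) h
        · rw [h3] at h
          exact absurd h (by simp [subE])
    · rw [h1] at h
      exact relE_sound hV ha (Tr.get_all _ hyp.tree _) h
  · rw [h0] at h
    simp only [cond_true] at h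
    rw [Bool.and_eq_true, Bool.and_eq_true, Nat.beq_eq, Nat.beq_eq, blt_iff] at h
    obtain ⟨h1, h2, h3⟩ := h
    rw [rep_succ P el (b := b) (by rw [h1]; exact h3), h1, h2]
    exact RC.refl _

theorem pri_zero : pri P 0 = 0 := by
  unfold pri
  show 0 >>> P.w = 0
  simp

theorem cong_sound {u : ℕ} (hV : Val P H el u) {x y b : ℕ} {p : Letter}
    (hp : p ∈ P.LS ∨ p = (0, 0, 0)) (h : cong P x u y p b = true) :
    RC H (rep P el x) (rep P el y) := by
  unfold cong at h
  rw [Bool.and_eq_true, Bool.and_eq_true, blt_iff, blt_iff] at h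
  obtain ⟨h1, h2, h3⟩ := h
  rcases hp with hp | rfl
  · have k1 := (hV.e p hp b h1).trans (nrm_sound hV P.D _)
    have k2 := (hV.e p hp _ h2).trans (nrm_sound hV P.D _)
    have k3 := (nrm_sound hV P.D b).mul_right (el p.1)
    have k4 := (k1.symm.trans k3).trans k2
    rw [Bool.or_eq_true, Bool.and_eq_true, Bool.and_eq_true, Nat.beq_eq, Nat.beq_eq, Nat.beq_eq,
      Nat.beq_eq] at h3
    rcases h3 with ⟨e1, e2⟩ | ⟨e1, e2⟩
    · rw [e1, e2]; exact k4
    · rw [e1, e2]; exact k4.symm
  · exfalso
    have : slot P (0, 0, 0).2.1 b = 0 := fld_zero _ _ _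
    rw [this, pri_zero] at h1
    omega

theorem chkC1_sound (hyp : Hyp P H el) {u : ℕ} (hV : Val P H el u) {x y j : ℕ}
    (h : chkC1 P x u y j = true) : RC H (rep P el x) (rep P el y) := by
  unfold chkC1 at h
  cases h0 : Nat.blt j P.R
  · rw [h0] at h
    exact cong_sound hV (sel_prop _ _) h
  · rw [h0] at h
    simp only [cond_true] at h
    rw [Bool.and_eq_true, Nat.beq_eq, blt_iff] at h
    obtain ⟨h1, h2⟩ := h
    have hW := Tr.get_all _ hyp.tree j
    have k := trace_sound hV _ hW.1 x (by rw [h1]; omega)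
    rwa [h1, hW.2, mul_one] at k

theorem rowE_spec {a : ℕ} (h : rowE P a = true) : ∀ p ∈ P.LS, chkE P p a = true := by
  unfold rowE at h
  generalize P.LS = L at h
  induction L with
  | nil => intro p hp; simp at hp
  | cons q L ih =>
    have h' : cond (chkE P q a) (List.rec true (fun p _ ih => cond (chkE P p a) ih false) L)
      false = true := h
    cases hq : chkE P q a
    · rw [hq] at h'; simp at h'
    · rw [hq] at h'
      intro p hp
      rcases List.mem_cons.1 hp with rfl | hp
      · exact hq
      · exact ih h' p hp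

theorem bnd_spec (h : bnd P = true) :
    Nat.shiftRight P.C (Nat.mul P.M P.fw) = 0 ∧ Nat.shiftRight P.AL P.M = 0 ∧ tb P.AL 0 = true ∧
      ∀ p ∈ P.LS, Nat.shiftRight p.2.1 (Nat.mul P.M P.fw) = 0 := by
  unfold bnd at h
  rw [Bool.and_eq_true, Bool.and_eq_true, Bool.and_eq_true, Nat.beq_eq, Nat.beq_eq] at h
  obtain ⟨h1, h2, h3, h4⟩ := h
  refine ⟨h1, h2, h3, ?_⟩
  generalize P.LS = L at h4
  induction L with
  | nil => intro p hp; simp at hp
  | cons q L ih =>
    have h' : cond (Nat.beq (Nat.shiftRight q.2.1 (Nat.mul P.M P.fw)) 0)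
      (List.rec true (fun p _ ih =>
          cond (Nat.beq (Nat.shiftRight p.2.1 (Nat.mul P.M P.fw)) 0) ih false) L) false = true := h4
    cases hq : Nat.beq (Nat.shiftRight q.2.1 (Nat.mul P.M P.fw)) 0
    · rw [hq] at h'; simp at h'
    · rw [hq] at h'
      intro p hp
      rcases List.mem_cons.1 hp with rfl | hp
      · rwa [Nat.beq_eq] at hq
      · exact ih h' p hp

theorem row_spec {a : ℕ} (h : row P a = true) :
    rowE P a = true ∧ chkC P a = true ∧ chkF P a = true := by
  unfold row at h
  cases h1 : rowE P a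
  · rw [h1] at h; simp at h
  · rw [h1] at h
    simp only [cond_true] at h
    cases h2 : chkC P a
    · rw [h2] at h; simp at h
    · rw [h2] at h
      exact ⟨rfl, rfl, h⟩

theorem val_step (hyp : Hyp P H el) (hb : bnd P = true) (hrow : ∀ a < P.M, row P a = true)
    {n : ℕ} (hV : Val P H el (n + 1)) : Val P H el n := by
  obtain ⟨b1, _, _, b4⟩ := bnd_spec hb
  constructor
  · intro p hp a h
    rcases Nat.lt_or_ge (n + 1) (pri P (slot P p.2.1 a)) with h1 | h1
    · exact hV.e p hp a h1
    · have hu : pri P (slot P p.2.1 a) = n + 1 := by omega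
      have ha : a < P.M := by
        by_contra hc
        have : slot P p.2.1 a = 0 := fld_of_shift_zero (b4 p hp) (by omega)
        rw [this, pri_zero] at hu
        omega
      have hc := rowE_spec (row_spec (hrow a ha)).1 p hp
      unfold chkE at hc
      have hz : Nat.beq (pri P (slot P p.2.1 a)) 0 = false := by
        rw [hu]; rfl
      rw [hz, hu] at hc
      exact chkE1_sound hyp hV hp ha hc
  · intro a h
    rcases Nat.lt_or_ge (n + 1) (pri P (slot P P.C a)) with h1 | h1
    · exact hV.q a h1
    · have hu : pri P (slot P P.C a) = n + 1 := by omega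
      have ha : a < P.M := by
        by_contra hc
        have : slot P P.C a = 0 := fld_of_shift_zero b1 (by omega)
        rw [this, pri_zero] at hu
        omega
      have hc := (row_spec (hrow a ha)).2.1
      unfold chkC at hc
      have hz : Nat.beq (pri P (slot P P.C a)) 0 = false := by
        rw [hu]; rfl
      rw [hz, hu] at hc
      exact chkC1_sound hyp hV hc

theorem pri_le (T a : ℕ) : pri P (slot P T a) ≤ P.mf := by
  unfold pri
  calc (slot P T a) >>> P.w ≤ slot P T a := Nat.shiftRight_le _ _
    _ ≤ P.mf := fld_le _ _ _ _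

theorem val_zero (hyp : Hyp P H el) (hb : bnd P = true) (hrow : ∀ a < P.M, row P a = true) :
    Val P H el 0 := by
  have key : ∀ k n, P.mf ≤ n + k → Val P H el n := by
    intro k
    induction k with
    | zero =>
      intro n hn
      exact ⟨fun p _ a h => absurd (pri_le (P := P) p.2.1 a) (by omega),
        fun a h => absurd (pri_le (P := P) P.C a) (by omega)⟩
    | succ k ih =>
      intro n hn
      exact val_step hyp hb hrow (ih (n + 1) (by omega))
  exact key P.mf 0 (by omega)

theorem chkF_spec {a : ℕ} (h : chkF P a = true) (ha : tb P.AL a = true) :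
    ∀ p ∈ P.LS, 0 < pri P (slot P p.2.1 a) ∧
      tb P.AL (nrm P 0 P.D (tgt P (slot P p.2.1 a))) = true := by
  unfold chkF at h
  rw [ha] at h
  simp only [cond_true] at h
  generalize P.LS = L at h
  induction L with
  | nil => intro p hp; simp at hp
  | cons q L ih =>
    have h' : cond (Nat.blt 0 (pri P (slot P q.2.1 a)))
      (cond (tb P.AL (nrm P 0 P.D (tgt P (slot P q.2.1 a))))
        (List.rec true (fun p _ ih => cond (Nat.blt 0 (pri P (slot P p.2.1 a)))
      (cond (tb P.AL (nrm P 0 P.D (tgt P (slot P p.2.1 a)))) ih false) false) L) false) false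
        = true := h
    cases h1 : Nat.blt 0 (pri P (slot P q.2.1 a))
    · rw [h1] at h'; simp at h'
    · rw [h1] at h'
      simp only [cond_true] at h'
      cases h2 : tb P.AL (nrm P 0 P.D (tgt P (slot P q.2.1 a)))
      · rw [h2] at h'; simp at h'
      · rw [h2] at h'
        intro p hp
        rcases List.mem_cons.1 hp with rfl | hp
        · exact ⟨blt_iff.1 h1, h2⟩
        · exact ih h' p hp

/-- The covering theorem: every element of the group lies in `H * rep a` for a live label `a`. -/
theorem cover (hyp : Hyp P H el) (hb : bnd P = true) (hrow : ∀ a < P.M, row P a = true)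
    (hgen : Subgroup.closure {g | ∃ p ∈ P.LS, el p.1 = g} = ⊤)
    (hinv : ∀ p ∈ P.LS, ∃ q ∈ P.LS, el q.1 = (el p.1)⁻¹) (x : G) :
    ∃ a < P.M, tb P.AL a = true ∧ RC H x (rep P el a) := by
  have hV := val_zero hyp hb hrow
  obtain ⟨_, b2, b3, _⟩ := bnd_spec hb
  have hlt : ∀ a, tb P.AL a = true → a < P.M := by
    intro a ha
    by_contra hc
    rw [tb_of_shift_zero b2 (by omega)] at ha
    exact absurd ha (by simp)
  have key : ∀ (x : G) (p : Letter), p ∈ P.LS →
      (∃ a < P.M, tb P.AL a = true ∧ RC H x (rep P el a)) →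
      ∃ a < P.M, tb P.AL a = true ∧ RC H (x * el p.1) (rep P el a) := by
    rintro x p hp ⟨a, ha, hal, hx⟩
    obtain ⟨h1, h2⟩ := chkF_spec (row_spec (hrow a ha)).2.2 hal p hp
    exact ⟨_, hlt _ h2, h2, ((hx.mul_right _).trans (hV.e p hp a h1)).trans (nrm_sound hV _ _)⟩
  have hx : x ∈ Subgroup.closure {g | ∃ p ∈ P.LS, el p.1 = g} := by rw [hgen]; trivial
  induction hx using Subgroup.closure_induction_right with
  | one => exact ⟨0, hlt 0 b3, b3, by rw [rep_zero]; exact RC.refl _⟩
  | mul_right x s _ hs ih =>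
    obtain ⟨p, hp, rfl⟩ := hs
    exact key x p hp ih
  | mul_inv_cancel x s _ hs ih =>
    obtain ⟨p, hp, rfl⟩ := hs
    obtain ⟨q, hq, hqe⟩ := hinv p hp
    have := key x q hq ih
    rwa [hqe] at this

end sound

end

end Cfsg.Agent.Lib.Helper19.TCS
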